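import Cfsg.Agent.H599.TW.TwoFr

/-!
# S3694: frames of planes, one frame (helper599)
-/

set_option autoImplicit false
set_option linter.unusedSectionVars false
set_option linter.style.haveILetI false

namespace Cfsg.Agent.H599.TW

open Subgroup Cfsg.Agent.H607.TW

universe u

variable {F : Type} [Field F] {n : ℕ}

local notation "MM" => Matrix (Fin n) (Fin n) F
local notation "GLL" => Matrix.GeneralLinearGroup (Fin n) F
local notation "SLL" => Matrix.SpecialLinearGroup (Fin n) F

variable {t : ℕ} (E : Fin t × Fin 2 ≃ Fin n)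

/-- The idempotents of the standard frame of planes. -/
def bl (i : Fin t) : MM := blk (fun k => (E.symm k).1) i

theorem bl_apply (i : Fin t) (a c : Fin n) :
    (bl E i : MM) a c = if a = c then (if (E.symm a).1 = i then 1 else 0) else 0 := blk_apply _ _ _ _

/-- `M_2(F)` acting on the `i`-th plane. -/
def J (i : Fin t) (Z : Matrix (Fin 2) (Fin 2) F) : MM := Matrix.of fun k l =>
  if (E.symm k).1 = i ∧ (E.symm l).1 = i then Z (E.symm k).2 (E.symm l).2 else 0

theorem J_apply (i : Fin t) (Z : Matrix (Fin 2) (Fin 2) F) (k l : Fin n) : (J E i Z : MM) k l =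
    if (E.symm k).1 = i ∧ (E.symm l).1 = i then Z (E.symm k).2 (E.symm l).2 else 0 := rfl

theorem J_one (i : Fin t) : (J E i 1 : MM) = bl E i := by
  ext k l
  rw [J_apply, bl_apply]
  by_cases hkl : k = l
  · subst hkl; simp
  · rw [if_neg hkl]
    split_ifs with h
    · rw [Matrix.one_apply_ne]
      intro h2
      apply hkl
      apply E.symm.injective
      exact Prod.ext (h.1.trans h.2.symm) h2
    · rfl

theorem J_inj (i : Fin t) {Z Z' : Matrix (Fin 2) (Fin 2) F} (h : (J E i Z : MM) = J E i Z') : Z = Z' := by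
  ext a b
  have := congrFun (congrFun h (E (i, a))) (E (i, b))
  rw [J_apply, J_apply] at this
  simpa using this

theorem J_mul (i : Fin t) (Z Z' : Matrix (Fin 2) (Fin 2) F) : (J E i Z : MM) * J E i Z' = J E i (Z * Z') := by
  ext k l
  rw [Matrix.mul_apply, ← Equiv.sum_comp E, Fintype.sum_prod_type, J_apply]
  simp only [J_apply, Equiv.symm_apply_apply]
  rw [Finset.sum_eq_single i]
  · by_cases hk : (E.symm k).1 = i
    · by_cases hl : (E.symm l).1 = i
      · simp [hk, hl, Matrix.mul_apply]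
      · simp [hl]
    · simp [hk]
  · intro j _ hj
    apply Finset.sum_eq_zero
    intro a _
    simp [hj]
  · intro h; exact absurd (Finset.mem_univ _) h

theorem J_add (i : Fin t) (Z Z' : Matrix (Fin 2) (Fin 2) F) : (J E i Z : MM) + J E i Z' = J E i (Z + Z') := by
  ext k l
  rw [Matrix.add_apply, J_apply, J_apply, J_apply]
  split_ifs <;> simp

theorem J_sub (i : Fin t) (Z Z' : Matrix (Fin 2) (Fin 2) F) : (J E i Z : MM) - J E i Z' = J E i (Z - Z') := by
  ext k l
  rw [Matrix.sub_apply, J_apply, J_apply, J_apply]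
  split_ifs <;> simp

theorem J_smul (i : Fin t) (c : F) (Z : Matrix (Fin 2) (Fin 2) F) : c • (J E i Z : MM) = J E i (c • Z) := by
  ext k l
  rw [Matrix.smul_apply, J_apply, J_apply]
  split_ifs <;> simp

theorem J_zero (i : Fin t) : (J E i 0 : MM) = 0 := by
  ext k l
  rw [J_apply]
  simp

theorem bl_mul_J (i : Fin t) (Z : Matrix (Fin 2) (Fin 2) F) : (bl E i : MM) * J E i Z = J E i Z := by
  rw [← J_one, J_mul, one_mul]

theorem J_mul_bl (i : Fin t) (Z : Matrix (Fin 2) (Fin 2) F) : (J E i Z : MM) * bl E i = J E i Z := by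
  rw [← J_one, J_mul, mul_one]

theorem bl_mul_bl (i j : Fin t) (hij : i ≠ j) : (bl E i : MM) * bl E j = 0 := by
  ext a c
  have h0 : (bl E i * bl E j : MM) a c = if (E.symm a).1 = i then (bl E j : MM) a c else 0 := blk_mul _ _ _ _ _
  rw [h0, bl_apply, Matrix.zero_apply]
  split_ifs with h1 h2 h3
  · subst h2
    exact absurd (h1.symm.trans h3) hij
  · rfl
  · rfl
  · rfl

theorem bl_idem (i : Fin t) : (bl E i : MM) * bl E i = bl E i := by
  rw [← J_one, J_mul, one_mul]

theorem sum_bl : ∑ i, (bl E i : MM) = 1 := by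
  ext a c
  rw [Matrix.sum_apply]
  simp only [bl_apply]
  by_cases h : a = c
  · subst h; simp
  · simp [h]

theorem bl_ne (i : Fin t) : (bl E i : MM) ≠ 0 := by
  intro h
  have := congrFun (congrFun h (E (i, 0))) (E (i, 0))
  rw [bl_apply, if_pos rfl] at this
  simp at this

theorem bl_mul_J' {i j : Fin t} (hij : j ≠ i) (Z : Matrix (Fin 2) (Fin 2) F) : (bl E j : MM) * J E i Z = 0 := by
  rw [← bl_mul_J, ← mul_assoc, bl_mul_bl E j i hij, zero_mul]

theorem J_mul_bl' {i j : Fin t} (hij : j ≠ i) (Z : Matrix (Fin 2) (Fin 2) F) : (J E i Z : MM) * bl E j = 0 := by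
  rw [← J_mul_bl, mul_assoc, bl_mul_bl E i j hij.symm, mul_zero]

theorem J_comm (i j : Fin t) (Z : Matrix (Fin 2) (Fin 2) F) : (bl E j : MM) * J E i Z = J E i Z * bl E j := by
  by_cases h : j = i
  · subst h; rw [bl_mul_J, J_mul_bl]
  · rw [bl_mul_J' E h, J_mul_bl' E h]

/-- restriction of a matrix to the `i`-th plane -/
def rs (i : Fin t) (y : MM) : Matrix (Fin 2) (Fin 2) F := Matrix.of fun a b => y (E (i, a)) (E (i, b))

theorem mul_bl_eq {i : Fin t} {y : MM} (h : y * bl E i = bl E i * y) : y * bl E i = J E i (rs E i y) := by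
  ext k l
  rw [J_apply]
  have h1 : (y * bl E i : MM) k l = if (E.symm l).1 = i then y k l else 0 := mul_blk _ _ _ _ _
  have h2 : (bl E i * y : MM) k l = if (E.symm k).1 = i then y k l else 0 := blk_mul _ _ _ _ _
  have h3 := congrFun (congrFun h k) l
  rw [h1]
  rw [h1, h2] at h3
  by_cases hl : (E.symm l).1 = i
  · by_cases hk : (E.symm k).1 = i
    · rw [if_pos hl, if_pos ⟨hk, hl⟩]
      change y k l = y (E (i, (E.symm k).2)) (E (i, (E.symm l).2))
      congr 1
      · rw [← hk]; simp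
      · rw [← hl]; simp
    · rw [if_pos hl, if_neg (fun hh => hk hh.1)]
      rw [if_pos hl, if_neg hk] at h3
      exact h3
  · rw [if_neg hl, if_neg (fun hh => hl hh.2)]

/-- The element of `SL_n(F)` acting as `Z ∈ SL_2(F)` on the `i`-th plane. -/
theorem det_J (i : Fin t) (Z : Matrix (Fin 2) (Fin 2) F) : (1 - bl E i + J E i Z : MM).det = Z.det := by
  have h : (1 - bl E i + J E i Z : MM) = (Matrix.blockDiagonal (fun j : Fin t => if j = i then Z else 1)).reindex
      ((Equiv.prodComm _ _).trans E) ((Equiv.prodComm _ _).trans E) := by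
    ext k l
    obtain ⟨⟨i₁, a⟩, rfl⟩ := E.surjective k
    obtain ⟨⟨i₂, c⟩, rfl⟩ := E.surjective l
    rw [Matrix.reindex_apply, Matrix.submatrix_apply, Matrix.add_apply, Matrix.sub_apply, Matrix.one_apply, bl_apply, J_apply]
    simp only [Equiv.symm_trans_apply, Equiv.symm_apply_apply, EmbeddingLike.apply_eq_iff_eq, Prod.mk.injEq]
    change _ = Matrix.blockDiagonal (fun j : Fin t => if j = i then Z else 1) (a, i₁) (c, i₂)
    rw [Matrix.blockDiagonal_apply]
    by_cases h12 : i₁ = i₂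
    · subst h12
      by_cases hi : i₁ = i
      · subst hi; simp
      · simp [hi, Matrix.one_apply]
    · simp only [h12, false_and, if_false]
      rw [if_neg (fun hh => h12 (hh.1.trans hh.2.symm))]
      simp
  rw [h, Matrix.det_reindex_self, Matrix.det_blockDiagonal]
  rw [Finset.prod_eq_single i]
  · simp
  · intro j _ hj; simp [hj]
  · intro hh; exact absurd (Finset.mem_univ _) hh

/-- `SL_2(F)` on the `i`-th plane. -/
def jS (i : Fin t) : Matrix.SpecialLinearGroup (Fin 2) F →* SLL where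
  toFun s := ⟨1 - bl E i + J E i (s : Matrix (Fin 2) (Fin 2) F), by rw [det_J, s.2]⟩
  map_one' := by
    apply Subtype.ext
    change (1 - bl E i + J E i 1 : MM) = 1
    rw [J_one, sub_add_cancel]
  map_mul' s u := by
    apply Subtype.ext
    change (1 - bl E i + J E i ((s * u : Matrix.SpecialLinearGroup (Fin 2) F) : Matrix (Fin 2) (Fin 2) F) : MM) =
      (1 - bl E i + J E i (s : Matrix (Fin 2) (Fin 2) F)) * (1 - bl E i + J E i (u : Matrix (Fin 2) (Fin 2) F))
    rw [Matrix.SpecialLinearGroup.coe_mul, ← J_mul]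
    simp only [add_mul, mul_add, sub_mul, mul_sub, one_mul, mul_one, bl_idem, bl_mul_J, J_mul_bl]
    abel

theorem jS_coe (i : Fin t) (s : Matrix.SpecialLinearGroup (Fin 2) F) :
    ((jS E i s : SLL) : MM) = 1 - bl E i + J E i (s : Matrix (Fin 2) (Fin 2) F) := rfl

theorem jS_mul_bl (i : Fin t) (s : Matrix.SpecialLinearGroup (Fin 2) F) :
    ((jS E i s : SLL) : MM) * bl E i = J E i (s : Matrix (Fin 2) (Fin 2) F) := by
  rw [jS_coe, add_mul, sub_mul, one_mul, bl_idem, sub_self, zero_add, J_mul_bl]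

theorem jS_mul_bl' {i j : Fin t} (hij : j ≠ i) (s : Matrix.SpecialLinearGroup (Fin 2) F) :
    ((jS E i s : SLL) : MM) * bl E j = bl E j := by
  rw [jS_coe, add_mul, sub_mul, one_mul, bl_mul_bl E i j hij.symm, J_mul_bl' E hij, sub_zero, add_zero]

theorem jS_comm (i j : Fin t) (s : Matrix.SpecialLinearGroup (Fin 2) F) :
    ((jS E i s : SLL) : MM) * bl E j = bl E j * ((jS E i s : SLL) : MM) := by
  have h1 : (bl E i : MM) * bl E j = bl E j * bl E i := by
    by_cases h : i = j
    · rw [h]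
    · rw [bl_mul_bl E i j h, bl_mul_bl E j i (Ne.symm h)]
  rw [jS_coe, add_mul, mul_add, sub_mul, mul_sub, one_mul, mul_one, h1, J_comm]

/-- the transvections of `SL_2(F)` -/
def t2 (b : Bool) (c : F) : Matrix.SpecialLinearGroup (Fin 2) F :=
  if b then ⟨!![1, c; 0, 1], by simp [Matrix.det_fin_two]⟩ else ⟨!![1, 0; c, 1], by simp [Matrix.det_fin_two]⟩

theorem coe_mul_inv_S (y : SLL) : (y : MM) * ((y⁻¹ : SLL) : MM) = 1 := by
  rw [← Matrix.SpecialLinearGroup.coe_mul, mul_inv_cancel, Matrix.SpecialLinearGroup.coe_one]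

theorem coe_inv_mul_S (y : SLL) : ((y⁻¹ : SLL) : MM) * (y : MM) = 1 := by
  rw [← Matrix.SpecialLinearGroup.coe_mul, inv_mul_cancel, Matrix.SpecialLinearGroup.coe_one]

/-- a matrix commuting with the frame: inverse -/
theorem inv_comm_of {y : SLL} {x z : MM} (h : (y : MM) * x = z * (y : MM)) : ((y⁻¹ : SLL) : MM) * z = x * ((y⁻¹ : SLL) : MM) := by
  calc ((y⁻¹ : SLL) : MM) * z = ((y⁻¹ : SLL) : MM) * (z * (y : MM)) * ((y⁻¹ : SLL) : MM) := by
        rw [mul_assoc, mul_assoc, coe_mul_inv_S, mul_one]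
    _ = ((y⁻¹ : SLL) : MM) * ((y : MM) * x) * ((y⁻¹ : SLL) : MM) := by rw [h]
    _ = x * ((y⁻¹ : SLL) : MM) := by rw [← mul_assoc, coe_inv_mul_S, one_mul]

theorem one_add_pow {D : MM} (hD : D * D = 0) (m : ℕ) : (1 + D) ^ m = 1 + (m : F) • D := by
  induction m with
  | zero => simp
  | succ m ih =>
    rw [pow_succ, ih, add_mul, one_mul, mul_add, mul_one, Matrix.smul_mul, hD, smul_zero, add_zero]
    push_cast
    rw [add_smul, one_smul]
    abel

/-- A normal `r`-subgroup of the stabilizer of the frame fixes the planes, `r ≠ char F`. -/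
theorem bl_fix {K : Subgroup SLL} {r : ℕ} (hr : (r : F) ≠ 0)
    (hnorm : ∀ i (s : Matrix.SpecialLinearGroup (Fin 2) F), ∀ y ∈ K, jS E i s * y * (jS E i s)⁻¹ ∈ K)
    (hpow : ∀ y ∈ K, ∃ (k : ℕ) (c : F), ((y ^ r ^ k : SLL) : MM) = c • (1 : MM)) {y : SLL} (hy : y ∈ K)
    {i j : Fin t} (hij : (y : MM) * bl E i = bl E j * (y : MM)) : j = i := by
  by_contra hne
  set N : MM := J E i !![0, 1; 0, 0] with hN
  have hNN : N * N = 0 := by
    rw [hN, J_mul]
    have : (!![0, 1; 0, 0] : Matrix (Fin 2) (Fin 2) F) * !![0, 1; 0, 0] = 0 := by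
      ext a b; fin_cases a <;> fin_cases b <;> simp
    rw [this, J_zero]
  have hN0 : N ≠ 0 := by
    intro h
    rw [hN, ← J_zero E i] at h
    have := congrFun (congrFun (J_inj E i h) 0) 1
    simp at this
  have haN : ∀ c : F, ((jS E i (t2 true c) : SLL) : MM) = 1 + c • N := fun c => by
    have h1 : ((t2 true c : Matrix.SpecialLinearGroup (Fin 2) F) : Matrix (Fin 2) (Fin 2) F) = 1 + c • !![0, 1; 0, 0] := by
      simp only [t2]
      ext a b; fin_cases a <;> fin_cases b <;> simp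
    rw [jS_coe, h1, ← J_add, J_one, ← J_smul]
    abel
  set a : SLL := jS E i (t2 true 1) with ha
  have ha1 : (a : MM) = 1 + N := by rw [ha, haN, one_smul]
  have ha2 : ((a⁻¹ : SLL) : MM) = 1 - N := by
    have h1 : (a : MM) * (1 - N) = 1 := by
      rw [ha1, add_mul, mul_sub, mul_sub, hNN]
      simp
    calc ((a⁻¹ : SLL) : MM) = ((a⁻¹ : SLL) : MM) * ((a : MM) * (1 - N)) := by rw [h1, mul_one]
      _ = 1 - N := by rw [← mul_assoc, coe_inv_mul_S, one_mul]
  have hbN : bl E i * N = N := bl_mul_J E i _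
  have hNb : N * bl E i = N := J_mul_bl E i _
  have hbN' : bl E j * N = 0 := bl_mul_J' E hne _
  have hNb' : N * bl E j = 0 := J_mul_bl' E hne _
  have hyi := inv_comm_of hij
  set Y : MM := (y : MM) with hY
  set Yi : MM := ((y⁻¹ : SLL) : MM) with hYi
  have hYY : Y * Yi = 1 := coe_mul_inv_S y
  have hYY' : Yi * Y = 1 := coe_inv_mul_S y
  -- `hyi : Yi * bl j = bl i * Yi`
  set N' : MM := Y * N * Yi with hN'
  have h1 : N' * N = 0 := by
    calc N' * N = Y * (N * bl E i) * Yi * N := by rw [hNb]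
      _ = Y * N * (bl E i * Yi) * N := by simp only [mul_assoc]
      _ = Y * N * Yi * (bl E j * N) := by rw [← hyi]; simp only [mul_assoc]
      _ = 0 := by rw [hbN', mul_zero]
  have h2 : N * N' = 0 := by
    calc N * N' = N * Y * (bl E i * N) * Yi := by rw [hbN, hN']; simp only [mul_assoc]
      _ = N * (Y * bl E i) * N * Yi := by simp only [mul_assoc]
      _ = (N * bl E j) * Y * N * Yi := by rw [hij]; simp only [mul_assoc]
      _ = 0 := by rw [hNb']; simp
  have h3 : N' * N' = 0 := by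
    calc N' * N' = Y * N * (Yi * Y) * N * Yi := by rw [hN']; simp only [mul_assoc]
      _ = Y * (N * N) * Yi := by rw [hYY']; simp only [mul_assoc, one_mul]
      _ = 0 := by rw [hNN]; simp
  have h4 : bl E i * N' = 0 := by
    calc bl E i * N' = bl E i * (Y * (bl E i * N)) * Yi := by rw [hbN, hN']; simp only [mul_assoc]
      _ = bl E i * (Y * bl E i) * N * Yi := by simp only [mul_assoc]
      _ = (bl E i * bl E j) * Y * N * Yi := by rw [hij]; simp only [mul_assoc]
      _ = 0 := by rw [bl_mul_bl E i j (Ne.symm hne)]; simp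
  set D : MM := N' - N with hD
  have hDD : D * D = 0 := by
    rw [hD, sub_mul, mul_sub, mul_sub, h1, h2, h3, hNN]
    simp
  have hD0 : D ≠ 0 := by
    intro h
    have : bl E i * D = 0 := by rw [h, mul_zero]
    rw [hD, mul_sub, h4, hbN, zero_sub, neg_eq_zero] at this
    exact hN0 this
  have hu : ((y * (a * y⁻¹ * a⁻¹) : SLL) : MM) = 1 + D := by
    rw [Matrix.SpecialLinearGroup.coe_mul, Matrix.SpecialLinearGroup.coe_mul, Matrix.SpecialLinearGroup.coe_mul, ha1, ha2]
    calc Y * ((1 + N) * Yi * (1 - N)) = (Y * Yi + Y * N * Yi) * (1 - N) := by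
          rw [add_mul, one_mul, ← mul_assoc, mul_add, ← mul_assoc]
      _ = 1 + D := by
          rw [hYY, ← hN', add_mul, one_mul, mul_sub, mul_one, h1, hD]
          abel
  obtain ⟨k, c, hk⟩ := hpow _ (K.mul_mem hy (hnorm i (t2 true 1) _ (K.inv_mem hy)))
  rw [← ha, Matrix.SpecialLinearGroup.coe_pow, hu, one_add_pow hDD] at hk
  have h5 : (1 - c) • D = 0 := by
    have := congrArg (fun X => X * D) hk
    simp only [add_mul, one_mul, Matrix.smul_mul, hDD, smul_zero, add_zero] at this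
    rw [sub_smul, one_smul, ← this, sub_self]
  rcases smul_eq_zero.mp h5 with h6 | h6
  · rw [← sub_eq_zero.mp h6, one_smul, add_eq_left] at hk
    rcases smul_eq_zero.mp hk with h7 | h7
    · rw [Nat.cast_pow] at h7
      exact pow_ne_zero k hr h7
    · exact hD0 h7
  · exact hD0 h6

theorem t2_inv (b : Bool) (c : F) : (t2 b c)⁻¹ = t2 b (-c) := by
  rw [inv_eq_iff_mul_eq_one]
  apply Subtype.ext
  rw [Matrix.SpecialLinearGroup.coe_mul, Matrix.SpecialLinearGroup.coe_one]
  cases b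
  · change (!![1, 0; c, 1] : Matrix (Fin 2) (Fin 2) F) * !![1, 0; -c, 1] = 1
    rw [Matrix.mul_fin_two, Matrix.one_fin_two]
    simp
  · change (!![1, c; 0, 1] : Matrix (Fin 2) (Fin 2) F) * !![1, -c; 0, 1] = 1
    rw [Matrix.mul_fin_two, Matrix.one_fin_two]
    simp

theorem t2_true (c : F) : ((t2 true c : Matrix.SpecialLinearGroup (Fin 2) F) : Matrix (Fin 2) (Fin 2) F) = !![1, c; 0, 1] := rfl

theorem t2_false (c : F) : ((t2 false c : Matrix.SpecialLinearGroup (Fin 2) F) : Matrix (Fin 2) (Fin 2) F) = !![1, 0; c, 1] := rfl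

/-- **Lemma N** for `GL_2`, characteristic not two. -/
theorem lemmaN (h2 : (2 : F) ≠ 0) {Z : Matrix (Fin 2) (Fin 2) F}
    (H : ∀ (b : Bool) (c : F), c = 1 ∨ c = -1 →
      Z * ((((t2 b c)⁻¹ : Matrix.SpecialLinearGroup (Fin 2) F) : Matrix (Fin 2) (Fin 2) F) * Z * (t2 b c : Matrix.SpecialLinearGroup (Fin 2) F)) =
      (((t2 b c)⁻¹ : Matrix.SpecialLinearGroup (Fin 2) F) : Matrix (Fin 2) (Fin 2) F) * Z * (t2 b c : Matrix.SpecialLinearGroup (Fin 2) F) * Z) :
    ∃ c : F, Z = c • (1 : Matrix (Fin 2) (Fin 2) F) := by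
  have e1 := H true 1 (Or.inl rfl)
  have e2 := H true (-1) (Or.inr rfl)
  have e3 := H false 1 (Or.inl rfl)
  have e4 := H false (-1) (Or.inr rfl)
  rw [t2_inv, t2_true, t2_true, Matrix.eta_fin_two Z, Matrix.mul_fin_two, Matrix.mul_fin_two, Matrix.mul_fin_two,
    Matrix.mul_fin_two] at e1 e2
  rw [t2_inv, t2_false, t2_false, Matrix.eta_fin_two Z, Matrix.mul_fin_two, Matrix.mul_fin_two, Matrix.mul_fin_two,
    Matrix.mul_fin_two] at e3 e4
  have f1 := congrFun (congrFun e1 0) 0
  have f2 := congrFun (congrFun e2 0) 0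
  have f3 := congrFun (congrFun e3 0) 0
  have f4 := congrFun (congrFun e4 0) 0
  have g1 := congrFun (congrFun e1 0) 1
  simp only [Matrix.of_apply, Matrix.cons_val', Matrix.cons_val_zero, Matrix.cons_val_one, Matrix.cons_val_fin_one] at f1 f2 f3 f4 g1
  have h10 : Z 1 0 = 0 := by
    have : 2 * (Z 1 0 * Z 1 0) = 0 := by linear_combination f1 + f2
    rcases mul_eq_zero.mp this with h | h
    · exact absurd h h2
    · exact mul_self_eq_zero.mp h
  have h01 : Z 0 1 = 0 := by
    have : 2 * (Z 0 1 * Z 0 1) = 0 := by linear_combination -f3 - f4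
    rcases mul_eq_zero.mp this with h | h
    · exact absurd h h2
    · exact mul_self_eq_zero.mp h
  rw [h10, h01] at g1
  have h11 : Z 0 0 = Z 1 1 := by
    have : (Z 0 0 - Z 1 1) * (Z 0 0 - Z 1 1) = 0 := by linear_combination g1
    exact sub_eq_zero.mp (mul_self_eq_zero.mp this)
  refine ⟨Z 0 0, ?_⟩
  ext i j
  fin_cases i <;> fin_cases j <;> simp [h10, h01, h11]

/-- `y` acts on the `i`-th plane as `Z` -/
def Res (i : Fin t) (y : MM) (Z : Matrix (Fin 2) (Fin 2) F) : Prop := y * bl E i = J E i Z ∧ bl E i * y = J E i Z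

variable {E}

theorem Res.of_comm {i : Fin t} {y : MM} (h : y * bl E i = bl E i * y) : Res E i y (rs E i y) :=
  ⟨mul_bl_eq E h, by rw [← h, mul_bl_eq E h]⟩

theorem Res.mul {i : Fin t} {y y' : MM} {Z Z' : Matrix (Fin 2) (Fin 2) F} (h : Res E i y Z) (h' : Res E i y' Z') :
    Res E i (y * y') (Z * Z') := by
  constructor
  · rw [mul_assoc, h'.1, ← bl_mul_J E i Z', ← mul_assoc, h.1, J_mul]
  · rw [← mul_assoc, h.2, ← J_mul_bl E i Z, mul_assoc, h'.2, J_mul]

theorem Res.one (i : Fin t) : Res E i (1 : MM) 1 := by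
  constructor
  · rw [one_mul, J_one]
  · rw [mul_one, J_one]

theorem Res.pow {i : Fin t} {y : MM} {Z : Matrix (Fin 2) (Fin 2) F} (h : Res E i y Z) (m : ℕ) : Res E i (y ^ m) (Z ^ m) := by
  induction m with
  | zero => rw [pow_zero, pow_zero]; exact Res.one i
  | succ m ih => rw [pow_succ, pow_succ]; exact ih.mul h

theorem Res.eq {i : Fin t} {y : MM} {Z Z' : Matrix (Fin 2) (Fin 2) F} (h : Res E i y Z) (h' : Res E i y Z') : Z = Z' :=
  J_inj E i (h.1.symm.trans h'.1)

theorem Res.jS (i : Fin t) (s : Matrix.SpecialLinearGroup (Fin 2) F) :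
    Res E i ((jS E i s : SLL) : MM) (s : Matrix (Fin 2) (Fin 2) F) :=
  ⟨jS_mul_bl E i s, by rw [← jS_comm, jS_mul_bl]⟩

/-- If `y` commutes with its conjugates under `SL_2` on the `i`-th plane, it is scalar there. -/
theorem scalar_of (h2 : (2 : F) ≠ 0) {i : Fin t} {y : SLL} (hy : (y : MM) * bl E i = bl E i * (y : MM))
    (H : ∀ (b : Bool) (c : F), c = 1 ∨ c = -1 → y * ((jS E i (t2 b c))⁻¹ * y * jS E i (t2 b c)) =
      (jS E i (t2 b c))⁻¹ * y * jS E i (t2 b c) * y) : ∃ c : F, (y : MM) * bl E i = c • bl E i := by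
  have hZ := Res.of_comm hy
  obtain ⟨c, hc⟩ := lemmaN h2 (Z := rs E i (y : MM)) (fun b c hbc => by
    have h1 := congrArg (fun s : SLL => (s : MM)) (H b c hbc)
    simp only [Matrix.SpecialLinearGroup.coe_mul, ← map_inv] at h1
    have h3 := Res.jS (E := E) i (t2 b c)
    have h4 := Res.jS (E := E) i (t2 b c)⁻¹
    have h5 := hZ.mul ((h4.mul hZ).mul h3)
    have h6 := ((h4.mul hZ).mul h3).mul hZ
    rw [← h1] at h6
    exact h5.eq h6)
  refine ⟨c, ?_⟩
  rw [hZ.1, hc, ← J_smul, J_one]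

theorem two_elems [Fintype F] (h : Fintype.card F = 2) (x : F) : x = 0 ∨ x = 1 := by
  have h1 := FiniteField.pow_card x
  rw [h] at h1
  have h2 : x * (x - 1) = 0 := by linear_combination h1
  rcases mul_eq_zero.mp h2 with h3 | h3
  · exact Or.inl h3
  · exact Or.inr (sub_eq_zero.mp h3)

theorem two_eq_zero [Fintype F] (h : Fintype.card F = 2) : (2 : F) = 0 := by
  have := Nat.cast_card_eq_zero F
  rw [h] at this
  exact_mod_cast this

/-- Over the field of two elements: an element of odd order acts on a plane trivially or without fixed vectors. -/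
theorem dich [Fintype F] (hF : Fintype.card F = 2) {i : Fin t} {y : MM} (hy : y * bl E i = bl E i * y) {m : ℕ} (hm : Odd m)
    (hpow : y ^ m = 1) : y * bl E i = bl E i ∨ (1 + y + y * y) * bl E i = 0 := by
  have hZ := Res.of_comm hy
  set Z := rs E i y with hZdef
  have h20 := two_eq_zero hF
  have hZm : Z ^ m = 1 := by
    have h1 := hZ.pow m
    rw [hpow] at h1
    exact h1.eq (Res.one i)
  have hdet : Z.det = 1 := by
    rcases two_elems hF Z.det with h | h
    · exfalso
      have h1 := congrArg Matrix.det hZm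
      rw [Matrix.det_pow, h, Matrix.det_one, zero_pow (by rcases hm with ⟨k, rfl⟩; omega)] at h1
      exact zero_ne_one h1
    · exact h
  have hCH : Z * Z = (Z 0 0 + Z 1 1) • Z - Z.det • (1 : Matrix (Fin 2) (Fin 2) F) := by
    rw [Matrix.det_fin_two]
    ext a b
    fin_cases a <;> fin_cases b <;> simp [Matrix.mul_apply, Fin.sum_univ_two] <;> ring
  have h2M : ∀ X : Matrix (Fin 2) (Fin 2) F, X + X = 0 := fun X => by
    rw [← two_smul F X, h20, zero_smul]
  rcases two_elems hF (Z 0 0 + Z 1 1) with htr | htr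
  · left
    rw [htr, zero_smul, hdet, one_smul, zero_sub] at hCH
    have hZ2 : Z * Z = 1 := by
      rw [hCH]
      exact neg_eq_of_add_eq_zero_left (h2M 1)
    obtain ⟨k, hk⟩ := hm
    rw [hk, pow_succ, pow_mul, pow_two, hZ2, one_pow, one_mul] at hZm
    rw [hZ.1, hZm, J_one]
  · right
    rw [htr, one_smul, hdet, one_smul] at hCH
    have h1 : 1 + Z + Z * Z = 0 := by
      rw [hCH]
      have := h2M Z
      calc 1 + Z + (Z - 1) = Z + Z := by abel
        _ = 0 := this
    rw [add_mul, add_mul, one_mul, (hZ.mul hZ).1, hZ.1, ← J_one E i, J_add, J_add, h1, J_zero]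

/-- the permutation of the coordinates induced by a permutation of the planes -/
def bperm (E : Fin t × Fin 2 ≃ Fin n) (τ : Equiv.Perm (Fin t)) : Equiv.Perm (Fin n) :=
  E.symm.trans ((Equiv.prodCongrLeft fun _ : Fin 2 => τ).trans E)

theorem bperm_apply (τ : Equiv.Perm (Fin t)) (i : Fin t) (a : Fin 2) : bperm E τ (E (i, a)) = E (τ i, a) := by
  simp [bperm, Equiv.prodCongrLeft]

theorem sign_bperm (τ : Equiv.Perm (Fin t)) : Equiv.Perm.sign (bperm E τ) = 1 := by
  rw [bperm, ← Equiv.trans_assoc, Equiv.Perm.sign_symm_trans_trans, Equiv.Perm.sign_prodCongrLeft, Fin.prod_univ_two]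
  exact Int.units_mul_self _

/-- the element of `SL_n(F)` permuting the planes -/
def bp (E : Fin t × Fin 2 ≃ Fin n) (τ : Equiv.Perm (Fin t)) : SLL :=
  ⟨mon (bperm E τ) (fun _ => 1), by rw [det_mon, sign_bperm]; simp⟩

theorem bp_mul_bl (τ : Equiv.Perm (Fin t)) (i : Fin t) : ((bp E τ : SLL) : MM) * bl E i = bl E (τ i) * ((bp E τ : SLL) : MM) := by
  ext k l
  have h1 : (((bp E τ : SLL) : MM) * bl E i : MM) k l = if (E.symm l).1 = i then ((bp E τ : SLL) : MM) k l else 0 := mul_blk _ _ _ _ _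
  have h2 : (bl E (τ i) * ((bp E τ : SLL) : MM) : MM) k l = if (E.symm k).1 = τ i then ((bp E τ : SLL) : MM) k l else 0 := blk_mul _ _ _ _ _
  rw [h1, h2]
  change (if (E.symm l).1 = i then (if k = bperm E τ l then (1 : F) else 0) else 0) =
    (if (E.symm k).1 = τ i then (if k = bperm E τ l then (1 : F) else 0) else 0)
  by_cases hk : k = bperm E τ l
  · subst hk
    obtain ⟨⟨j, a⟩, rfl⟩ := E.surjective l
    rw [bperm_apply]
    simp only [Equiv.symm_apply_apply, if_true, τ.injective.eq_iff]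
  · rw [if_neg hk]; simp

/-- separation by conjugation with the permutations of the planes -/
theorem sep {K : Subgroup SLL} (hnorm : ∀ τ : Equiv.Perm (Fin t), ∀ y ∈ K, bp E τ * y * (bp E τ)⁻¹ ∈ K) {y : SLL} (hy : y ∈ K)
    {c : Fin t → F} (hc : ∀ j, (y : MM) * bl E j = c j • bl E j) {i j : Fin t} (hij : c i ≠ c j) {k l : Fin t} (hkl : k ≠ l) :
    ∃ y' ∈ K, ∃ c' : Fin t → F, (∀ j, (y' : MM) * bl E j = c' j • bl E j) ∧ c' k ≠ c' l := by
  have hij' : i ≠ j := fun h => hij (by rw [h])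
  obtain ⟨τ, h1, h2⟩ : ∃ τ : Equiv.Perm (Fin t), τ i = k ∧ τ j = l := by
    refine ⟨Equiv.swap (Equiv.swap i k j) l * Equiv.swap i k, ?_, ?_⟩
    · rw [Equiv.Perm.mul_apply, Equiv.swap_apply_left, Equiv.swap_apply_of_ne_of_ne]
      · intro h
        have : Equiv.swap i k i = Equiv.swap i k j := by rw [Equiv.swap_apply_left]; exact h
        exact hij' ((Equiv.swap i k).injective this)
      · exact hkl
    · rw [Equiv.Perm.mul_apply, Equiv.swap_apply_left]
  refine ⟨_, hnorm τ y hy, fun a => c (τ⁻¹ a), fun a => ?_, ?_⟩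
  · have ha : a = τ (τ⁻¹ a) := by simp
    have h3 := inv_comm_of (bp_mul_bl (F := F) (E := E) τ (τ⁻¹ a))
    rw [← ha] at h3
    rw [Matrix.SpecialLinearGroup.coe_mul, Matrix.SpecialLinearGroup.coe_mul, mul_assoc, h3, mul_assoc, ← mul_assoc (y : MM),
      hc, Matrix.smul_mul, Matrix.mul_smul, ← mul_assoc, bp_mul_bl, mul_assoc, coe_mul_inv_S, mul_one, ← ha]
  · have e1 : τ⁻¹ k = i := by rw [← h1]; simp
    have e2 : τ⁻¹ l = j := by rw [← h2]; simp
    change c (τ⁻¹ k) ≠ c (τ⁻¹ l)
    rw [e1, e2]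
    exact hij

end Cfsg.Agent.H599.TW
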