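import Cfsg.Agent.H599.TW.One

/-!
# S3694: lifts, and the elements centralising the stabilizer of a frame of points (helper599)
-/

set_option autoImplicit false
set_option linter.unusedSectionVars false
set_option linter.style.haveILetI false

namespace Cfsg.Agent.H599.TW

open Subgroup Cfsg.Agent.H607.TW

universe u

variable {F : Type} [Field F] {n : ℕ}

local notation "MM" => Matrix (Fin n) (Fin n) F
local notation "GLL" => Matrix.GeneralLinearGroup (Fin n) F
local notation "SLL" => Matrix.SpecialLinearGroup (Fin n) F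

theorem map_mul' (σ : F ≃+* F) (x y : MM) : (x * y).map σ = x.map σ * y.map σ := by
  rw [Matrix.map_mul]

theorem tauP_mul (B : GLL) (σ : F ≃+* F) (x y : MM) : tauP B σ (x * y) = tauP B σ x * tauP B σ y := by
  rw [tauP_apply, tauP_apply, tauP_apply, map_mul']
  calc _ = (B : MM) * x.map σ * 1 * y.map σ * ((B⁻¹ : GLL) : MM) := by simp only [mul_assoc, one_mul]
    _ = _ := by rw [← coe_inv_mul B]; simp only [mul_assoc]

theorem tauM_eq (B : GLL) (σ : F ≃+* F) (x : MM) : tauM B σ x = tauP B σ x.transpose := rfl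

theorem tauM_mul (B : GLL) (σ : F ≃+* F) (x y : MM) : tauM B σ (x * y) = tauM B σ y * tauM B σ x := by
  rw [tauM_eq, tauM_eq, tauM_eq, Matrix.transpose_mul, tauP_mul]

theorem exists_not_comm (hn : 2 ≤ n) : ∃ x y : MM, x * y ≠ y * x := by
  have h01 : (⟨0, by omega⟩ : Fin n) ≠ ⟨1, by omega⟩ := fun h => by simp at h
  refine ⟨Matrix.single ⟨0, by omega⟩ ⟨1, by omega⟩ 1, Matrix.single ⟨1, by omega⟩ ⟨0, by omega⟩ 1, fun h => ?_⟩
  have := congrFun (congrFun h ⟨0, by omega⟩) ⟨0, by omega⟩
  rw [Matrix.single_mul_single_same, Matrix.single_mul_single_same, Matrix.single_apply_same, Matrix.single_apply,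
    if_neg (fun h => h01 h.1.symm)] at this
  rw [mul_one] at this
  exact one_ne_zero this

variable {G : Type u} [Group G] {N A : Subgroup G} {r : ℕ} {S : Type} [Group S]

theorem ind_tauP {ι : S →* GLL} {π : S →* G} (hn : 2 ≤ n) {g : G} {B : GLL} {σ : F ≃+* F}
    (h : Ind ι π g (tauP B σ)) (s : S) : ∃ s' : S, mt ι s' = tauP B σ (mt ι s) ∧ π s' = g * π s * g⁻¹ := by
  rcases h with ⟨_, h⟩ | ⟨h1, _⟩
  · exact h s
  · exfalso
    obtain ⟨x, y, hxy⟩ := exists_not_comm (F := F) hn
    apply hxy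
    apply (tauP B σ).injective
    rw [tauP_mul, ← h1]

theorem ind_tauM {ι : S →* GLL} {π : S →* G} (hn : 2 ≤ n) {g : G} {B : GLL} {σ : F ≃+* F}
    (h : Ind ι π g (tauM B σ)) (s : S) : ∃ s' : S, mt ι s' = tauM B σ (mt ι s) ∧ (π s')⁻¹ = g * π s * g⁻¹ := by
  rcases h with ⟨h1, _⟩ | ⟨_, h⟩
  · exfalso
    obtain ⟨x, y, hxy⟩ := exists_not_comm (F := F) hn
    apply hxy
    apply (tauM B σ).injective
    rw [tauM_mul, ← h1]
  · exact h s

theorem ind_self (π : SLL →* G) (s : SLL) : Ind (iSL n F) π (π s) (cM (iSL n F s)) := by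
  left
  refine ⟨fun x y => cM_mul _ x y, fun t => ⟨s * t * s⁻¹, ?_, by simp⟩⟩
  rw [cM_apply]
  rfl

theorem iSL_inv_coe (s : SLL) : (((iSL n F s)⁻¹ : GLL) : MM) = ((s⁻¹ : SLL) : MM) := by
  rw [← map_inv]
  rfl

/-- elements of `S` lying over `A` permute the frame -/
theorem perm_of_mem {π : SLL →* G} {t : ℕ} {e : Fin t → MM} (hA : Frame (iSL n F) π A e) {s : SLL} (hs : π s ∈ A) (i : Fin t) :
    ∃ j, (s : MM) * e i = e j * (s : MM) := by
  obtain ⟨j, hj⟩ := hA.perm (π s) hs _ (ind_self π s) i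
  refine ⟨j, ?_⟩
  rw [← hj, cM_apply, iSL_inv_coe]
  change _ = (s : MM) * e i * ((s⁻¹ : SLL) : MM) * (s : MM)
  rw [mul_assoc ((s : MM) * e i), ← Matrix.SpecialLinearGroup.coe_mul, inv_mul_cancel, Matrix.SpecialLinearGroup.coe_one, mul_one]

theorem mem_iff {π : SLL →* G} {t : ℕ} {e : Fin t → MM} (hA : Frame (iSL n F) π A e) (s : SLL) :
    π s ∈ A ↔ ∀ i, ∃ j, (s : MM) * e i = e j * (s : MM) :=
  ⟨fun h i => perm_of_mem hA h i, fun h => hA.stab s h⟩

theorem ker_iff {π : SLL →* G} (hM : Model N (iSL n F) π) (s : SLL) : π s = 1 ↔ ∃ c : F, (s : MM) = c • (1 : MM) := hM.ker s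

/-- `x` commutes with `π s`, lift of the first kind -/
theorem comm_P {π : SLL →* G} (hM : Model N (iSL n F) π) {x : G} {B : GLL} {σ : F ≃+* F} (h : Ind (iSL n F) π x (tauP B σ))
    {s : SLL} (hs : x * π s = π s * x) : ∃ z : F, tauP B σ (s : MM) = z • (s : MM) := by
  obtain ⟨s', h1, h2⟩ := ind_tauP hM.two h s
  rw [hs, mul_assoc, mul_inv_cancel, mul_one] at h2
  have h3 : π (s' * s⁻¹) = 1 := by rw [map_mul, map_inv, h2, mul_inv_cancel]
  obtain ⟨z, hz⟩ := (ker_iff hM _).mp h3
  refine ⟨z, ?_⟩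
  rw [← mt_iSL s, ← h1, mt_iSL]
  have : s' = s' * s⁻¹ * s := by group
  rw [this, Matrix.SpecialLinearGroup.coe_mul, hz, Matrix.smul_mul, one_mul]
  rfl

/-- `x` commutes with `π s`, lift of the second kind -/
theorem comm_M {π : SLL →* G} (hM : Model N (iSL n F) π) {x : G} {B : GLL} {σ : F ≃+* F} (h : Ind (iSL n F) π x (tauM B σ))
    {s : SLL} (hs : x * π s = π s * x) : ∃ z : F, tauM B σ (s : MM) * (s : MM) = z • (1 : MM) := by
  obtain ⟨s', h1, h2⟩ := ind_tauM hM.two h s
  rw [hs, mul_assoc, mul_inv_cancel, mul_one] at h2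
  have h3 : π (s' * s) = 1 := by rw [map_mul, ← h2, mul_inv_cancel]
  obtain ⟨z, hz⟩ := (ker_iff hM _).mp h3
  refine ⟨z, ?_⟩
  rw [← mt_iSL s, ← h1, mt_iSL]
  rw [← hz, Matrix.SpecialLinearGroup.coe_mul]
  rfl

/-- An element all of whose lift is trivial is trivial. -/
theorem eq_one_of_tauP {π : SLL →* G} (hM : Model N (iSL n F) π) (hc : centralizer (N : Set G) = ⊥) {x : G} {B : GLL}
    {σ : F ≃+* F} (h : Ind (iSL n F) π x (tauP B σ)) (ht : ∀ y : MM, tauP B σ y = y) : x = 1 := by
  have : x ∈ centralizer (N : Set G) := by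
    rw [mem_centralizer_iff]
    intro g hg
    have hg' : g ∈ π.range := by rw [hM.range]; exact hg
    obtain ⟨s, rfl⟩ := hg'
    obtain ⟨s', h1, h2⟩ := ind_tauP hM.two h s
    rw [ht] at h1
    have : s' = s := Subtype.ext h1
    rw [this] at h2
    rw [eq_comm]
    calc x * π s = x * π s * x⁻¹ * x := by group
      _ = π s * x := by rw [← h2]
  rw [hc, mem_bot] at this
  exact this

theorem blk_map {t : ℕ} (b : Fin n → Fin t) (i : Fin t) (σ : F ≃+* F) : (blk b i : MM).map σ = blk b i := by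
  ext a c
  rw [Matrix.map_apply, blk, Matrix.diagonal_apply]
  split_ifs <;> simp

theorem blk_transpose {t : ℕ} (b : Fin n → Fin t) (i : Fin t) : (blk b i : MM).transpose = blk b i := by
  rw [blk, Matrix.diagonal_transpose]

theorem conj_scalar {B : GLL} {c : F} (hB : (B : MM) = c • (1 : MM)) (y : MM) : (B : MM) * y * ((B⁻¹ : GLL) : MM) = y := by
  have : (B : MM) * y = y * (B : MM) := by rw [hB, Matrix.smul_mul, Matrix.mul_smul, one_mul, mul_one]
  rw [this, mul_assoc, coe_mul_inv, mul_one]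

theorem isMon_of_perm {B : GLL} {σ : F ≃+* F} (h : ∀ k, ∃ l, tauP B σ (blk (id : Fin n → Fin n) k) = blk (id : Fin n → Fin n) l) :
    IsMon (B : MM) := by
  intro k
  obtain ⟨l, hl⟩ := h k
  refine ⟨l, ?_⟩
  rw [← hl, tauP_apply, blk_map, mul_assoc ((B : MM) * _), coe_inv_mul, mul_one]

theorem mon_transpose (σ : Equiv.Perm (Fin n)) (d : Fin n → F) : (mon σ d).transpose = mon σ⁻¹ (fun k => d (σ⁻¹ k)) := by
  ext i k
  rw [Matrix.transpose_apply, mon_apply, mon_apply]
  by_cases h : k = σ i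
  · subst h; simp
  · rw [if_neg h, if_neg]
    intro hh
    apply h
    rw [hh]
    simp

theorem mon_map (σ : Equiv.Perm (Fin n)) (d : Fin n → F) (τ : F ≃+* F) : (mon σ d).map τ = mon σ (fun k => τ (d k)) := by
  ext i k
  rw [Matrix.map_apply, mon_apply, mon_apply]
  split_ifs <;> simp

theorem cent_aux (hn : 3 ≤ n) {ρ : Equiv.Perm (Fin n)} {β : Fin n → F} (hβ : ∀ k, β k ≠ 0)
    (H : ∀ i j : Fin n, i ≠ j → ∃ (f : Fin n → F) (z : F), (∀ k, f k ≠ 0) ∧
      mon ρ β * mon (Equiv.swap i j) f = z • (mon (Equiv.swap i j) f * mon ρ β)) : ρ = 1 ∧ ∀ i j, β i = β j := by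
  classical
  have hthird : ∀ i j : Fin n, ∃ l, l ≠ i ∧ l ≠ j := fun i j => by
    have hc : ({i, j} : Finset (Fin n)).card < (Finset.univ : Finset (Fin n)).card := by
      rw [Finset.card_univ, Fintype.card_fin]
      exact lt_of_le_of_lt (Finset.card_le_two) (by omega)
    obtain ⟨l, _, hl⟩ := Finset.exists_mem_notMem_of_card_lt_card hc
    simp only [Finset.mem_insert, Finset.mem_singleton, not_or] at hl
    exact ⟨l, hl.1, hl.2⟩
  have h1 : ∀ i j : Fin n, i ≠ j → ρ * Equiv.swap i j = Equiv.swap i j * ρ := fun i j hij => by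
    obtain ⟨f, z, hf, h⟩ := H i j hij
    rw [mon_mul, mon_mul, mon_smul] at h
    exact (mon_inj (fun k => mul_ne_zero (hβ _) (hf _)) h).1
  have h2 : ∀ i j : Fin n, i ≠ j → ρ i = i ∨ ρ i = j := fun i j hij => by
    by_contra hcon
    push Not at hcon
    have h := congrArg (fun g : Equiv.Perm (Fin n) => g i) (h1 i j hij)
    simp only [Equiv.Perm.mul_apply, Equiv.swap_apply_left] at h
    rw [Equiv.swap_apply_of_ne_of_ne hcon.1 hcon.2] at h
    exact hij (ρ.injective h).symm
  have hρ : ρ = 1 := by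
    apply Equiv.ext
    intro i
    obtain ⟨j, hj, _⟩ := hthird i i
    obtain ⟨l, hl1, hl2⟩ := hthird i j
    rcases h2 i j hj.symm with h | h
    · exact h
    · rcases h2 i l hl1.symm with h' | h'
      · exact h'
      · exact absurd (h.symm.trans h') (fun hh => hl2 hh.symm)
  refine ⟨hρ, fun i j => ?_⟩
  subst hρ
  by_cases hij : i = j
  · rw [hij]
  obtain ⟨f, z, hf, h⟩ := H i j hij
  rw [mon_mul, mon_mul, mon_smul] at h
  have h3 := (mon_inj (fun k => mul_ne_zero (hβ _) (hf _)) h).2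
  obtain ⟨l, hl1, hl2⟩ := hthird i j
  have h4 := congrFun h3 l
  simp only [Equiv.Perm.one_apply] at h4
  rw [Equiv.swap_apply_of_ne_of_ne hl1 hl2] at h4
  have hz : z = 1 := by
    have : (1 - z) * (f l * β l) = 0 := by linear_combination h4
    rcases mul_eq_zero.mp this with h5 | h5
    · exact (sub_eq_zero.mp h5).symm
    · exact absurd h5 (mul_ne_zero (hf l) (hβ l))
  have h5 := congrFun h3 j
  simp only [Equiv.Perm.one_apply] at h5
  rw [Equiv.swap_apply_right, hz, one_mul, mul_comm (f j)] at h5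
  exact mul_right_cancel₀ (hf j) h5

/-- A lift of the first kind commuting with the monomial group is trivial. -/
theorem cent_P (hn : 3 ≤ n) {B : GLL} {σ : F ≃+* F}
    (hperm : ∀ k, ∃ l, tauP B σ (blk (id : Fin n → Fin n) k) = blk (id : Fin n → Fin n) l)
    (hc : ∀ s : SLL, IsMon (s : MM) → ∃ z : F, tauP B σ (s : MM) = z • (s : MM)) (y : MM) : tauP B σ y = y := by
  classical
  obtain ⟨ρ, β, hB, hβ⟩ := exists_mon (isMon_of_perm hperm) (by
    intro h
    have := congrArg Matrix.det (coe_mul_inv B)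
    rw [Matrix.det_mul, h, zero_mul, Matrix.det_one] at this
    exact zero_ne_one this)
  have key := cent_aux hn hβ (fun i j hij => by
    obtain ⟨s, f, hs, hf⟩ := exists_mon_pm (F := F) (by omega : 0 < n) (Equiv.swap i j)
    obtain ⟨z, hz⟩ := hc s (by rw [hs]; exact isMon_mon _ _)
    have hσ : ∀ k, σ (f k) = f k := fun k => by rcases hf k with h | h <;> rw [h] <;> simp
    refine ⟨f, z, fun k => ?_, ?_⟩
    · rcases hf k with h | h <;> rw [h]
      · exact one_ne_zero
      · exact neg_ne_zero.mpr one_ne_zero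
    · rw [← hB, ← Matrix.smul_mul, ← hs, ← hz, tauP_apply, hs, mon_map]
      simp only [hσ]
      rw [mul_assoc ((B : MM) * _), coe_inv_mul, mul_one])
  obtain ⟨hρ, hββ⟩ := key
  have hBs : (B : MM) = β ⟨0, by omega⟩ • (1 : MM) := by
    rw [hB, hρ, smul_one_eq]
    congr 1
    funext k
    exact hββ _ _
  have hτ : ∀ y : MM, tauP B σ y = y.map σ := fun y => by rw [tauP_apply, conj_scalar hBs]
  have hσ : ∀ x : F, σ x = x := fun x => by
    by_cases hx : x = 0
    · rw [hx, map_zero]
    have h01 : (⟨0, by omega⟩ : Fin n) ≠ ⟨1, by omega⟩ := fun h => by simp at h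
    obtain ⟨z, hz⟩ := hc (torS ⟨0, by omega⟩ ⟨1, by omega⟩ h01 x hx) (by rw [torS_coe]; exact isMon_diagonal _)
    rw [hτ, torS_coe] at hz
    have h1 := congrFun (congrFun hz ⟨2, by omega⟩) ⟨2, by omega⟩
    have h2 := congrFun (congrFun hz ⟨0, by omega⟩) ⟨0, by omega⟩
    rw [Matrix.map_apply, Matrix.smul_apply, Matrix.diagonal_apply_eq] at h1 h2
    have e1 : tor (⟨0, by omega⟩ : Fin n) ⟨1, by omega⟩ x ⟨2, by omega⟩ = 1 := by simp [tor]
    have e2 : tor (⟨0, by omega⟩ : Fin n) ⟨1, by omega⟩ x ⟨0, by omega⟩ = x := by simp [tor]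
    rw [e1, map_one, smul_eq_mul, mul_one] at h1
    rw [e2, ← h1, one_smul] at h2
    exact h2
  rw [hτ]
  ext i j
  rw [Matrix.map_apply, hσ]

/-- A lift of the second kind commuting with the monomial group. -/
theorem cent_M (hn : 3 ≤ n) {B : GLL} {σ : F ≃+* F}
    (hperm : ∀ k, ∃ l, tauM B σ (blk (id : Fin n → Fin n) k) = blk (id : Fin n → Fin n) l)
    (hc : ∀ s : SLL, IsMon (s : MM) → ∃ z : F, tauM B σ (s : MM) * (s : MM) = z • (1 : MM)) :
    (∀ y : MM, tauM B σ y = y.transpose.map σ) ∧ ∀ x : F, x ≠ 0 → σ x * x = 1 := by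
  classical
  obtain ⟨ρ, β, hB, hβ⟩ := exists_mon (isMon_of_perm (B := B) (σ := σ) (fun k => by
      obtain ⟨l, hl⟩ := hperm k
      rw [tauM_eq, blk_transpose] at hl
      exact ⟨l, hl⟩)) (by
    intro h
    have := congrArg Matrix.det (coe_mul_inv B)
    rw [Matrix.det_mul, h, zero_mul, Matrix.det_one] at this
    exact zero_ne_one this)
  have key := cent_aux hn hβ (fun i j hij => by
    obtain ⟨s, f, hs, hf⟩ := exists_mon_pm (F := F) (by omega : 0 < n) (Equiv.swap i j)
    obtain ⟨z, hz⟩ := hc s (by rw [hs]; exact isMon_mon _ _)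
    have hσ : ∀ k, σ (f k) = f k := fun k => by rcases hf k with h | h <;> rw [h] <;> simp
    have hff : ∀ k, f k * f k = 1 := fun k => by rcases hf k with h | h <;> rw [h] <;> simp
    refine ⟨fun k => f ((Equiv.swap i j)⁻¹ k), z, fun k => ?_, ?_⟩
    · change f ((Equiv.swap i j)⁻¹ k) ≠ 0
      rcases hf ((Equiv.swap i j)⁻¹ k) with h | h <;> rw [h]
      · exact one_ne_zero
      · exact neg_ne_zero.mpr one_ne_zero
    · have hT : (s : MM).transpose = mon (Equiv.swap i j) (fun k => f ((Equiv.swap i j)⁻¹ k)) := by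
        rw [hs, mon_transpose, Equiv.swap_inv]
      have hTs : (s : MM).transpose * (s : MM) = 1 := by
        rw [hs, mon_transpose, mon_mul, inv_mul_cancel, mon_one, ← Matrix.diagonal_one]
        congr 1
        funext k
        rw [inv_self', hff]
      have hsT : (s : MM) * (s : MM).transpose = 1 := mul_eq_one_comm.mp hTs
      have hTσ : ((s : MM).transpose).map σ = (s : MM).transpose := by
        rw [hT, mon_map]
        simp only [hσ]
      rw [tauM_apply, hTσ] at hz
      rw [← hB, ← hT]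
      have h1 : (B : MM) * (s : MM).transpose * ((B⁻¹ : GLL) : MM) = z • (s : MM).transpose := by
        calc _ = ((B : MM) * (s : MM).transpose * ((B⁻¹ : GLL) : MM) * (s : MM)) * (s : MM).transpose := by
              rw [mul_assoc _ (s : MM), hsT, mul_one]
          _ = _ := by rw [hz, Matrix.smul_mul, one_mul]
      calc (B : MM) * (s : MM).transpose = (B : MM) * (s : MM).transpose * ((B⁻¹ : GLL) : MM) * (B : MM) := by
            rw [mul_assoc _ ((B⁻¹ : GLL) : MM), coe_inv_mul, mul_one]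
        _ = _ := by rw [h1, Matrix.smul_mul])
  obtain ⟨hρ, hββ⟩ := key
  have hBs : (B : MM) = β ⟨0, by omega⟩ • (1 : MM) := by
    rw [hB, hρ, smul_one_eq]
    congr 1
    funext k
    exact hββ _ _
  have hτ : ∀ y : MM, tauM B σ y = y.transpose.map σ := fun y => by rw [tauM_apply, conj_scalar hBs]
  refine ⟨hτ, fun x hx => ?_⟩
  have h01 : (⟨0, by omega⟩ : Fin n) ≠ ⟨1, by omega⟩ := fun h => by simp at h
  obtain ⟨z, hz⟩ := hc (torS ⟨0, by omega⟩ ⟨1, by omega⟩ h01 x hx) (by rw [torS_coe]; exact isMon_diagonal _)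
  rw [hτ, torS_coe, Matrix.diagonal_transpose] at hz
  have h1 := congrFun (congrFun hz ⟨2, by omega⟩) ⟨2, by omega⟩
  have h2 := congrFun (congrFun hz ⟨0, by omega⟩) ⟨0, by omega⟩
  rw [Matrix.mul_diagonal, Matrix.map_apply, Matrix.smul_apply, Matrix.diagonal_apply_eq, Matrix.one_apply_eq] at h1 h2
  have e1 : tor (⟨0, by omega⟩ : Fin n) ⟨1, by omega⟩ x ⟨2, by omega⟩ = 1 := by simp [tor]
  have e2 : tor (⟨0, by omega⟩ : Fin n) ⟨1, by omega⟩ x ⟨0, by omega⟩ = x := by simp [tor]
  rw [e1, map_one, smul_eq_mul, mul_one, mul_one] at h1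
  rw [e2, ← h1, one_smul] at h2
  exact h2

theorem card_le_four [Fintype F] {σ : F ≃+* F} (h : ∀ x : F, x ≠ 0 → σ x * x = 1) : Fintype.card F ≤ 4 := by
  classical
  have h1 : ∀ x : F, x ≠ 0 → x ≠ -1 → x ^ 2 + x + 1 = 0 := fun x hx hx1 => by
    have hx2 : x + 1 ≠ 0 := fun hh => hx1 (eq_neg_of_add_eq_zero_left hh)
    have e1 := h x hx
    have e2 := h (x + 1) hx2
    rw [map_add, map_one] at e2
    -- (σ x + 1) (x + 1) = 1, σ x * x = 1
    have : x * ((σ x + 1) * (x + 1)) = x := by rw [e2, mul_one]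
    linear_combination this - (x + 1) * e1
  let p : Polynomial F := Polynomial.X ^ 2 + Polynomial.X + 1
  have hp : p.natDegree = 2 := by
    simp only [p]
    compute_degree!
  have hp0 : p ≠ 0 := fun h0 => by rw [h0, Polynomial.natDegree_zero] at hp; omega
  have hsub : (Finset.univ : Finset F) ⊆ p.roots.toFinset ∪ {0, -1} := by
    intro x _
    rw [Finset.mem_union, Finset.mem_insert, Finset.mem_singleton, Multiset.mem_toFinset, Polynomial.mem_roots hp0]
    by_cases hx : x = 0
    · exact Or.inr (Or.inl hx)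
    by_cases hx1 : x = -1
    · exact Or.inr (Or.inr hx1)
    left
    rw [Polynomial.IsRoot.def]
    simp only [p, Polynomial.eval_add, Polynomial.eval_pow, Polynomial.eval_X, Polynomial.eval_one]
    exact h1 x hx hx1
  have hc := Finset.card_le_card hsub
  rw [Finset.card_univ] at hc
  have h2 : (p.roots.toFinset ∪ {0, -1}).card ≤ 2 + 2 := by
    refine (Finset.card_union_le _ _).trans (Nat.add_le_add ?_ Finset.card_le_two)
    refine (Multiset.toFinset_card_le _).trans ?_
    rw [← hp]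
    exact Polynomial.card_roots' p
  omega

/-- In characteristic three there is an orthogonal matrix which is not monomial, `n ≥ 4`. -/
theorem exists_orth (hn : 4 ≤ n) (h3 : (3 : F) = 0) : ∃ s : SLL, (s : MM).transpose * (s : MM) = 1 ∧ ¬ IsMon (s : MM) := by
  classical
  let v : Fin n → F := fun k => if k.1 < 4 then 1 else 0
  let V : MM := Matrix.vecMulVec v v
  have hvv : v ⬝ᵥ v = 1 := by
    have h1 : v ⬝ᵥ v = ∑ k : Fin n, if k.1 < 4 then (1 : F) else 0 := by
      rw [dotProduct]
      apply Finset.sum_congr rfl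
      intro k _
      simp only [v]
      split_ifs <;> simp
    rw [h1, ← Finset.sum_filter, Finset.sum_const, nsmul_eq_mul, mul_one]
    have h2 : (Finset.univ.filter fun k : Fin n => k.1 < 4).card = 4 := by
      have : (Finset.univ.filter fun k : Fin n => k.1 < 4) = (Finset.univ : Finset (Fin 4)).map (Fin.castLEEmb hn) := by
        ext k
        simp only [Finset.mem_filter, Finset.mem_univ, true_and, Finset.mem_map, Fin.castLEEmb_apply]
        constructor
        · intro hk
          exact ⟨⟨k.1, hk⟩, by ext; rfl⟩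
        · rintro ⟨a, rfl⟩
          exact a.2
      rw [this, Finset.card_map, Finset.card_univ, Fintype.card_fin]
    rw [h2]
    push_cast
    linear_combination h3
  have hVV : V * V = V := by
    simp only [V]
    rw [Matrix.vecMulVec_mul_vecMulVec, hvv, one_smul]
  have hVT : V.transpose = V := by
    simp only [V]
    rw [Matrix.transpose_vecMulVec]
  let D : MM := Matrix.diagonal (Function.update (fun _ => (1 : F)) ⟨0, by omega⟩ (-1))
  have hDD : D * D = 1 := by
    simp only [D]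
    rw [Matrix.diagonal_mul_diagonal, ← Matrix.diagonal_one]
    congr 1
    funext k
    by_cases hk : k = ⟨0, by omega⟩
    · subst hk; simp
    · rw [Function.update_of_ne hk]; simp
  have hDT : D.transpose = D := Matrix.diagonal_transpose _
  have hdD : D.det = -1 := by
    simp only [D]
    rw [Matrix.det_diagonal, Finset.prod_update_of_mem (Finset.mem_univ _)]
    simp
  have hdV : (1 + V).det = -1 := by
    simp only [V]
    rw [Matrix.vecMulVec_eq Unit, Matrix.det_one_add_replicateCol_mul_replicateRow, hvv]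
    linear_combination h3
  have h11 : (1 + V) * (1 + V) = 1 := by
    have : (1 + V) * (1 + V) = 1 + (3 : F) • V := by
      rw [mul_add, add_mul, add_mul, hVV, one_mul, one_mul, mul_one]
      have : (3 : F) • V = V + V + V := by
        rw [show (3 : F) = 1 + 1 + 1 by norm_num, add_smul, add_smul, one_smul]
      rw [this]
      abel
    rw [this, h3, zero_smul, add_zero]
  refine ⟨⟨(1 + V) * D, by rw [Matrix.det_mul, hdV, hdD]; ring⟩, ?_, ?_⟩
  · change ((1 + V) * D).transpose * ((1 + V) * D) = 1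
    rw [Matrix.transpose_mul, Matrix.transpose_add, Matrix.transpose_one, hVT, hDT]
    calc D * (1 + V) * ((1 + V) * D) = D * ((1 + V) * (1 + V)) * D := by simp only [mul_assoc]
      _ = 1 := by rw [h11, mul_one, hDD]
  · intro h
    obtain ⟨σ, d, h1, h2⟩ := exists_mon h (by
      change ((1 + V) * D).det ≠ 0
      rw [Matrix.det_mul, hdV, hdD]
      simp)
    change (1 + V) * D = mon σ d at h1
    have e : ∀ i : Fin n, i.1 < 4 → i.1 ≠ 1 → ((1 + V) * D) i ⟨1, by omega⟩ ≠ 0 := fun i hi hi1 => by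
      simp only [D]
      rw [Matrix.mul_diagonal, Function.update_of_ne (fun hh => by simp at hh), mul_one, Matrix.add_apply,
        Matrix.one_apply_ne (fun hh => hi1 (by rw [hh])), zero_add]
      simp only [V, v]
      rw [Matrix.vecMulVec_apply, if_pos hi, if_pos (by simp)]
      simp
    have e0 := e ⟨0, by omega⟩ (by simp) (by simp)
    have e2 := e ⟨2, by omega⟩ (by simp) (by simp)
    rw [h1, mon_apply] at e0 e2
    have f0 : (⟨0, by omega⟩ : Fin n) = σ ⟨1, by omega⟩ := by
      by_contra hh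
      rw [if_neg hh] at e0
      exact e0 rfl
    have f2 : (⟨2, by omega⟩ : Fin n) = σ ⟨1, by omega⟩ := by
      by_contra hh
      rw [if_neg hh] at e2
      exact e2 rfl
    have := f0.trans f2.symm
    simp at this

end Cfsg.Agent.H599.TW
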