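import Cfsg.Agent.H599.TW.TwoBl

/-!
# S3694: the case `A₂ ∩ N = 1` for a frame of planes (helper599)
-/

set_option autoImplicit false
set_option linter.unusedSectionVars false
set_option linter.style.haveILetI false

namespace Cfsg.Agent.H599.TW

open Subgroup Cfsg.Agent.H607.TW

universe u

variable {F : Type} [Field F] {n : ℕ}

local notation "MM" => Matrix (Fin n) (Fin n) F
local notation "GLL" => Matrix.GeneralLinearGroup (Fin n) F
local notation "SLL" => Matrix.SpecialLinearGroup (Fin n) F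

variable {t : ℕ} {G : Type u} [Group G] {N A : Subgroup G} {r : ℕ}

theorem tauM_tauM (B : GLL) (σ : F ≃+* F) (y : MM) :
    tauM B σ (tauM B σ y) = tauP (B * gmap σ (gtr B⁻¹)) (σ.trans σ) y := by
  rw [tauM_apply, tauM_apply, tauP_apply]
  have h1 : (((B * gmap σ (gtr B⁻¹) : GLL)) : MM) = (B : MM) * (((B⁻¹ : GLL) : MM).transpose).map σ := rfl
  have h2 : (((B * gmap σ (gtr B⁻¹))⁻¹ : GLL) : MM) = (((B : MM).transpose).map σ) * ((B⁻¹ : GLL) : MM) := by
    rw [mul_inv_rev]
    have : (((gmap σ (gtr B⁻¹))⁻¹ : GLL) : MM) = ((B : MM).transpose).map σ := by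
      change ((((B⁻¹)⁻¹ : GLL) : MM).transpose).map σ = _
      rw [inv_inv]
    rw [← this]
    rfl
  rw [h1, h2, Matrix.transpose_mul, Matrix.transpose_mul, map_mul', map_mul']
  have h3 : ((y.transpose.map σ).transpose).map σ = y.map (σ.trans σ) := by
    ext i j; rfl
  rw [h3]
  simp only [mul_assoc]

theorem ind_sq {π : SLL →* G} (hn : 2 ≤ n) {w : G} {B : GLL} {σ : F ≃+* F} (h : Ind (iSL n F) π w (tauM B σ)) :
    Ind (iSL n F) π (w ^ 2) (tauP (B * gmap σ (gtr B⁻¹)) (σ.trans σ)) := by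
  left
  refine ⟨tauP_mul _ _, fun s => ?_⟩
  obtain ⟨s₁, e1, e2⟩ := ind_tauM hn h s
  obtain ⟨s₂, e3, e4⟩ := ind_tauM hn h s₁
  refine ⟨s₂, by rw [e3, e1, tauM_tauM], ?_⟩
  have e7 : π s₁ = (w * π s * w⁻¹)⁻¹ := by rw [← e2, inv_inv]
  rw [e7] at e4
  have := congrArg (fun z => z⁻¹) e4
  simp only [inv_inv, mul_inv_rev] at this
  rw [this, pow_two]
  group

theorem ring_id [Fintype F] (hq : Fintype.card F ≤ 3) (σ : F ≃+* F) (x : F) : σ x = x := by
  by_cases hx : x = 0
  · rw [hx, map_zero]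
  have h1 := Fintype.one_lt_card (α := F)
  rcases (by omega : Fintype.card F = 2 ∨ Fintype.card F = 3) with h2 | h2
  · rcases two_elems h2 x with h | h
    · exact absurd h hx
    · rw [h, map_one]
  · have h3 := FiniteField.pow_card_sub_one_eq_one x hx
    rw [h2] at h3
    have h4 : (x - 1) * (x + 1) = 0 := by
      have : x ^ 2 = 1 := h3
      linear_combination this
    rcases mul_eq_zero.mp h4 with h | h
    · rw [sub_eq_zero.mp h, map_one]
    · rw [eq_neg_of_add_eq_zero_left h, map_neg, map_one]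

theorem map_id [Fintype F] (hq : Fintype.card F ≤ 3) (σ : F ≃+* F) (y : MM) : y.map σ = y := by
  ext i j
  rw [Matrix.map_apply, ring_id hq]

/-- the elementary matrices -/
def e01 (F : Type) [Field F] : Matrix (Fin 2) (Fin 2) F := !![0, 1; 0, 0]
def e10 (F : Type) [Field F] : Matrix (Fin 2) (Fin 2) F := !![0, 0; 1, 0]

theorem e01_sq : e01 F * e01 F = 0 := by
  ext a b; fin_cases a <;> fin_cases b <;> simp [e01]
theorem e10_sq : e10 F * e10 F = 0 := by
  ext a b; fin_cases a <;> fin_cases b <;> simp [e10]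
theorem e_sum : e01 F * e10 F + e10 F * e01 F = 1 := by
  ext a b; fin_cases a <;> fin_cases b <;> simp [e01, e10]
theorem e01_T : (e01 F).transpose = e10 F := by
  ext a b; fin_cases a <;> fin_cases b <;> simp [e01, e10]
theorem e10_T : (e10 F).transpose = e01 F := by
  ext a b; fin_cases a <;> fin_cases b <;> simp [e01, e10]
theorem e01_ne : e01 F ≠ 0 := fun h => by
  have := congrFun (congrFun h 0) 1
  simp [e01] at this
theorem e10_ne : e10 F ≠ 0 := fun h => by
  have := congrFun (congrFun h 1) 0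
  simp [e10] at this

variable {E : Fin t × Fin 2 ≃ Fin n}

theorem jS_t2_true (i : Fin t) : ((jS E i (t2 true 1) : SLL) : MM) = 1 + J E i (e01 F) := by
  have h1 : ((t2 true 1 : Matrix.SpecialLinearGroup (Fin 2) F) : Matrix (Fin 2) (Fin 2) F) = 1 + e01 F := by
    rw [t2_true]
    ext a b; fin_cases a <;> fin_cases b <;> simp [e01]
  rw [jS_coe, h1, ← J_add, J_one]
  abel

theorem jS_t2_false (i : Fin t) : ((jS E i (t2 false 1) : SLL) : MM) = 1 + J E i (e10 F) := by
  have h1 : ((t2 false 1 : Matrix.SpecialLinearGroup (Fin 2) F) : Matrix (Fin 2) (Fin 2) F) = 1 + e10 F := by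
    rw [t2_false]
    ext a b; fin_cases a <;> fin_cases b <;> simp [e10]
  rw [jS_coe, h1, ← J_add, J_one]
  abel

theorem J_T (i : Fin t) (Z : Matrix (Fin 2) (Fin 2) F) : (J E i Z : MM).transpose = J E i Z.transpose := by
  ext k l
  rw [Matrix.transpose_apply, J_apply, J_apply]
  by_cases h : (E.symm k).1 = i ∧ (E.symm l).1 = i
  · rw [if_pos h, if_pos ⟨h.2, h.1⟩]; rfl
  · rw [if_neg h, if_neg (fun hh => h ⟨hh.2, hh.1⟩)]

/-- unipotent elements are not multiplied by a scalar -/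
theorem unip {B : GLL} {N' N : MM} (hN : N * N = 0) (hN' : N' * N' = 0) (hne : N ≠ 0) {z : F}
    (h : (B : MM) * (1 + N') * ((B⁻¹ : GLL) : MM) = z • (1 + N)) : (B : MM) * N' = N * (B : MM) := by
  have h1 : (B : MM) * N' * ((B⁻¹ : GLL) : MM) = (z - 1) • (1 : MM) + z • N := by
    have h2 : (B : MM) * (1 + N') * ((B⁻¹ : GLL) : MM) = 1 + (B : MM) * N' * ((B⁻¹ : GLL) : MM) := by
      rw [mul_add, mul_one, add_mul, coe_mul_inv]
    rw [h2] at h
    have h3 : (B : MM) * N' * ((B⁻¹ : GLL) : MM) = z • (1 + N) - 1 := by rw [← h]; abel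
    rw [h3, smul_add, sub_smul, one_smul]
    abel
  have h4 : ((z - 1) • (1 : MM) + z • N) * ((z - 1) • (1 : MM) + z • N) = 0 := by
    rw [← h1]
    calc _ = (B : MM) * N' * (((B⁻¹ : GLL) : MM) * (B : MM)) * N' * ((B⁻¹ : GLL) : MM) := by simp only [mul_assoc]
      _ = (B : MM) * (N' * N') * ((B⁻¹ : GLL) : MM) := by rw [coe_inv_mul]; simp only [mul_assoc, one_mul]
      _ = 0 := by rw [hN', mul_zero, zero_mul]
  have h5 : ((z - 1) * (z - 1)) • N = 0 := by
    have h6 : ((z - 1) • (1 : MM) + z • N) * (((z - 1) • (1 : MM) + z • N) * N) = 0 := by rw [← mul_assoc, h4, zero_mul]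
    have h7 : ((z - 1) • (1 : MM) + z • N) * N = (z - 1) • N := by
      rw [add_mul, Matrix.smul_mul, one_mul, Matrix.smul_mul, hN, smul_zero, add_zero]
    rw [h7, Matrix.mul_smul, h7, smul_smul] at h6
    exact h6
  have hz : z = 1 := by
    rcases smul_eq_zero.mp h5 with h8 | h8
    · exact sub_eq_zero.mp (mul_self_eq_zero.mp h8)
    · exact absurd h8 hne
  rw [hz, sub_self, zero_smul, zero_add, one_smul] at h1
  calc (B : MM) * N' = (B : MM) * N' * ((B⁻¹ : GLL) : MM) * (B : MM) := by rw [mul_assoc _ ((B⁻¹ : GLL) : MM), coe_inv_mul, mul_one]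
    _ = N * (B : MM) := by rw [h1]

theorem scalar_of_e {Z : Matrix (Fin 2) (Fin 2) F} (h1 : Z * e01 F = e01 F * Z) (h2 : Z * e10 F = e10 F * Z) :
    Z = Z 0 0 • (1 : Matrix (Fin 2) (Fin 2) F) := by
  rw [e01, Matrix.eta_fin_two Z, Matrix.mul_fin_two, Matrix.mul_fin_two] at h1
  rw [e10, Matrix.eta_fin_two Z, Matrix.mul_fin_two, Matrix.mul_fin_two] at h2
  have f1 := congrFun (congrFun h1 0) 0
  have f2 := congrFun (congrFun h1 0) 1
  have f3 := congrFun (congrFun h2 0) 0
  simp only [Matrix.of_apply, Matrix.cons_val', Matrix.cons_val_zero, Matrix.cons_val_one, Matrix.cons_val_fin_one] at f1 f2 f3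
  have h10 : Z 1 0 = 0 := by linear_combination -f1
  have h01 : Z 0 1 = 0 := by linear_combination f3
  have h11 : Z 1 1 = Z 0 0 := by linear_combination -f2
  ext i j
  fin_cases i <;> fin_cases j <;> simp [h10, h01, h11]

theorem GLL_mul_ne {B : GLL} {x : MM} (hx : x ≠ 0) : (B : MM) * x ≠ 0 := by
  intro h
  apply hx
  calc x = ((B⁻¹ : GLL) : MM) * ((B : MM) * x) := by rw [← mul_assoc, coe_inv_mul, one_mul]
    _ = 0 := by rw [h, mul_zero]

theorem SLL_mul_ne {s : SLL} {x : MM} (hx : x ≠ 0) : x * (s : MM) ≠ 0 := by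
  intro h
  apply hx
  calc x = x * (s : MM) * ((s⁻¹ : SLL) : MM) := by rw [mul_assoc, coe_mul_inv_S, mul_one]
    _ = 0 := by rw [h, zero_mul]

/-- lifts of the first kind -/
theorem centBl_P [Fintype F] (hq : Fintype.card F ≤ 3) (ht : 3 ≤ t) {B : GLL} {σ : F ≃+* F}
    (hJ : ∀ i (s : Matrix.SpecialLinearGroup (Fin 2) F), ∃ z : F, tauP B σ ((jS E i s : SLL) : MM) = z • ((jS E i s : SLL) : MM))
    (hB : ∀ τ : Equiv.Perm (Fin t), ∃ z : F, tauP B σ ((bp E τ : SLL) : MM) = z • ((bp E τ : SLL) : MM)) (y : MM) :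
    tauP B σ y = y := by
  classical
  have hτ : ∀ y : MM, tauP B σ y = (B : MM) * y * ((B⁻¹ : GLL) : MM) := fun y => by rw [tauP_apply, map_id hq]
  have h01 : ∀ i, (B : MM) * J E i (e01 F) = J E i (e01 F) * (B : MM) := fun i => by
    obtain ⟨z, hz⟩ := hJ i (t2 true 1)
    rw [hτ, jS_t2_true] at hz
    exact unip (by rw [J_mul, e01_sq, J_zero]) (by rw [J_mul, e01_sq, J_zero]) (fun h => e01_ne (F := F) (J_inj E i (by rw [h, J_zero]))) hz
  have h10 : ∀ i, (B : MM) * J E i (e10 F) = J E i (e10 F) * (B : MM) := fun i => by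
    obtain ⟨z, hz⟩ := hJ i (t2 false 1)
    rw [hτ, jS_t2_false] at hz
    exact unip (by rw [J_mul, e10_sq, J_zero]) (by rw [J_mul, e10_sq, J_zero]) (fun h => e10_ne (F := F) (J_inj E i (by rw [h, J_zero]))) hz
  have hbl : ∀ i, (B : MM) * bl E i = bl E i * (B : MM) := fun i => by
    rw [← J_one, ← e_sum, ← J_add, ← J_mul, ← J_mul, mul_add, add_mul, ← mul_assoc, h01, mul_assoc, h10, ← mul_assoc,
      ← mul_assoc, h10, mul_assoc (J E i (e10 F)), h01, ← mul_assoc]
  have hβ : ∀ i, ∃ β : F, (B : MM) * bl E i = β • bl E i := fun i => by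
    have hZ := Res.of_comm (hbl i)
    have h1 : Res E i (J E i (e01 F)) (e01 F) := ⟨J_mul_bl E i _, bl_mul_J E i _⟩
    have h2 : Res E i (J E i (e10 F)) (e10 F) := ⟨J_mul_bl E i _, bl_mul_J E i _⟩
    have h3 := hZ.mul h1
    rw [h01] at h3
    have h4 := hZ.mul h2
    rw [h10] at h4
    have h5 := scalar_of_e (h3.eq (h1.mul hZ)) (h4.eq (h2.mul hZ))
    refine ⟨rs E i (B : MM) 0 0, ?_⟩
    rw [hZ.1, ← J_one, J_smul, ← h5]
  choose β hβ using hβ
  have hβ0 : ∀ i, β i ≠ 0 := fun i h => by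
    have := GLL_mul_ne (B := B) (bl_ne (F := F) E i)
    rw [hβ i, h, zero_smul] at this
    exact this rfl
  have hββ : ∀ i j, β i = β j := fun i j => by
    by_cases hij : i = j
    · rw [hij]
    obtain ⟨l, hl1, hl2⟩ : ∃ l : Fin t, l ≠ i ∧ l ≠ j := by
      have hc : ({i, j} : Finset (Fin t)).card < (Finset.univ : Finset (Fin t)).card := by
        rw [Finset.card_univ, Fintype.card_fin]
        exact lt_of_le_of_lt (Finset.card_le_two) (by omega)
      obtain ⟨l, _, hl⟩ := Finset.exists_mem_notMem_of_card_lt_card hc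
      simp only [Finset.mem_insert, Finset.mem_singleton, not_or] at hl
      exact ⟨l, hl.1, hl.2⟩
    obtain ⟨z, hz⟩ := hB (Equiv.swap i j)
    rw [hτ] at hz
    have h6 : (B : MM) * ((bp E (Equiv.swap i j) : SLL) : MM) = z • (((bp E (Equiv.swap i j) : SLL) : MM) * (B : MM)) := by
      rw [← Matrix.smul_mul, ← hz, mul_assoc _ ((B⁻¹ : GLL) : MM), coe_inv_mul, mul_one]
    have h7 : ∀ m, β (Equiv.swap i j m) = z * β m := fun m => by
      have h8 := congrArg (fun X => X * bl E m) h6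
      simp only [Matrix.smul_mul] at h8
      rw [mul_assoc, bp_mul_bl, ← mul_assoc, hβ, Matrix.smul_mul, mul_assoc, hβ, Matrix.mul_smul, bp_mul_bl, smul_smul] at h8
      have h9 : (β (Equiv.swap i j m) - z * β m) • (bl E (Equiv.swap i j m) * ((bp E (Equiv.swap i j) : SLL) : MM)) = 0 := by
        rw [sub_smul, h8, sub_self]
      rcases smul_eq_zero.mp h9 with h10 | h10
      · exact sub_eq_zero.mp h10
      · exact absurd h10 (SLL_mul_ne (bl_ne (F := F) E _))
    have h8 := h7 l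
    rw [Equiv.swap_apply_of_ne_of_ne hl1 hl2] at h8
    have hz1 : z = 1 := by
      have : (1 - z) * β l = 0 := by linear_combination h8
      rcases mul_eq_zero.mp this with h9 | h9
      · exact (sub_eq_zero.mp h9).symm
      · exact absurd h9 (hβ0 l)
    have h9 := h7 j
    rw [Equiv.swap_apply_right, hz1, one_mul] at h9
    exact h9
  have hsc : (B : MM) = β ⟨0, by omega⟩ • (1 : MM) := by
    rw [eq_sum_bl (E := E) (B : MM), ← sum_bl E, Finset.smul_sum]
    exact Finset.sum_congr rfl fun j _ => by rw [hβ j, hββ j]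
  rw [hτ, conj_scalar hsc]

/-- the reflection -/
def dd (F : Type) [Field F] : Matrix (Fin 2) (Fin 2) F := !![-1, 0; 0, 1]

theorem dd_sq : dd F * dd F = 1 := by
  ext a b; fin_cases a <;> fin_cases b <;> simp [dd]
theorem dd_T : (dd F).transpose = dd F := by
  ext a b; fin_cases a <;> fin_cases b <;> simp [dd]

/-- product of reflections on two planes -/
def rr (E : Fin t × Fin 2 ≃ Fin n) (i j : Fin t) : SLL :=
  ⟨(1 - bl E i + J E i (dd F)) * (1 - bl E j + J E j (dd F)), by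
    rw [Matrix.det_mul, det_J, det_J, Matrix.det_fin_two, dd]; simp⟩

theorem rr_coe (i j : Fin t) : ((rr E i j : SLL) : MM) = (1 - bl E i + J E i (dd F)) * (1 - bl E j + J E j (dd F)) := rfl

theorem fac_bl (i : Fin t) (Z : Matrix (Fin 2) (Fin 2) F) : (1 - bl E i + J E i Z : MM) * bl E i = J E i Z := by
  rw [add_mul, sub_mul, one_mul, bl_idem, sub_self, zero_add, J_mul_bl]

theorem fac_bl' {i j : Fin t} (hij : j ≠ i) (Z : Matrix (Fin 2) (Fin 2) F) : (1 - bl E i + J E i Z : MM) * bl E j = bl E j := by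
  rw [add_mul, sub_mul, one_mul, bl_mul_bl E i j hij.symm, J_mul_bl' E hij, sub_zero, add_zero]

theorem fac_J' {i j : Fin t} (hij : j ≠ i) (Z Z' : Matrix (Fin 2) (Fin 2) F) : (1 - bl E i + J E i Z : MM) * J E j Z' = J E j Z' := by
  rw [← bl_mul_J E j Z', ← mul_assoc, fac_bl' hij]

theorem rr_bl_l {i j l : Fin t} (hi : l ≠ i) (hj : l ≠ j) : ((rr E i j : SLL) : MM) * bl E l = bl E l := by
  rw [rr_coe, mul_assoc, fac_bl' hj, fac_bl' hi]

theorem rr_bl_i {i j : Fin t} (hij : i ≠ j) : ((rr E i j : SLL) : MM) * bl E i = J E i (dd F) := by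
  rw [rr_coe, mul_assoc, fac_bl' hij, fac_bl]

theorem rr_comm (i j l : Fin t) : ((rr E i j : SLL) : MM) * bl E l = bl E l * ((rr E i j : SLL) : MM) := by
  have h1 : ∀ m, (1 - bl E m + J E m (dd F) : MM) * bl E l = bl E l * (1 - bl E m + J E m (dd F)) := fun m => by
    have h2 : (bl E m : MM) * bl E l = bl E l * bl E m := by
      by_cases h : m = l
      · rw [h]
      · rw [bl_mul_bl E m l h, bl_mul_bl E l m (Ne.symm h)]
    rw [add_mul, mul_add, sub_mul, mul_sub, one_mul, mul_one, h2, J_comm]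
  rw [rr_coe, mul_assoc, h1, ← mul_assoc, h1, mul_assoc]

theorem rr_T (i j : Fin t) (hij : i ≠ j) : ((rr E i j : SLL) : MM).transpose = ((rr E i j : SLL) : MM) := by
  have h1 : ∀ m, (1 - bl E m + J E m (dd F) : MM).transpose = 1 - bl E m + J E m (dd F) := fun m => by
    rw [Matrix.transpose_add, Matrix.transpose_sub, Matrix.transpose_one, J_T, dd_T, ← J_one, J_T, Matrix.transpose_one]
  rw [rr_coe, Matrix.transpose_mul, h1, h1]
  have h2 : ∀ a b : Fin t, a ≠ b → (1 - bl E a + J E a (dd F) : MM) * (1 - bl E b + J E b (dd F)) =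
      1 - bl E a - bl E b + J E a (dd F) + J E b (dd F) := fun a b hab => by
    rw [mul_add, mul_sub, mul_one, fac_bl' (Ne.symm hab), fac_J' (Ne.symm hab)]
    abel
  rw [h2 i j hij, h2 j i (Ne.symm hij)]
  abel

theorem rr_sq (i j : Fin t) (hij : i ≠ j) : ((rr E i j : SLL) : MM) * ((rr E i j : SLL) : MM) = 1 := by
  rw [eq_sum_bl (E := E) (((rr E i j : SLL) : MM) * ((rr E i j : SLL) : MM)), ← sum_bl E]
  refine Finset.sum_congr rfl fun l _ => ?_
  have h1 : ∀ a : Fin t, (((rr E i j : SLL) : MM) * bl E l = J E l (dd F)) →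
      ((rr E i j : SLL) : MM) * ((rr E i j : SLL) : MM) * bl E l = bl E l := fun _ h => by
    rw [mul_assoc, h, ← bl_mul_J E l (dd F), ← mul_assoc, h, J_mul, dd_sq, J_one]
  by_cases hi : l = i
  · subst hi
    exact h1 l (rr_bl_i hij)
  · by_cases hj : l = j
    · subst hj
      apply h1 l
      rw [rr_coe, mul_assoc, fac_bl, fac_J' (Ne.symm hij)]
    · rw [mul_assoc, rr_bl_l hi hj, rr_bl_l hi hj]

/-- lifts of the second kind do not exist in characteristic not two -/
theorem centBl_M [Fintype F] (hq : Fintype.card F ≤ 3) (h2 : (2 : F) ≠ 0) (ht : 3 ≤ t) {B : GLL} {σ : F ≃+* F}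
    (hJ : ∀ i (s : Matrix.SpecialLinearGroup (Fin 2) F), ∃ z : F,
      tauM B σ ((jS E i s : SLL) : MM) * ((jS E i s : SLL) : MM) = z • (1 : MM))
    (hR : ∀ i j : Fin t, ∃ z : F, tauM B σ ((rr E i j : SLL) : MM) * ((rr E i j : SLL) : MM) = z • (1 : MM)) : False := by
  have hτ : ∀ y : MM, tauM B σ y = (B : MM) * y.transpose * ((B⁻¹ : GLL) : MM) := fun y => by rw [tauM_apply, map_id hq]
  have hinv : ∀ N : MM, N * N = 0 → (1 + N) * (1 - N) = 1 := fun N hN => by
    rw [mul_sub, mul_one, add_mul, one_mul, hN, add_zero]; abel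
  have h01 : ∀ i, (B : MM) * J E i (e10 F) = -J E i (e01 F) * (B : MM) := fun i => by
    obtain ⟨z, hz⟩ := hJ i (t2 true 1)
    rw [hτ, jS_t2_true, Matrix.transpose_add, Matrix.transpose_one, J_T, e01_T] at hz
    have hNN : (J E i (e01 F) : MM) * J E i (e01 F) = 0 := by rw [J_mul, e01_sq, J_zero]
    refine unip (z := z) ?_ (by rw [J_mul, e10_sq, J_zero]) (fun h => e01_ne (F := F) (J_inj E i (by rw [neg_eq_zero.mp h, J_zero]))) ?_
    · rw [neg_mul_neg, hNN]
    · calc (B : MM) * (1 + J E i (e10 F)) * ((B⁻¹ : GLL) : MM) =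
          (B : MM) * (1 + J E i (e10 F)) * ((B⁻¹ : GLL) : MM) * ((1 + J E i (e01 F)) * (1 - J E i (e01 F))) := by
            rw [hinv _ hNN, mul_one]
        _ = z • (1 + -J E i (e01 F)) := by rw [← mul_assoc, hz, Matrix.smul_mul, one_mul, sub_eq_add_neg]
  have h10 : ∀ i, (B : MM) * J E i (e01 F) = -J E i (e10 F) * (B : MM) := fun i => by
    obtain ⟨z, hz⟩ := hJ i (t2 false 1)
    rw [hτ, jS_t2_false, Matrix.transpose_add, Matrix.transpose_one, J_T, e10_T] at hz
    have hNN : (J E i (e10 F) : MM) * J E i (e10 F) = 0 := by rw [J_mul, e10_sq, J_zero]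
    refine unip (z := z) ?_ (by rw [J_mul, e01_sq, J_zero]) (fun h => e10_ne (F := F) (J_inj E i (by rw [neg_eq_zero.mp h, J_zero]))) ?_
    · rw [neg_mul_neg, hNN]
    · calc (B : MM) * (1 + J E i (e01 F)) * ((B⁻¹ : GLL) : MM) =
          (B : MM) * (1 + J E i (e01 F)) * ((B⁻¹ : GLL) : MM) * ((1 + J E i (e10 F)) * (1 - J E i (e10 F))) := by
            rw [hinv _ hNN, mul_one]
        _ = z • (1 + -J E i (e10 F)) := by rw [← mul_assoc, hz, Matrix.smul_mul, one_mul, sub_eq_add_neg]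
  have hbl : ∀ i, (B : MM) * bl E i = bl E i * (B : MM) := fun i => by
    rw [← J_one, ← e_sum, ← J_add, ← J_mul, ← J_mul, mul_add, add_mul, ← mul_assoc, h10, mul_assoc, h01, ← mul_assoc (B : MM),
      h01, mul_assoc (-J E i (e01 F)), h10]
    simp only [neg_mul, mul_neg, neg_neg, mul_assoc]
    abel
  -- three different planes
  have hi : (⟨0, by omega⟩ : Fin t) ≠ ⟨1, by omega⟩ := fun h => by simp at h
  have hl1 : (⟨2, by omega⟩ : Fin t) ≠ ⟨0, by omega⟩ := fun h => by simp at h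
  have hl2 : (⟨2, by omega⟩ : Fin t) ≠ ⟨1, by omega⟩ := fun h => by simp at h
  set i : Fin t := ⟨0, by omega⟩ with hidef
  set j : Fin t := ⟨1, by omega⟩
  set l : Fin t := ⟨2, by omega⟩
  obtain ⟨z, hz⟩ := hR i j
  set s : MM := ((rr E i j : SLL) : MM) with hs
  have hsT : s.transpose = s := rr_T i j hi
  have hss : s * s = 1 := rr_sq i j hi
  rw [hτ, hsT] at hz
  have h3 : (B : MM) * s = z • (s * (B : MM)) := by
    calc (B : MM) * s = (B : MM) * s * ((B⁻¹ : GLL) : MM) * (s * s) * (B : MM) := by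
          rw [hss, mul_one, mul_assoc _ ((B⁻¹ : GLL) : MM), coe_inv_mul, mul_one]
      _ = ((B : MM) * s * ((B⁻¹ : GLL) : MM) * s) * s * (B : MM) := by simp only [mul_assoc]
      _ = z • (s * (B : MM)) := by rw [hz, Matrix.smul_mul, one_mul, Matrix.smul_mul]
  have hz1 : z = 1 := by
    have h4 := congrArg (fun X => X * bl E l) h3
    simp only [Matrix.smul_mul] at h4
    rw [mul_assoc, rr_bl_l hl1 hl2, mul_assoc, hbl l, ← mul_assoc, rr_bl_l hl1 hl2] at h4
    have h5 : (1 - z) • (bl E l * (B : MM)) = 0 := by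
      rw [sub_smul, one_smul, ← h4, sub_self]
    rcases smul_eq_zero.mp h5 with h6 | h6
    · exact (sub_eq_zero.mp h6).symm
    · exfalso
      rw [← hbl] at h6
      exact GLL_mul_ne (bl_ne (F := F) E l) h6
  rw [hz1, one_smul] at h3
  -- on the plane `i`
  have hZ := Res.of_comm (hbl i)
  have hD : Res E i s (dd F) := ⟨rr_bl_i hi, by rw [hs, ← rr_comm, rr_bl_i hi]⟩
  have r01 : Res E i (J E i (e01 F)) (e01 F) := ⟨J_mul_bl E i _, bl_mul_J E i _⟩
  have r10 : Res E i (J E i (e10 F)) (e10 F) := ⟨J_mul_bl E i _, bl_mul_J E i _⟩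
  have rn01 : Res E i (-J E i (e01 F)) (-e01 F) := by
    constructor
    · rw [neg_mul, J_mul_bl, ← neg_one_smul F, J_smul, neg_one_smul]
    · rw [mul_neg, bl_mul_J, ← neg_one_smul F, J_smul, neg_one_smul]
  set Z := rs E i (B : MM) with hZdef
  have k1 : Z * e10 F = -e01 F * Z := by
    have h7 := hZ.mul r10
    rw [h01] at h7
    exact h7.eq (rn01.mul hZ)
  have k2 : Z * dd F = dd F * Z := by
    have h7 := hZ.mul hD
    rw [h3] at h7
    exact h7.eq (hD.mul hZ)
  have hne : Z ≠ 0 := by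
    intro h
    have h8 := hZ.1
    rw [h, J_zero] at h8
    exact GLL_mul_ne (bl_ne (F := F) E i) h8
  apply hne
  have hn1 : -e01 F = !![0, -1; 0, 0] := by
    ext a b; fin_cases a <;> fin_cases b <;> simp [e01]
  rw [hn1, e10, Matrix.eta_fin_two Z, Matrix.mul_fin_two, Matrix.mul_fin_two] at k1
  rw [dd, Matrix.eta_fin_two Z, Matrix.mul_fin_two, Matrix.mul_fin_two] at k2
  have f1 := congrFun (congrFun k1 0) 0
  have f2 := congrFun (congrFun k1 0) 1
  have f4 := congrFun (congrFun k2 0) 1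
  have f5 := congrFun (congrFun k2 1) 0
  have f3 := congrFun (congrFun k1 1) 0
  simp only [Matrix.of_apply, Matrix.cons_val', Matrix.cons_val_zero, Matrix.cons_val_one, Matrix.cons_val_fin_one] at f1 f2 f3 f4 f5
  have h11 : Z 1 1 = 0 := by linear_combination f3
  have h01' : Z 0 1 = 0 := by
    have : 2 * Z 0 1 = 0 := by linear_combination f4
    exact (mul_eq_zero.mp this).resolve_left h2
  have h10' : Z 1 0 = 0 := by
    have : 2 * Z 1 0 = 0 := by linear_combination -f5
    exact (mul_eq_zero.mp this).resolve_left h2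
  -- the entry `Z 0 0`, from the other relation
  have k3 : Z * e01 F = -e10 F * Z := by
    have h7 := hZ.mul r01
    rw [h10] at h7
    have rn10 : Res E i (-J E i (e10 F)) (-e10 F) := by
      constructor
      · rw [neg_mul, J_mul_bl, ← neg_one_smul F, J_smul, neg_one_smul]
      · rw [mul_neg, bl_mul_J, ← neg_one_smul F, J_smul, neg_one_smul]
    exact h7.eq (rn10.mul hZ)
  have hn2 : -e10 F = !![0, 0; -1, 0] := by
    ext a b; fin_cases a <;> fin_cases b <;> simp [e10]
  rw [hn2, e01, Matrix.eta_fin_two Z, Matrix.mul_fin_two, Matrix.mul_fin_two] at k3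
  have f6 := congrFun (congrFun k3 0) 1
  simp only [Matrix.of_apply, Matrix.cons_val', Matrix.cons_val_zero, Matrix.cons_val_one, Matrix.cons_val_fin_one] at f6
  have h00 : Z 0 0 = 0 := by linear_combination f6
  ext a b
  fin_cases a <;> fin_cases b <;> simp [h00, h01', h10', h11]

theorem no_cent_bl [Finite G] [Fintype F] {π : SLL →* G} (hM : Model N (iSL n F) π) (hL : Loc N A r)
    (hA : Frame (iSL n F) π A (bl E)) (ht : 3 ≤ t) (hq : Fintype.card F ≤ 3) (hr : ¬ r ∣ Fintype.card F) {B₂ : Subgroup G}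
    (hB : B₂ ≤ OO r A) (hne : B₂ ≠ ⊥) (hnorm : A ≤ normalizer (B₂ : Set G)) (hBN : B₂ ⊓ N = ⊥) : False := by
  have hcomm : ∀ x ∈ B₂, ∀ s : SLL, π s ∈ A → x * π s = π s * x := fun x hx s hs =>
    comm_of_inf_eq_bot hL.normal hnorm hBN hx ⟨hs, by
      change π s ∈ N
      rw [← hM.range]; exact ⟨s, rfl⟩⟩
  have hP : ∀ x ∈ B₂, ∀ B σ, Ind (iSL n F) π x (tauP B σ) → x = 1 := fun x hx B σ h =>
    eq_one_of_tauP hM hL.cent h (centBl_P (E := E) hq ht
      (fun i s => comm_P hM h (hcomm x hx _ (jS_mem hA i s))) (fun τ => comm_P hM h (hcomm x hx _ (bp_mem hA τ))))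
  apply hne
  rw [eq_bot_iff]
  intro x hx
  rw [mem_bot]
  by_cases h2 : (2 : F) = 0
  · have hr2 : r ≠ 2 := by
      intro h
      exact cast_ne hL.prime hr (by rw [h]; exact_mod_cast h2)
    obtain ⟨k, hk⟩ := OO_pow (hB hx)
    obtain ⟨m, hm⟩ := exists_sq hL.prime hr2 hk
    obtain ⟨B, σ, h | h⟩ := hM.lift (x ^ m)
    · rw [← hm, hP (x ^ m) (B₂.pow_mem hx m) B σ h, one_pow]
    · have h3 := ind_sq hM.two h
      rw [hm] at h3
      exact hP x hx _ _ h3
  · obtain ⟨B, σ, h | h⟩ := hM.lift x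
    · exact hP x hx B σ h
    · exfalso
      refine centBl_M (E := E) hq h2 ht (fun i s => comm_M hM h (hcomm x hx _ (jS_mem hA i s)))
        (fun i j => comm_M hM h (hcomm x hx _ ?_))
      exact mem_of_comm_bl hA fun l => rr_comm i j l

end Cfsg.Agent.H599.TW
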