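import Cfsg.Agent.H607.TW.Defs

/-!
# S3694: coordinates for frames (helper599)

* `cS P` : conjugation by `P ∈ GL_n(F)` as an endomorphism of `SL_n(F)`;
* `ind_cS`, `model_cS`, `frame_cS` : change of basis in `Ind`, `Model`, `Frame`;
* `exists_std` : every system of orthogonal idempotents is conjugate to a standard one.
-/

set_option autoImplicit false
set_option linter.unusedSectionVars false
set_option linter.style.haveILetI false

namespace Cfsg.Agent.H599.TW

open Subgroup Cfsg.Agent.H607.TW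

universe u

variable {F : Type} [Field F] {n : ℕ}

local notation "MM" => Matrix (Fin n) (Fin n) F
local notation "GLL" => Matrix.GeneralLinearGroup (Fin n) F
local notation "SLL" => Matrix.SpecialLinearGroup (Fin n) F

theorem coe_mul_inv (P : GLL) : (P : MM) * ((P⁻¹ : GLL) : MM) = 1 := by
  rw [← Units.val_mul, mul_inv_cancel, Units.val_one]

theorem coe_inv_mul (P : GLL) : ((P⁻¹ : GLL) : MM) * (P : MM) = 1 := by
  rw [← Units.val_mul, inv_mul_cancel, Units.val_one]

/-- `x ↦ P x P⁻¹` on matrices. -/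
def cM (P : GLL) : MM ≃+ MM := tauP P (RingEquiv.refl F)

theorem cM_apply (P : GLL) (x : MM) : cM P x = (P : MM) * x * ((P⁻¹ : GLL) : MM) := by
  have : x.map (RingEquiv.refl F) = x := by ext i j; simp
  rw [cM, tauP_apply, this]

theorem cM_mul (P : GLL) (x y : MM) : cM P (x * y) = cM P x * cM P y := by
  rw [cM_apply, cM_apply, cM_apply]
  calc _ = (P : MM) * x * 1 * y * ((P⁻¹ : GLL) : MM) := by simp only [mul_assoc, one_mul]
    _ = _ := by rw [← coe_inv_mul P]; simp only [mul_assoc]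

theorem cM_one (P : GLL) : cM P (1 : MM) = 1 := by
  rw [cM_apply, mul_one, coe_mul_inv]

theorem cM_smul (P : GLL) (c : F) (x : MM) : cM P (c • x) = c • cM P x := by
  rw [cM_apply, cM_apply, Matrix.mul_smul, Matrix.smul_mul]

theorem cM_inv_cM (P : GLL) (x : MM) : cM P⁻¹ (cM P x) = x := by
  rw [cM_apply, cM_apply, inv_inv]
  calc _ = (((P⁻¹ : GLL) : MM) * (P : MM)) * x * (((P⁻¹ : GLL) : MM) * (P : MM)) := by simp only [mul_assoc]
    _ = x := by rw [coe_inv_mul, one_mul, mul_one]

theorem cM_cM_inv (P : GLL) (x : MM) : cM P (cM P⁻¹ x) = x := by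
  have := cM_inv_cM P⁻¹ x
  rwa [inv_inv] at this

/-- Conjugation by `P` on `SL_n(F)`. -/
def cS (P : GLL) : SLL →* SLL where
  toFun s := ⟨cM P (s : MM), by
    rw [cM_apply, Matrix.det_mul, Matrix.det_mul, s.2, mul_one, ← Matrix.det_mul, coe_mul_inv, Matrix.det_one]⟩
  map_one' := by
    apply Subtype.ext
    change cM P ((1 : SLL) : MM) = 1
    rw [Matrix.SpecialLinearGroup.coe_one, cM_one]
  map_mul' s t := by
    apply Subtype.ext
    change cM P ((s * t : SLL) : MM) = cM P (s : MM) * cM P (t : MM)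
    rw [Matrix.SpecialLinearGroup.coe_mul, cM_mul]

theorem cS_coe (P : GLL) (s : SLL) : ((cS P s : SLL) : MM) = cM P (s : MM) := rfl

theorem mt_iSL (s : SLL) : mt (iSL n F) s = (s : MM) := rfl

theorem cS_inv_cS (P : GLL) (s : SLL) : cS P⁻¹ (cS P s) = s := by
  apply Subtype.ext
  change cM P⁻¹ (cM P (s : MM)) = _
  rw [cM_inv_cM]

theorem cS_cS_inv (P : GLL) (s : SLL) : cS P (cS P⁻¹ s) = s := by
  have := cS_inv_cS P⁻¹ s
  rwa [inv_inv] at this

variable {G : Type u} [Group G] {N A : Subgroup G} {r : ℕ}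

/-- `τ` in the new coordinates. -/
def tw (P : GLL) (τ : MM ≃+ MM) : MM ≃+ MM := ((cM P).trans τ).trans (cM P⁻¹)

theorem tw_apply (P : GLL) (τ : MM ≃+ MM) (x : MM) : tw P τ x = cM P⁻¹ (τ (cM P x)) := rfl

theorem tw_inv_tw (P : GLL) (τ : MM ≃+ MM) : tw P⁻¹ (tw P τ) = τ := by
  ext x : 1
  rw [tw_apply, tw_apply, inv_inv, cM_cM_inv, cM_cM_inv]

theorem comp_cS_inv (P : GLL) (π : SLL →* G) : (π.comp (cS P)).comp (cS P⁻¹) = π := by
  ext s
  simp only [MonoidHom.comp_apply, cS_cS_inv]

theorem ind_cS {π : SLL →* G} (P : GLL) {g : G} {τ : MM ≃+ MM} (h : Ind (iSL n F) π g τ) :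
    Ind (iSL n F) (π.comp (cS P)) g (tw P τ) := by
  rcases h with ⟨h1, h2⟩ | ⟨h1, h2⟩
  · left
    refine ⟨fun x y => ?_, fun s => ?_⟩
    · rw [tw_apply, tw_apply, tw_apply, cM_mul, h1, cM_mul]
    · obtain ⟨s', hs1, hs2⟩ := h2 (cS P s)
      refine ⟨cS P⁻¹ s', ?_, ?_⟩
      · rw [mt_iSL, cS_coe, tw_apply]
        rw [mt_iSL, mt_iSL, cS_coe] at hs1
        rw [hs1]
        rfl
      · rw [MonoidHom.comp_apply, MonoidHom.comp_apply, cS_cS_inv, hs2]
  · right
    refine ⟨fun x y => ?_, fun s => ?_⟩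
    · rw [tw_apply, tw_apply, tw_apply, cM_mul, h1, cM_mul]
    · obtain ⟨s', hs1, hs2⟩ := h2 (cS P s)
      refine ⟨cS P⁻¹ s', ?_, ?_⟩
      · rw [mt_iSL, cS_coe, tw_apply]
        rw [mt_iSL, mt_iSL, cS_coe] at hs1
        rw [hs1]
        rfl
      · rw [MonoidHom.comp_apply, MonoidHom.comp_apply, cS_cS_inv, hs2]

theorem ind_of_cS {π : SLL →* G} (P : GLL) {g : G} {τ : MM ≃+ MM} (h : Ind (iSL n F) (π.comp (cS P)) g τ) :
    Ind (iSL n F) π g (tw P⁻¹ τ) := by
  have := ind_cS P⁻¹ h
  rwa [comp_cS_inv] at this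

theorem map_inv_eq (P : GLL) (σ : F ≃+* F) :
    ((P : MM).map σ) * (((P⁻¹ : GLL) : MM).map σ) = 1 ∧ (((P⁻¹ : GLL) : MM).map σ) * ((P : MM).map σ) = 1 := by
  constructor
  · rw [← Matrix.map_mul, coe_mul_inv]
    ext i j
    by_cases hij : i = j
    · subst hij; simp
    · simp [Matrix.one_apply_ne hij]
  · rw [← Matrix.map_mul, coe_inv_mul]
    ext i j
    by_cases hij : i = j
    · subst hij; simp
    · simp [Matrix.one_apply_ne hij]

/-- `P ^ σ` -/
def gmap (σ : F ≃+* F) (P : GLL) : GLL :=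
  ⟨(P : MM).map σ, ((P⁻¹ : GLL) : MM).map σ, (map_inv_eq P σ).1, (map_inv_eq P σ).2⟩

/-- the transpose -/
def gtr (P : GLL) : GLL :=
  ⟨(P : MM).transpose, ((P⁻¹ : GLL) : MM).transpose, by
    rw [← Matrix.transpose_mul, coe_inv_mul, Matrix.transpose_one], by
    rw [← Matrix.transpose_mul, coe_mul_inv, Matrix.transpose_one]⟩

theorem tw_tauP (P B : GLL) (σ : F ≃+* F) : tw P (tauP B σ) = tauP (P⁻¹ * B * gmap σ P) σ := by
  ext x : 1
  rw [tw_apply, cM_apply, cM_apply, tauP_apply, tauP_apply, inv_inv]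
  have h1 : (((P⁻¹ * B * gmap σ P : GLL)) : MM) = ((P⁻¹ : GLL) : MM) * (B : MM) * (P : MM).map σ := rfl
  have h2 : (((P⁻¹ * B * gmap σ P)⁻¹ : GLL) : MM) =
      (((P⁻¹ : GLL) : MM).map σ) * ((B⁻¹ : GLL) : MM) * (P : MM) := by
    rw [mul_inv_rev, mul_inv_rev, inv_inv]
    rw [mul_assoc]
    rfl
  rw [h1, h2, Matrix.map_mul, Matrix.map_mul]
  simp only [mul_assoc]

theorem tw_tauM (P B : GLL) (σ : F ≃+* F) : tw P (tauM B σ) = tauM (P⁻¹ * B * gmap σ (gtr P⁻¹)) σ := by
  ext x : 1
  rw [tw_apply, cM_apply, cM_apply, tauM_apply, tauM_apply, inv_inv]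
  have h1 : (((P⁻¹ * B * gmap σ (gtr P⁻¹) : GLL)) : MM) =
      ((P⁻¹ : GLL) : MM) * (B : MM) * (((P⁻¹ : GLL) : MM).transpose).map σ := rfl
  have h2 : (((P⁻¹ * B * gmap σ (gtr P⁻¹))⁻¹ : GLL) : MM) =
      (((P : MM).transpose).map σ) * ((B⁻¹ : GLL) : MM) * (P : MM) := by
    rw [mul_inv_rev, mul_inv_rev, inv_inv]
    rw [mul_assoc]
    have : (((gmap σ (gtr P⁻¹))⁻¹ : GLL) : MM) = ((P : MM).transpose).map σ := by
      change ((((P⁻¹)⁻¹ : GLL) : MM).transpose).map σ = _
      rw [inv_inv]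
    rw [← this]
    rfl
  rw [h1, h2, Matrix.transpose_mul, Matrix.transpose_mul, Matrix.map_mul, Matrix.map_mul]
  simp only [mul_assoc]

theorem smul_one_cM (P : GLL) (x : MM) (c : F) : cM P x = c • (1 : MM) ↔ x = c • (1 : MM) := by
  constructor
  · intro h
    have := congrArg (cM P⁻¹) h
    rwa [cM_inv_cM, cM_smul, cM_one] at this
  · intro h
    rw [h, cM_smul, cM_one]

/-- The model in the new coordinates. -/
theorem model_cS {π : SLL →* G} (P : GLL) (h : Model N (iSL n F) π) : Model N (iSL n F) (π.comp (cS P)) where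
  two := h.two
  inj := h.inj
  range := by
    rw [← h.range]
    apply le_antisymm
    · rintro _ ⟨s, rfl⟩
      exact ⟨cS P s, rfl⟩
    · rintro _ ⟨s, rfl⟩
      exact ⟨cS P⁻¹ s, by rw [MonoidHom.comp_apply, cS_cS_inv]⟩
  ker := fun s => by
    rw [MonoidHom.comp_apply, h.ker (cS P s)]
    simp only [mt_iSL, cS_coe, smul_one_cM]
  det := h.det
  perfect := h.perfect
  span := h.span
  lift := fun g => by
    obtain ⟨B, σ, h1 | h1⟩ := h.lift g
    · exact ⟨_, σ, Or.inl (by rw [← tw_tauP P B σ]; exact ind_cS P h1)⟩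
    · exact ⟨_, σ, Or.inr (by rw [← tw_tauM P B σ]; exact ind_cS P h1)⟩

/-- The frame in the new coordinates. -/
theorem frame_cS {π : SLL →* G} (P : GLL) {t : ℕ} {e : Fin t → MM} (h : Frame (iSL n F) π A (fun i => cM P (e i))) :
    Frame (iSL n F) (π.comp (cS P)) A e where
  two := h.two
  idem := fun i => by
    apply (cM P).injective
    rw [cM_mul]
    exact h.idem i
  ne := fun i hi => h.ne i (by rw [hi, map_zero])
  orth := fun i j hij => by
    apply (cM P).injective
    rw [cM_mul, map_zero]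
    exact h.orth i j hij
  sum := by
    apply (cM P).injective
    rw [map_sum, cM_one]
    exact h.sum
  perm := fun a ha τ hτ i => by
    obtain ⟨j, hj⟩ := h.perm a ha _ (ind_of_cS P hτ) i
    refine ⟨j, ?_⟩
    apply (cM P).injective
    rw [← hj, tw_apply, inv_inv, cM_inv_cM]
  stab := fun s hs => by
    rw [MonoidHom.comp_apply]
    apply h.stab
    intro i
    obtain ⟨j, hj⟩ := hs i
    refine ⟨j, ?_⟩
    rw [mt_iSL, cS_coe, ← cM_mul, ← cM_mul]
    exact congrArg _ hj

theorem frame_cS' {π : SLL →* G} (P : GLL) {t : ℕ} {e : Fin t → MM} (h : Frame (iSL n F) (π.comp (cS P)) A e) :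
    Frame (iSL n F) π A (fun i => cM P (e i)) := by
  have := frame_cS (π := π.comp (cS P)) P⁻¹ (e := fun i => cM P (e i)) (A := A) (by simpa only [cM_inv_cM] using h)
  rwa [comp_cS_inv] at this

/-- Renumbering of a frame. -/
theorem frame_reindex {ι : SLL →* GLL} {π : SLL →* G} {t t' : ℕ} {e : Fin t → MM} (h : Frame ι π A e) (f : Fin t' ≃ Fin t) :
    Frame ι π A (fun i => e (f i)) where
  two := by
    have := h.two
    have := Fintype.card_congr f
    simp only [Fintype.card_fin] at this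
    omega
  idem := fun i => h.idem _
  ne := fun i => h.ne _
  orth := fun i j hij => h.orth _ _ (fun hh => hij (f.injective hh))
  sum := by rw [← h.sum]; exact Equiv.sum_comp f e
  perm := fun a ha τ hτ i => by
    obtain ⟨j, hj⟩ := h.perm a ha τ hτ (f i)
    exact ⟨f.symm j, by rw [hj, Equiv.apply_symm_apply]⟩
  stab := fun s hs => h.stab s fun i => by
    obtain ⟨j, hj⟩ := hs (f.symm i)
    rw [Equiv.apply_symm_apply] at hj
    exact ⟨f j, hj⟩

/-- The standard system of idempotents. -/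
def blk {t : ℕ} (b : Fin n → Fin t) (i : Fin t) : MM := Matrix.diagonal fun k => if b k = i then 1 else 0

/-- Simultaneous diagonalisation of orthogonal idempotents. -/
theorem exists_std {t : ℕ} {e : Fin t → MM} (hid : ∀ i, e i * e i = e i) (hor : ∀ i j, i ≠ j → e i * e j = 0)
    (hs : ∑ i, e i = 1) : ∃ (P : GLL) (b : Fin n → Fin t), ∀ i, e i = cM P (blk b i) := by
  classical
  let f : Fin t → ((Fin n → F) →ₗ[F] (Fin n → F)) := fun i => Matrix.toLin' (e i)
  let V : Fin t → Submodule F (Fin n → F) := fun i => LinearMap.range (f i)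
  have hfi : ∀ i x, f i (f i x) = f i x := fun i x => by
    change Matrix.toLin' (e i) (Matrix.toLin' (e i) x) = _
    rw [← Matrix.toLin'_mul_apply, hid]
  have hfo : ∀ i j, i ≠ j → ∀ x, f i (f j x) = 0 := fun i j hij x => by
    change Matrix.toLin' (e i) (Matrix.toLin' (e j) x) = _
    rw [← Matrix.toLin'_mul_apply, hor i j hij]
    simp
  have hfs : ∀ x, ∑ i, f i x = x := fun x => by
    have : Matrix.toLin' (∑ i, e i) x = x := by rw [hs]; simp
    rw [map_sum, LinearMap.sum_apply] at this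
    exact this
  have hmem : ∀ i, ∀ v ∈ V i, f i v = v := by
    rintro i _ ⟨x, rfl⟩
    exact hfi i x
  have hmem0 : ∀ i j, i ≠ j → ∀ v ∈ V j, f i v = 0 := by
    rintro i j hij _ ⟨x, rfl⟩
    exact hfo i j hij x
  have hint : DirectSum.IsInternal V := by
    rw [DirectSum.isInternal_submodule_iff_iSupIndep_and_iSup_eq_top]
    constructor
    · rw [iSupIndep_iff_forall_dfinsupp]
      intro i x v hv
      have h1 : f i (x : Fin n → F) = x := hmem i _ x.2
      have h2 : f i ((DFinsupp.lsum ℕ fun i => (V i).subtype) (DFinsupp.erase i v)) = 0 := by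
        rw [DFinsupp.lsum_apply_apply, DFinsupp.sumAddHom_apply, DFinsupp.sum, map_sum]
        apply Finset.sum_eq_zero
        intro j hj
        have hji : j ≠ i := by
          intro hh
          subst hh
          simp at hj
        exact hmem0 i j hji.symm _ ((DFinsupp.erase i v) j).2
      rw [hv, h1] at h2
      exact Subtype.ext h2
    · rw [eq_top_iff]
      intro x _
      rw [← hfs x]
      exact Submodule.sum_mem _ fun i _ => (le_iSup V i) ⟨x, rfl⟩
  let bs : Module.Basis (Σ i, Fin (Module.finrank F (V i))) F (Fin n → F) :=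
    hint.collectedBasis (fun i => Module.finBasis F (V i))
  have hcard : Fintype.card (Σ i, Fin (Module.finrank F (V i))) = Fintype.card (Fin n) := by
    have := Module.finrank_eq_card_basis bs
    rw [Module.finrank_fin_fun] at this
    rw [← this, Fintype.card_fin]
  let E : (Σ i, Fin (Module.finrank F (V i))) ≃ Fin n := Fintype.equivOfCardEq hcard
  let bb : Module.Basis (Fin n) F (Fin n → F) := bs.reindex E
  let b : Fin n → Fin t := fun k => (E.symm k).1
  have hbb : ∀ i k, f i (bb k) = if b k = i then bb k else 0 := by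
    intro i k
    have hk : bb k ∈ V (b k) := by
      change bs.reindex E k ∈ _
      rw [Module.Basis.reindex_apply]
      exact hint.collectedBasis_mem (fun i => Module.finBasis F (V i)) (E.symm k)
    by_cases h : b k = i
    · rw [if_pos h]
      rw [h] at hk
      exact hmem i _ hk
    · rw [if_neg h]
      exact hmem0 i (b k) (fun hh => h hh.symm) _ hk
  let Pm : MM := (Pi.basisFun F (Fin n)).toMatrix bb
  let Qm : MM := bb.toMatrix (Pi.basisFun F (Fin n))
  have hPQ : Pm * Qm = 1 := Module.Basis.toMatrix_mul_toMatrix_flip _ _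
  have hQP : Qm * Pm = 1 := Module.Basis.toMatrix_mul_toMatrix_flip _ _
  let P : GLL := ⟨Pm, Qm, hPQ, hQP⟩
  refine ⟨P, b, fun i => ?_⟩
  have hP : ∀ a k, Pm a k = bb k a := fun a k => by
    change (Pi.basisFun F (Fin n)).toMatrix bb a k = _
    rw [Module.Basis.toMatrix_apply]
    simp
  have key : e i * Pm = Pm * blk b i := by
    ext a k
    rw [blk, Matrix.mul_diagonal]
    have h1 : (e i * Pm) a k = (f i (bb k)) a := by
      change _ = (Matrix.toLin' (e i) (bb k)) a
      rw [Matrix.toLin'_apply, Matrix.mul_apply, Matrix.mulVec, dotProduct]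
      exact Finset.sum_congr rfl fun j _ => by rw [hP]
    rw [h1, hbb i k, hP]
    split_ifs <;> simp
  rw [cM_apply]
  change e i = Pm * blk b i * Qm
  rw [← key, mul_assoc, hPQ, mul_one]

end Cfsg.Agent.H599.TW
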