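import Cfsg.Agent.H607.TW.Defs
import Cfsg.Agent.Lib.Cores

/-!
# S3694: elementary group theory of the situation `Sit` (helper599)
-/

set_option autoImplicit false
set_option linter.unusedSectionVars false
set_option linter.style.haveILetI false

namespace Cfsg.Agent.H599.TW

open Subgroup Cfsg.Agent.H607.TW

universe u

variable {G : Type u} [Group G] {N A C A₁ C₁ A₂ C₂ : Subgroup G} {r d : ℕ}

theorem OO_le (r : ℕ) (A : Subgroup G) : OO r A ≤ A := by
  rintro x ⟨y, _, rfl⟩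
  exact y.2

theorem OO_norm {x a : G} (hx : x ∈ OO r A) (ha : a ∈ A) : a * x * a⁻¹ ∈ OO r A := by
  obtain ⟨y, hy, rfl⟩ := hx
  have := (Cfsg.Agent.Lib.Cores.pCore_normal (G := ↥A) r).conj_mem y hy ⟨a, ha⟩
  exact ⟨_, this, rfl⟩

theorem OO_pow {x : G} [Finite G] (hx : x ∈ OO r A) : ∃ k : ℕ, x ^ r ^ k = 1 := by
  obtain ⟨y, hy, rfl⟩ := hx
  obtain ⟨k, hk⟩ := Cfsg.Agent.Lib.Cores.pCore_isPGroup (G := ↥A) r ⟨y, hy⟩
  refine ⟨k, ?_⟩
  have := congrArg (fun z : ↥(Cfsg.pCore r ↥A) => (((z : ↥A) : G))) hk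
  simpa using this

/-- membership in the normalizer, elementwise -/
theorem mem_of_le_normalizer {K B : Subgroup G} (h : B ≤ normalizer (K : Set G)) {b : G} (hb : b ∈ B) {x : G}
    (hx : x ∈ K) : b * x * b⁻¹ ∈ K := (mem_normalizer_iff.mp (h hb) x).mp hx

theorem le_normalizer_of {K B : Subgroup G} (h : ∀ b ∈ B, ∀ x ∈ K, b * x * b⁻¹ ∈ K) :
    B ≤ normalizer (K : Set G) := by
  intro b hb
  rw [mem_normalizer_iff]
  intro x
  refine ⟨h b hb x, fun hx => ?_⟩
  have := h b⁻¹ (B.inv_mem hb) _ hx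
  simpa [mul_assoc] using this

theorem card_conj (A : Subgroup G) (g : G) : Nat.card ↥(A.map (MulAut.conj g).toMonoidHom) = Nat.card ↥A :=
  (Nat.card_congr (A.equivMapOfInjective _ (MulAut.conj g).injective).toEquiv).symm

theorem card_mul_relIndex' {H K : Subgroup G} (h : H ≤ K) : Nat.card ↥H * H.relIndex K = Nat.card ↥K := by
  have := Subgroup.relIndex_mul_relIndex ⊥ H K bot_le h
  rwa [relIndex_bot_left, relIndex_bot_left] at this

variable [Finite G]

/-- The situation is symmetric. -/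
theorem symm (h : Sit N A C A₁ C₁ A₂ C₂ r d) : Sit N C A C₁ A₁ C₂ A₂ r d where
  locA := h.locC
  locC := h.locA
  ne := h.ne.symm
  conj := by
    obtain ⟨g, hg⟩ := h.conj
    refine ⟨g⁻¹, ?_⟩
    rw [hg, Subgroup.map_map]
    have : ((MulAut.conj g⁻¹).toMonoidHom.comp (MulAut.conj g).toMonoidHom : G →* G) = MonoidHom.id G := by
      ext x
      simp [mul_assoc]
    rw [this, Subgroup.map_id]
  idx := by
    have h1 : (A ⊓ C).relIndex A * Nat.card ↥(A ⊓ C) = Nat.card ↥A := by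
      rw [mul_comm]; exact card_mul_relIndex' inf_le_left
    have h2 : (C ⊓ A).relIndex C * Nat.card ↥(C ⊓ A) = Nat.card ↥C := by
      rw [mul_comm]; exact card_mul_relIndex' inf_le_left
    have hc : Nat.card ↥C = Nat.card ↥A := by
      obtain ⟨g, hg⟩ := h.conj
      rw [hg]; exact card_conj A g
    rw [hc, ← h1, inf_comm C A] at h2
    have hpos : 0 < Nat.card ↥(A ⊓ C) := Nat.card_pos
    rw [← h.idx]
    rw [inf_comm C A]
    exact Nat.eq_of_mul_eq_mul_right hpos h2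
  five := h.five
  A₁_le := by rw [inf_comm]; exact h.C₁_le
  C₁_le := by rw [inf_comm]; exact h.A₁_le
  A₁_norm := h.C₁_norm
  C₁_norm := h.A₁_norm
  A₂_le := by rw [inf_comm]; exact h.C₂_le
  C₂_le := by rw [inf_comm]; exact h.A₂_le
  A₂_norm := h.C₂_norm
  C₂_norm := h.A₂_norm
  A₂_ne := h.C₂_ne
  C₂_ne := h.A₂_ne
  A₂_OO := h.C₂_OO
  C₂_OO := h.A₂_OO

/-- A nontrivial subgroup of `A ∩ N` cannot be normalised by `A` and by `C`. -/
theorem absurd_of_norm (h : Sit N A C A₁ C₁ A₂ C₂ r d) {K : Subgroup G} (hN : K ≤ N) (hKA : K ≤ A) (hK : K ≠ ⊥)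
    (hA : A ≤ normalizer (K : Set G)) (hC : C ≤ normalizer (K : Set G)) : False := by
  have htop : normalizer (K : Set G) = ⊤ := by
    rcases h.locA.max.le_iff.mp hA with h1 | h1
    · exact h1
    · exfalso
      rw [h1] at hC
      rcases h.locC.max.le_iff.mp hC with h2 | h2
      · exact h.locA.max.1 h2
      · exact h.ne h2
  have hKn : K.Normal := normalizer_eq_top_iff.mp htop
  haveI := h.locA.simple
  have hKN : (K.subgroupOf N).Normal := hKn.subgroupOf N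
  rcases hKN.eq_bot_or_eq_top with h1 | h1
  · rw [subgroupOf_eq_bot] at h1
    exact hK (by rw [← inf_eq_left.mpr hN]; exact h1.eq_bot)
  · rw [subgroupOf_eq_top] at h1
    exact h.locA.not_le (h1.trans hKA)

/-- `A ∩ N = C ∩ N` is impossible. -/
theorem absurd_of_inf_eq (h : Sit N A C A₁ C₁ A₂ C₂ r d) (he : A ⊓ N = C ⊓ N) (hne : A ⊓ N ≠ ⊥) : False := by
  refine absurd_of_norm h inf_le_right inf_le_left hne ?_ ?_
  · refine le_normalizer_of fun b hb x hx => ⟨A.mul_mem (A.mul_mem hb hx.1) (A.inv_mem hb), ?_⟩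
    exact h.locA.normal.conj_mem _ hx.2 _
  · refine le_normalizer_of fun b hb x hx => ?_
    rw [he] at hx ⊢
    exact ⟨C.mul_mem (C.mul_mem hb hx.1) (C.inv_mem hb), h.locA.normal.conj_mem _ hx.2 _⟩

/-- The normalizer of a nontrivial normal subgroup of `A` is `A`. -/
theorem norm_eq (h : Loc N A r) {B : Subgroup G} (hB : B ≤ A) (hne : B ≠ ⊥) (hn : A ≤ normalizer (B : Set G)) :
    normalizer (B : Set G) = A := by
  rcases h.max.le_iff.mp hn with h1 | h1
  · exfalso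
    have hBn : B.Normal := normalizer_eq_top_iff.mp h1
    haveI := h.simple
    haveI := h.normal
    have hBN : (B.subgroupOf N).Normal := hBn.subgroupOf N
    rcases hBN.eq_bot_or_eq_top with h2 | h2
    · rw [subgroupOf_eq_bot] at h2
      apply hne
      rw [eq_bot_iff, ← h.cent]
      intro b hb
      rw [mem_centralizer_iff]
      intro x hx
      have hx' : x ∈ N := hx
      have hcom : x * b * x⁻¹ * b⁻¹ ∈ B ⊓ N := by
        constructor
        · exact B.mul_mem (hBn.conj_mem b hb x) (B.inv_mem hb)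
        · have : b * x⁻¹ * b⁻¹ ∈ N := h.normal.conj_mem _ (N.inv_mem hx') _
          have h3 := N.mul_mem hx' this
          rwa [show x * (b * x⁻¹ * b⁻¹) = x * b * x⁻¹ * b⁻¹ by group] at h3
      rw [h2.eq_bot, mem_bot] at hcom
      have : x * b * x⁻¹ = b := by
        have := mul_eq_one_iff_eq_inv.mp hcom
        rwa [inv_inv] at this
      calc x * b = (x * b * x⁻¹) * x := by group
        _ = b * x := by rw [this]
    · rw [subgroupOf_eq_top] at h2
      exact h.not_le (h2.trans hB)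
  · exact h1

theorem mem_of_comm (h : Loc N A r) {B : Subgroup G} (hB : B ≤ A) (hne : B ≠ ⊥) (hn : A ≤ normalizer (B : Set G))
    {x : G} (hx : ∀ b ∈ B, x * b = b * x) : x ∈ A := by
  rw [← norm_eq h hB hne hn]
  rw [mem_normalizer_iff]
  intro b
  constructor
  · intro hb
    rw [hx b hb, mul_assoc, mul_inv_cancel, mul_one]
    exact hb
  · intro hb
    have h1 := hx _ hb
    have h2 : x * b * x⁻¹ = b := by
      have : x * (x * b * x⁻¹) = x * b := by rw [h1]; group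
      exact mul_left_cancel this
    rwa [h2] at hb

/-- Thompson-Wielandt, second form. -/
theorem tw2 (h : Sit N A C A₁ C₁ A₂ C₂ r d) {K : Subgroup G} (hK : K ≤ C₂) (hn : C ≤ normalizer (K : Set G)) {y a : G}
    (hy : y ∈ K) (ha : a ∈ A) : y⁻¹ * (a⁻¹ * y * a)⁻¹ * y * (a⁻¹ * y * a) ∈ K := by
  have hyA : y ∈ A₁ := (h.C₂_le (hK hy)).1
  have h1 : a⁻¹ * y * a ∈ A₁ := by
    have := mem_of_le_normalizer h.A₁_norm (A.inv_mem ha) hyA
    rwa [inv_inv] at this
  have h2 : a⁻¹ * y * a ∈ C := (h.A₁_le h1).2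
  have h3 : (a⁻¹ * y * a)⁻¹ * y * ((a⁻¹ * y * a)⁻¹)⁻¹ ∈ K := mem_of_le_normalizer hn (C.inv_mem h2) hy
  rw [inv_inv] at h3
  have := K.mul_mem (K.inv_mem hy) h3
  simpa [mul_assoc] using this

/-- Thompson-Wielandt inside `N`: it is enough that `C ∩ N` normalises `K`. -/
theorem tw2N (h : Sit N A C A₁ C₁ A₂ C₂ r d) {K : Subgroup G} (hK : K ≤ C₂) (hn : C ⊓ N ≤ normalizer (K : Set G)) {y a : G}
    (hy : y ∈ K) (hyN : y ∈ N) (ha : a ∈ A) : y⁻¹ * (a⁻¹ * y * a)⁻¹ * y * (a⁻¹ * y * a) ∈ K := by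
  have hyA : y ∈ A₁ := (h.C₂_le (hK hy)).1
  have h1 : a⁻¹ * y * a ∈ A₁ := by
    have := mem_of_le_normalizer h.A₁_norm (A.inv_mem ha) hyA
    rwa [inv_inv] at this
  have h1N : a⁻¹ * y * a ∈ N := by
    have := h.locA.normal.conj_mem y hyN a⁻¹
    rwa [inv_inv] at this
  have h2 : a⁻¹ * y * a ∈ C ⊓ N := ⟨(h.A₁_le h1).2, h1N⟩
  have h3 : (a⁻¹ * y * a)⁻¹ * y * ((a⁻¹ * y * a)⁻¹)⁻¹ ∈ K := mem_of_le_normalizer hn ((C ⊓ N).inv_mem h2) hy
  rw [inv_inv] at h3
  have := K.mul_mem (K.inv_mem hy) h3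
  simpa [mul_assoc] using this

theorem C₂_le_A (h : Sit N A C A₁ C₁ A₂ C₂ r d) : C₂ ≤ A := fun _ hx => (h.A₁_le (h.C₂_le hx).1).1

theorem C₂_le_C (h : Sit N A C A₁ C₁ A₂ C₂ r d) : C₂ ≤ C := fun _ hx => (h.A₁_le (h.C₂_le hx).1).2

end Cfsg.Agent.H599.TW
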