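import Cfsg.Agent.H599.TW.Coord

/-!
# S3694: monomial matrices (helper599)
-/

set_option autoImplicit false
set_option linter.unusedSectionVars false
set_option linter.style.haveILetI false

namespace Cfsg.Agent.H599.TW

open Subgroup Cfsg.Agent.H607.TW

universe u

variable {F : Type} [Field F] {n : ℕ}

local notation "MM" => Matrix (Fin n) (Fin n) F
local notation "GLL" => Matrix.GeneralLinearGroup (Fin n) F
local notation "SLL" => Matrix.SpecialLinearGroup (Fin n) F

/-- The monomial matrix with `e_k ↦ d_k e_{σ k}`. -/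
def mon (σ : Equiv.Perm (Fin n)) (d : Fin n → F) : MM := Matrix.of fun i k => if i = σ k then d k else 0

theorem mon_apply (σ : Equiv.Perm (Fin n)) (d : Fin n → F) (i k : Fin n) : mon σ d i k = if i = σ k then d k else 0 := rfl

theorem mon_mul (σ τ : Equiv.Perm (Fin n)) (d f : Fin n → F) :
    mon σ d * mon τ f = mon (σ * τ) (fun k => d (τ k) * f k) := by
  ext i k
  rw [Matrix.mul_apply, Finset.sum_eq_single (τ k)]
  · rw [mon_apply, mon_apply, mon_apply, if_pos rfl, Equiv.Perm.mul_apply]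
    split_ifs <;> simp
  · intro j _ hj
    rw [mon_apply τ f j k, if_neg hj, mul_zero]
  · intro h
    exact absurd (Finset.mem_univ _) h

theorem mon_one (d : Fin n → F) : mon 1 d = Matrix.diagonal d := by
  ext i k
  rw [mon_apply, Matrix.diagonal_apply, Equiv.Perm.one_apply]
  by_cases h : i = k
  · subst h; simp
  · simp [h]

theorem mon_inj {σ τ : Equiv.Perm (Fin n)} {d f : Fin n → F} (hd : ∀ k, d k ≠ 0) (h : mon σ d = mon τ f) :
    σ = τ ∧ d = f := by
  have h1 : ∀ k, σ k = τ k := fun k => by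
    have h2 := congrFun (congrFun h (σ k)) k
    rw [mon_apply, mon_apply, if_pos rfl] at h2
    by_contra h3
    rw [if_neg h3] at h2
    exact hd k h2
  have h4 : σ = τ := Equiv.ext h1
  refine ⟨h4, funext fun k => ?_⟩
  have h2 := congrFun (congrFun h (σ k)) k
  rw [mon_apply, mon_apply, if_pos rfl, if_pos (h1 k)] at h2
  exact h2

theorem det_mon (σ : Equiv.Perm (Fin n)) (d : Fin n → F) :
    (mon σ d).det = ((Equiv.Perm.sign σ : ℤˣ) : ℤ) * ∏ k, d k := by
  have : mon σ d = (Equiv.Perm.permMatrix F σ⁻¹) * Matrix.diagonal d := by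
    ext i k
    rw [mon_apply, Matrix.mul_diagonal, Equiv.Perm.permMatrix, PEquiv.toMatrix_apply]
    by_cases h : i = σ k
    · subst h; simp
    · have h' : ¬ k = σ⁻¹ i := by
        intro hk
        rw [hk] at h
        simp at h
      rw [if_neg h]
      rw [if_neg]
      · simp
      · intro hh
        apply h'
        simpa [Equiv.toPEquiv_apply, eq_comm] using hh
  rw [this, Matrix.det_mul, Matrix.det_diagonal, Matrix.det_permutation, Equiv.Perm.sign_inv]

/-- The stabilizer of the standard frame. -/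
def IsMon (s : MM) : Prop := ∀ k, ∃ l, s * blk (id : Fin n → Fin n) k = blk (id : Fin n → Fin n) l * s

theorem mul_blk {t : ℕ} (b : Fin n → Fin t) (s : MM) (i : Fin t) (a k : Fin n) :
    (s * blk b i : MM) a k = if b k = i then s a k else 0 := by
  rw [blk, Matrix.mul_diagonal]
  split_ifs <;> simp

theorem blk_mul {t : ℕ} (b : Fin n → Fin t) (s : MM) (i : Fin t) (a k : Fin n) :
    (blk b i * s : MM) a k = if b a = i then s a k else 0 := by
  rw [blk, Matrix.diagonal_mul]
  split_ifs <;> simp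

theorem isMon_mon (σ : Equiv.Perm (Fin n)) (d : Fin n → F) : IsMon (mon σ d) := by
  intro k
  refine ⟨σ k, ?_⟩
  ext a c
  rw [mul_blk, blk_mul, mon_apply]
  simp only [id_eq]
  by_cases h1 : a = σ c
  · subst h1
    by_cases h2 : c = k
    · subst h2; simp
    · rw [if_neg h2, if_neg (fun hh => h2 (σ.injective hh))]
  · rw [if_neg h1]; simp

theorem exists_mon {s : MM} (hs : IsMon s) (hd : s.det ≠ 0) : ∃ (σ : Equiv.Perm (Fin n)) (d : Fin n → F),
    s = mon σ d ∧ ∀ k, d k ≠ 0 := by
  classical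
  choose f hf using hs
  have h1 : ∀ k a, a ≠ f k → s a k = 0 := fun k a ha => by
    have := congrFun (congrFun (hf k) a) k
    rw [mul_blk, blk_mul] at this
    simp only [id_eq, if_true] at this
    rw [this, if_neg ha]
  have h2 : ∀ k, s (f k) k ≠ 0 := fun k hk => by
    apply hd
    apply Matrix.det_eq_zero_of_column_eq_zero k
    intro a
    by_cases ha : a = f k
    · rw [ha, hk]
    · exact h1 k a ha
  have h3 : Function.Injective f := fun k l hkl => by
    by_contra hne
    have := congrFun (congrFun (hf k) (f k)) l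
    rw [mul_blk, blk_mul] at this
    simp only [id_eq, if_true] at this
    rw [if_neg (fun h => hne h.symm)] at this
    rw [hkl] at this
    exact h2 l this.symm
  let σ : Equiv.Perm (Fin n) := Equiv.ofBijective f (Finite.injective_iff_bijective.mp h3)
  refine ⟨σ, fun k => s (f k) k, ?_, h2⟩
  ext a k
  rw [mon_apply]
  change s a k = if a = f k then _ else _
  split_ifs with h
  · rw [h]
  · exact h1 k a h

/-- The number of monomial matrices in `SL_n(F)`. -/
theorem card_isMon_le [Fintype F] : Nat.card {s : SLL // IsMon (s : MM)} ≤ n.factorial * Fintype.card F ^ n := by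
  classical
  have hinj : ∃ f : {s : SLL // IsMon (s : MM)} → Equiv.Perm (Fin n) × (Fin n → F), Function.Injective f := by
    have h1 : ∀ s : {s : SLL // IsMon (s : MM)}, ∃ p : Equiv.Perm (Fin n) × (Fin n → F), ((s : SLL) : MM) = mon p.1 p.2 := by
      rintro ⟨s, hs⟩
      obtain ⟨σ, d, h, _⟩ := exists_mon hs (by rw [s.2]; exact one_ne_zero)
      exact ⟨(σ, d), h⟩
    choose f hf using h1
    refine ⟨f, fun s s' hss => ?_⟩
    apply Subtype.ext
    apply Subtype.ext
    rw [hf s, hf s', hss]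
  obtain ⟨f, hf⟩ := hinj
  have := Nat.card_le_card_of_injective f hf
  refine this.trans (le_of_eq ?_)
  rw [Nat.card_prod, Nat.card_perm, Nat.card_eq_fintype_card, Nat.card_eq_fintype_card, Fintype.card_fin,
    Fintype.card_fun, Fintype.card_fin]

/-- A monomial matrix of determinant one with given permutation, entries `±1`. -/
theorem exists_mon_pm (hn : 0 < n) (σ : Equiv.Perm (Fin n)) :
    ∃ (s : SLL) (d : Fin n → F), (s : MM) = mon σ d ∧ ∀ k, d k = 1 ∨ d k = -1 := by
  classical
  have hs : (((Equiv.Perm.sign σ : ℤˣ) : ℤ) : F) * (((Equiv.Perm.sign σ : ℤˣ) : ℤ) : F) = 1 := by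
    rw [← Int.cast_mul, ← Units.val_mul, Int.units_mul_self, Units.val_one, Int.cast_one]
  have hs0 : (((Equiv.Perm.sign σ : ℤˣ) : ℤ) : F) = 1 ∨ (((Equiv.Perm.sign σ : ℤˣ) : ℤ) : F) = -1 := by
    rcases Int.units_eq_one_or (Equiv.Perm.sign σ) with h | h <;> rw [h] <;> simp
  let d : Fin n → F := Function.update (fun _ => (1 : F)) ⟨0, hn⟩ (((Equiv.Perm.sign σ : ℤˣ) : ℤ) : F)
  refine ⟨⟨mon σ d, ?_⟩, d, rfl, ?_⟩
  · rw [det_mon, Finset.prod_update_of_mem (Finset.mem_univ _)]
    simp [hs]
  · intro k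
    by_cases hk : k = ⟨0, hn⟩
    · subst hk
      simp only [d, Function.update_self]
      exact hs0
    · left
      simp only [d, Function.update_of_ne hk]

/-- A monomial matrix of determinant one with given permutation. -/
theorem exists_mon_det (hn : 0 < n) (σ : Equiv.Perm (Fin n)) : ∃ (s : SLL) (d : Fin n → F), (s : MM) = mon σ d ∧ ∀ k, d k ≠ 0 := by
  obtain ⟨s, d, h1, h2⟩ := exists_mon_pm (F := F) hn σ
  refine ⟨s, d, h1, fun k => ?_⟩
  rcases h2 k with h | h <;> rw [h]
  · exact one_ne_zero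
  · exact neg_ne_zero.mpr one_ne_zero

/-- The diagonal matrix with `x` at `i`, `x⁻¹` at `j`. -/
def tor (i j : Fin n) (x : F) : Fin n → F := fun k => if k = i then x else if k = j then x⁻¹ else 1

theorem prod_tor {i j : Fin n} (hij : i ≠ j) {x : F} (hx : x ≠ 0) : ∏ k, tor i j x k = 1 := by
  classical
  rw [← Finset.mul_prod_erase Finset.univ _ (Finset.mem_univ i)]
  rw [← Finset.mul_prod_erase (Finset.univ.erase i) _ (Finset.mem_erase.mpr ⟨hij.symm, Finset.mem_univ j⟩)]
  rw [Finset.prod_eq_one]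
  · simp [tor, hij.symm, mul_inv_cancel₀ hx]
  · intro k hk
    simp only [Finset.mem_erase] at hk
    simp [tor, hk.1, hk.2.1]

/-- The element of `SL_n(F)`. -/
def torS (i j : Fin n) (hij : i ≠ j) (x : F) (hx : x ≠ 0) : SLL :=
  ⟨Matrix.diagonal (tor i j x), by rw [Matrix.det_diagonal, prod_tor hij hx]⟩

theorem torS_coe (i j : Fin n) (hij : i ≠ j) (x : F) (hx : x ≠ 0) :
    ((torS i j hij x hx : SLL) : MM) = Matrix.diagonal (tor i j x) := rfl

theorem tor_ne (i j k : Fin n) {x : F} (hx : x ≠ 0) : tor i j x k ≠ 0 := by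
  unfold tor
  split_ifs
  · exact hx
  · exact inv_ne_zero hx
  · exact one_ne_zero

theorem isMon_diagonal (d : Fin n → F) : IsMon (Matrix.diagonal d) := by
  rw [← mon_one]; exact isMon_mon 1 d

theorem mon_inv {s : SLL} {σ : Equiv.Perm (Fin n)} {d : Fin n → F} (h : (s : MM) = mon σ d) (hd : ∀ k, d k ≠ 0) :
    ((s⁻¹ : SLL) : MM) = mon σ⁻¹ (fun k => (d (σ⁻¹ k))⁻¹) := by
  have h1 : (s : MM) * mon σ⁻¹ (fun k => (d (σ⁻¹ k))⁻¹) = 1 := by
    rw [h, mon_mul, mul_inv_cancel, mon_one]
    rw [← Matrix.diagonal_one]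
    congr 1
    funext k
    exact mul_inv_cancel₀ (hd _)
  have h2 : ((s⁻¹ : SLL) : MM) * (s : MM) = 1 := by
    rw [← Matrix.SpecialLinearGroup.coe_mul, inv_mul_cancel, Matrix.SpecialLinearGroup.coe_one]
  calc ((s⁻¹ : SLL) : MM) = ((s⁻¹ : SLL) : MM) * ((s : MM) * mon σ⁻¹ (fun k => (d (σ⁻¹ k))⁻¹)) := by rw [h1, mul_one]
    _ = _ := by rw [← mul_assoc, h2, one_mul]

theorem mon_pow (σ : Equiv.Perm (Fin n)) (d : Fin n → F) (m : ℕ) : ∃ f : Fin n → F, mon σ d ^ m = mon (σ ^ m) f := by
  induction m with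
  | zero => exact ⟨fun _ => 1, by rw [pow_zero, pow_zero, mon_one]; exact Matrix.diagonal_one.symm⟩
  | succ m ih =>
    obtain ⟨f, hf⟩ := ih
    exact ⟨_, by rw [pow_succ, hf, mon_mul, pow_succ]⟩

theorem mon_smul (c : F) (σ : Equiv.Perm (Fin n)) (d : Fin n → F) : c • mon σ d = mon σ (fun k => c * d k) := by
  ext i k
  rw [Matrix.smul_apply, mon_apply, mon_apply, smul_eq_mul]
  split_ifs <;> simp

theorem smul_one_eq (c : F) : c • (1 : MM) = mon 1 (fun _ => c) := by
  rw [mon_one]
  ext i k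
  by_cases h : i = k
  · subst h; simp
  · simp [h]

end Cfsg.Agent.H599.TW
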