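import Cfsg.Agent.H599.TW.Cent
import Cfsg.Agent.H599.TW.Grp

/-!
# S3694: the case `A₂ ∩ N = 1` for a frame of points (helper599)
-/

set_option autoImplicit false
set_option linter.unusedSectionVars false
set_option linter.style.haveILetI false

namespace Cfsg.Agent.H599.TW

open Subgroup Cfsg.Agent.H607.TW

universe u

variable {F : Type} [Field F] {n : ℕ}

local notation "MM" => Matrix (Fin n) (Fin n) F
local notation "GLL" => Matrix.GeneralLinearGroup (Fin n) F
local notation "SLL" => Matrix.SpecialLinearGroup (Fin n) F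

variable {G : Type u} [Group G] {N A : Subgroup G} {r : ℕ}

/-- A normal subgroup of `A` meeting `N` trivially centralises `A ∩ N`. -/
theorem comm_of_inf_eq_bot (hN : N.Normal) {B₂ : Subgroup G} (hnorm : A ≤ normalizer (B₂ : Set G))
    (hBN : B₂ ⊓ N = ⊥) {x y : G} (hx : x ∈ B₂) (hy : y ∈ A ⊓ N) : x * y = y * x := by
  have h1 : x * y * x⁻¹ * y⁻¹ ∈ B₂ ⊓ N := by
    constructor
    · have : x * (y * x⁻¹ * y⁻¹) ∈ B₂ := B₂.mul_mem hx (mem_of_le_normalizer hnorm hy.1 (B₂.inv_mem hx))
      simpa [mul_assoc] using this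
    · exact N.mul_mem (hN.conj_mem y hy.2 x) (N.inv_mem hy.2)
  rw [hBN, mem_bot] at h1
  have h2 : x * y * x⁻¹ = y := by
    have := mul_eq_one_iff_eq_inv.mp h1
    rwa [inv_inv] at this
  calc x * y = x * y * x⁻¹ * x := by group
    _ = y * x := by rw [h2]

/-- an element of odd order is a square -/
theorem exists_sq {x : G} {r k : ℕ} (hr : r.Prime) (h2 : r ≠ 2) (hx : x ^ r ^ k = 1) : ∃ m : ℕ, (x ^ m) ^ 2 = x := by
  have hodd : Odd (r ^ k) := (hr.odd_of_ne_two h2).pow
  obtain ⟨m, hm⟩ := hodd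
  refine ⟨m + 1, ?_⟩
  rw [← pow_mul, show (m + 1) * 2 = r ^ k + 1 by omega, pow_succ, hx, one_mul]

theorem no_cent [Finite G] [Fintype F] {π : SLL →* G} (hM : Model N (iSL n F) π) (hL : Loc N A r)
    (hA : Frame (iSL n F) π A (blk (id : Fin n → Fin n))) (hn : 3 ≤ n) (hr : ¬ r ∣ Fintype.card F) {B₂ : Subgroup G}
    (hB : B₂ ≤ OO r A) (hne : B₂ ≠ ⊥) (hnorm : A ≤ normalizer (B₂ : Set G)) (hBN : B₂ ⊓ N = ⊥) :
    n = 3 ∧ Fintype.card F = 3 := by
  have hBA : B₂ ≤ A := hB.trans (OO_le r A)
  have hcomm : ∀ x ∈ B₂, ∀ s : SLL, IsMon (s : MM) → x * π s = π s * x := fun x hx s hs =>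
    comm_of_inf_eq_bot hL.normal hnorm hBN hx ⟨hA.stab s hs, by
      change π s ∈ N
      rw [← hM.range]; exact ⟨s, rfl⟩⟩
  have hP : ∀ x ∈ B₂, ∀ B σ, Ind (iSL n F) π x (tauP B σ) → x = 1 := fun x hx B σ h =>
    eq_one_of_tauP hM hL.cent h (cent_P hn (fun k => hA.perm x (hBA hx) _ h k)
      (fun s hs => comm_P hM h (hcomm x hx s hs)))
  have hMt : ∀ x ∈ B₂, ∀ B σ, Ind (iSL n F) π x (tauM B σ) →
      (∀ y : MM, tauM B σ y = y.transpose.map σ) ∧ ∀ x : F, x ≠ 0 → σ x * x = 1 := fun x hx B σ h =>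
    cent_M hn (fun k => hA.perm x (hBA hx) _ h k) (fun s hs => comm_M hM h (hcomm x hx s hs))
  have hMsq : ∀ w ∈ B₂, w ^ 2 = 1 := by
    intro w hw
    obtain ⟨B, σ, h | h⟩ := hM.lift w
    · rw [hP w hw B σ h, one_pow]
    · obtain ⟨h1, h2⟩ := hMt w hw B σ h
      have h3 : ∀ x : F, σ (σ x) = x := fun x => by
        by_cases hx : x = 0
        · rw [hx, map_zero, map_zero]
        have e1 := h2 x hx
        have hσx : σ x ≠ 0 := fun h0 => by rw [h0, zero_mul] at e1; exact zero_ne_one e1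
        have e2 := h2 (σ x) hσx
        have : (σ (σ x) - x) * σ x = 0 := by linear_combination e2 - e1
        rcases mul_eq_zero.mp this with h4 | h4
        · exact sub_eq_zero.mp h4
        · exact absurd h4 hσx
      have : w ^ 2 ∈ centralizer (N : Set G) := by
        rw [mem_centralizer_iff]
        intro g hg
        have hg' : g ∈ π.range := by rw [hM.range]; exact hg
        obtain ⟨s, rfl⟩ := hg'
        obtain ⟨s₁, e1, e2⟩ := ind_tauM hM.two h s
        obtain ⟨s₂, e3, e4⟩ := ind_tauM hM.two h s₁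
        have e5 : mt (iSL n F) s₂ = mt (iSL n F) s := by
          rw [e3, e1, h1, h1]
          ext i j
          rw [Matrix.map_apply, Matrix.transpose_apply, Matrix.map_apply, Matrix.transpose_apply, h3]
        have e6 : s₂ = s := Subtype.ext e5
        rw [e6] at e4
        have e7 : π s₁ = (w * π s * w⁻¹)⁻¹ := by rw [← e2, inv_inv]
        rw [e7] at e4
        have e8 : π s = w * (w * π s * w⁻¹) * w⁻¹ := by
          have := congrArg (fun z => z⁻¹) e4
          simp only [inv_inv, mul_inv_rev] at this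
          exact this.trans (by group)
        calc π s * w ^ 2 = w * (w * π s * w⁻¹) * w⁻¹ * w ^ 2 := by rw [← e8]
          _ = w ^ 2 * π s := by rw [pow_two]; group
      rw [hL.cent, mem_bot] at this
      exact this
  -- a nontrivial element
  obtain ⟨x, hx, hx1⟩ := (Subgroup.ne_bot_iff_exists_ne_one).mp hne |>.imp (fun x hx => hx) |> fun ⟨x, hx⟩ =>
    (⟨(x : G), x.2, fun h => hx (Subtype.ext h)⟩ : ∃ x : G, x ∈ B₂ ∧ x ≠ 1)
  obtain ⟨B, σ, h | h⟩ := hM.lift x
  · exact absurd (hP x hx B σ h) hx1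
  obtain ⟨h1, h2⟩ := hMt x hx B σ h
  have hc4 := card_le_four h2
  have hr2 : r = 2 := by
    by_contra hne2
    obtain ⟨k, hk⟩ := OO_pow (hB hx)
    obtain ⟨m, hm⟩ := exists_sq hL.prime hne2 hk
    have := hMsq (x ^ m) (B₂.pow_mem hx m)
    rw [hm] at this
    exact hx1 this
  subst hr2
  have hc3 : Fintype.card F = 3 := by
    have := Fintype.one_lt_card (α := F)
    omega
  have h30 : (3 : F) = 0 := by
    have := Nat.cast_card_eq_zero F
    rw [hc3] at this
    exact_mod_cast this
  have hsq : ∀ x : F, x ≠ 0 → x * x = 1 := fun x hx => by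
    have := FiniteField.pow_card_sub_one_eq_one x hx
    rw [hc3] at this
    rw [← this]; ring
  refine ⟨?_, hc3⟩
  by_contra hn3
  obtain ⟨s, hs1, hs2⟩ := exists_orth (n := n) (by omega) h30
  apply hs2
  have hmem : π s ∈ A := by
    apply mem_of_comm hL hBA hne hnorm
    intro b hb
    obtain ⟨B', σ', h' | h'⟩ := hM.lift b
    · rw [hP b hb B' σ' h', mul_one, one_mul]
    · obtain ⟨h1', h2'⟩ := hMt b hb B' σ' h'
      obtain ⟨s', e1, e2⟩ := ind_tauM hM.two h' s
      have hσ' : ∀ x : F, σ' x = x := fun x => by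
        by_cases hx : x = 0
        · rw [hx, map_zero]
        have e3 := h2' x hx
        have e4 := hsq x hx
        have : (σ' x - x) * x = 0 := by linear_combination e3 - e4
        rcases mul_eq_zero.mp this with h4 | h4
        · exact sub_eq_zero.mp h4
        · exact absurd h4 hx
      have e5 : (s' : MM) = (s : MM).transpose := by
        rw [← mt_iSL s', e1, h1']
        ext i j
        rw [Matrix.map_apply, hσ']
        rfl
      have e6 : s' * s = 1 := by
        apply Subtype.ext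
        rw [Matrix.SpecialLinearGroup.coe_mul, e5, Matrix.SpecialLinearGroup.coe_one]
        exact hs1
      have e7 : (π s')⁻¹ = π s := by
        rw [← map_inv, eq_inv_of_mul_eq_one_left e6, inv_inv]
      rw [e7] at e2
      calc π s * b = b * π s * b⁻¹ * b := by rw [← e2]
        _ = b * π s := by group
  intro k
  exact perm_of_mem hA hmem k

end Cfsg.Agent.H599.TW
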