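import Cfsg.Agent.H599.TW.Mon

/-!
# S3694: groups of monomial matrices, one frame (helper599)
-/

set_option autoImplicit false
set_option linter.unusedSectionVars false
set_option linter.style.haveILetI false

namespace Cfsg.Agent.H599.TW

open Subgroup Cfsg.Agent.H607.TW

universe u

variable {F : Type} [Field F] {n : ℕ}

local notation "MM" => Matrix (Fin n) (Fin n) F
local notation "GLL" => Matrix.GeneralLinearGroup (Fin n) F
local notation "SLL" => Matrix.SpecialLinearGroup (Fin n) F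

theorem inv_self' (σ : Equiv.Perm (Fin n)) (k : Fin n) : σ⁻¹ (σ k) = k := by simp

theorem self_inv' (σ : Equiv.Perm (Fin n)) (k : Fin n) : σ (σ⁻¹ k) = k := by simp

theorem mon_data {s : SLL} (hs : IsMon (s : MM)) : ∃ (σ : Equiv.Perm (Fin n)) (d : Fin n → F),
    (s : MM) = mon σ d ∧ ∀ k, d k ≠ 0 := exists_mon hs (by rw [s.2]; exact one_ne_zero)

/-- `n ≥ 5`: a normal `r`-subgroup of the monomial group is diagonal. -/
theorem diag_of_five (hn : 5 ≤ n) {K : Subgroup SLL} {r : ℕ} (hr : r.Prime)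
    (hnorm : ∀ s : SLL, IsMon (s : MM) → ∀ y ∈ K, s * y * s⁻¹ ∈ K)
    (hpow : ∀ y ∈ K, ∃ (k : ℕ) (c : F), ((y ^ r ^ k : SLL) : MM) = c • (1 : MM)) {y : SLL} (hy : y ∈ K)
    {σ : Equiv.Perm (Fin n)} {d : Fin n → F} (hyd : (y : MM) = mon σ d) (hd : ∀ k, d k ≠ 0) : σ = 1 := by
  classical
  let Q : Subgroup (Equiv.Perm (Fin n)) :=
    { carrier := {σ | ∃ y ∈ K, ∃ d : Fin n → F, (∀ k, d k ≠ 0) ∧ (y : MM) = mon σ d}
      mul_mem' := by
        rintro σ τ ⟨y, hy, d, hd, h⟩ ⟨z, hz, f, hf, h'⟩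
        exact ⟨y * z, K.mul_mem hy hz, _, fun k => mul_ne_zero (hd _) (hf _), by
          rw [Matrix.SpecialLinearGroup.coe_mul, h, h', mon_mul]⟩
      one_mem' := ⟨1, K.one_mem, fun _ => 1, fun _ => one_ne_zero, by
        rw [Matrix.SpecialLinearGroup.coe_one, ← smul_one_eq, one_smul]⟩
      inv_mem' := by
        rintro σ ⟨y, hy, d, hd, h⟩
        exact ⟨y⁻¹, K.inv_mem hy, _, fun k => inv_ne_zero (hd _), mon_inv h hd⟩ }
  have hQn : Q.Normal := by
    refine ⟨?_⟩
    rintro σ ⟨y, hy, d, hd, h⟩ τ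
    obtain ⟨s, f, hs, hf⟩ := exists_mon_det (F := F) (by omega : 0 < n) τ
    refine ⟨s * y * s⁻¹, hnorm s (by rw [hs]; exact isMon_mon _ _) y hy, _, ?_, by
      rw [Matrix.SpecialLinearGroup.coe_mul, Matrix.SpecialLinearGroup.coe_mul, mon_inv hs hf, hs, h, mon_mul, mon_mul]⟩
    intro k
    exact mul_ne_zero (mul_ne_zero (hf _) (hd _)) (inv_ne_zero (hf _))
  have hQr : ∀ σ ∈ Q, ∃ k : ℕ, σ ^ r ^ k = 1 := by
    rintro σ ⟨y, hy, d, hd, h⟩
    obtain ⟨k, c, hk⟩ := hpow y hy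
    refine ⟨k, ?_⟩
    obtain ⟨f, hf⟩ := mon_pow σ d (r ^ k)
    rw [Matrix.SpecialLinearGroup.coe_pow, h, hf, smul_one_eq] at hk
    have hc : c ≠ 0 := by
      intro hc
      have h0 : ((y ^ r ^ k : SLL) : MM).det = 1 := (y ^ r ^ k : SLL).2
      rw [Matrix.SpecialLinearGroup.coe_pow, h, hf, hk, det_mon] at h0
      rw [hc] at h0
      rw [Finset.prod_const, Finset.card_univ, Fintype.card_fin, zero_pow (by omega), mul_zero] at h0
      exact zero_ne_one h0
    exact ((mon_inj (fun _ => hc) hk.symm).1).symm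
  by_contra hne
  have hσQ : σ ∈ Q := ⟨y, hy, d, hd, hyd⟩
  have hnt : Nontrivial Q := ⟨⟨σ, hσQ⟩, 1, fun h => hne (congrArg Subtype.val h)⟩
  have hle : alternatingGroup (Fin n) ≤ Q :=
    Equiv.Perm.alternatingGroup_le_of_normal (by rw [Nat.card_eq_fintype_card, Fintype.card_fin]; exact hn) hnt
  have h01 : (⟨0, by omega⟩ : Fin n) ≠ ⟨1, by omega⟩ := fun h => by simp at h
  have h02 : (⟨0, by omega⟩ : Fin n) ≠ ⟨2, by omega⟩ := fun h => by simp at h
  have h12 : (⟨1, by omega⟩ : Fin n) ≠ ⟨2, by omega⟩ := fun h => by simp at h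
  have h23 : (⟨2, by omega⟩ : Fin n) ≠ ⟨3, by omega⟩ := fun h => by simp at h
  by_cases h2 : r = 2
  · subst h2
    -- a 3-cycle
    let c : Equiv.Perm (Fin n) := Equiv.swap ⟨0, by omega⟩ ⟨1, by omega⟩ * Equiv.swap ⟨0, by omega⟩ ⟨2, by omega⟩
    have hc3 : c.IsThreeCycle := Equiv.Perm.isThreeCycle_swap_mul_swap_same h01 h02 h12
    have hcQ : c ∈ Q := hle hc3.mem_alternatingGroup
    obtain ⟨k, hk⟩ := hQr c hcQ
    have ho : orderOf c = 3 := hc3.orderOf
    have := orderOf_dvd_of_pow_eq_one hk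
    rw [ho] at this
    have := Nat.Prime.dvd_of_dvd_pow Nat.prime_three this
    omega
  · let c : Equiv.Perm (Fin n) := Equiv.swap ⟨0, by omega⟩ ⟨1, by omega⟩ * Equiv.swap ⟨2, by omega⟩ ⟨3, by omega⟩
    have hcA : c ∈ alternatingGroup (Fin n) := by
      rw [Equiv.Perm.mem_alternatingGroup]
      simp only [c]
      rw [Equiv.Perm.sign_mul, Equiv.Perm.sign_swap h01, Equiv.Perm.sign_swap h23]
      rfl
    obtain ⟨k, hk⟩ := hQr c (hle hcA)
    have hcc : c * c = 1 := by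
      have hdis : Commute (Equiv.swap (⟨0, by omega⟩ : Fin n) ⟨1, by omega⟩) (Equiv.swap ⟨2, by omega⟩ ⟨3, by omega⟩) := by
        apply Equiv.Perm.Disjoint.commute
        apply Equiv.Perm.disjoint_swap_swap
        simp
      simp only [c]
      rw [mul_assoc, ← mul_assoc (Equiv.swap (⟨2, _⟩ : Fin n) ⟨3, _⟩), ← hdis.eq, mul_assoc, Equiv.swap_mul_self, mul_one,
        Equiv.swap_mul_self]
    have h2' : c ^ 2 = 1 := by rw [pow_two, hcc]
    have hcop : Nat.Coprime 2 (r ^ k) := by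
      apply Nat.Coprime.pow_right
      rw [Nat.coprime_primes Nat.prime_two hr]
      exact fun h => h2 h.symm
    have ho : orderOf c = 1 := Nat.eq_one_of_dvd_coprimes hcop (orderOf_dvd_of_pow_eq_one h2') (orderOf_dvd_of_pow_eq_one hk)
    have hc1 : c = 1 := orderOf_eq_one_iff.mp ho
    have h4 := congrArg (fun g : Equiv.Perm (Fin n) => g ⟨0, by omega⟩) hc1
    simp only [c, Equiv.Perm.mul_apply, Equiv.Perm.one_apply] at h4
    rw [Equiv.swap_apply_of_ne_of_ne (a := (⟨2, _⟩ : Fin n)) (b := ⟨3, _⟩) h02 (fun h => by simp at h), Equiv.swap_apply_left] at h4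
    exact h01 h4.symm

/-- separation: a matrix commuting with a nonscalar group of diagonal matrices invariant under all monomials is diagonal -/
theorem diag_of_comm {K : Subgroup SLL} (hn : 0 < n)
    (hnorm : ∀ s : SLL, IsMon (s : MM) → ∀ y ∈ K, s * y * s⁻¹ ∈ K) {y : SLL} (hy : y ∈ K) {d : Fin n → F}
    (hyd : (y : MM) = Matrix.diagonal d) {i j : Fin n} (hij : d i ≠ d j) {x : MM} (hx : ∀ y ∈ K, x * (y : MM) = (y : MM) * x)
    {k l : Fin n} (hkl : k ≠ l) : x k l = 0 := by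
  classical
  have hij' : i ≠ j := fun h => hij (by rw [h])
  have hd0 : ∀ k, d k ≠ 0 := fun k hk => by
    have h := y.2
    rw [hyd, Matrix.det_diagonal, Finset.prod_eq_zero (Finset.mem_univ k) hk] at h
    exact zero_ne_one h
  -- a permutation with i ↦ k, j ↦ l
  obtain ⟨τ, h1, h2⟩ : ∃ τ : Equiv.Perm (Fin n), τ i = k ∧ τ j = l := by
    refine ⟨Equiv.swap (Equiv.swap i k j) l * Equiv.swap i k, ?_, ?_⟩
    · rw [Equiv.Perm.mul_apply, Equiv.swap_apply_left, Equiv.swap_apply_of_ne_of_ne]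
      · intro h
        have : Equiv.swap i k i = Equiv.swap i k j := by rw [Equiv.swap_apply_left]; exact h
        exact hij' ((Equiv.swap i k).injective this)
      · exact hkl
    · rw [Equiv.Perm.mul_apply, Equiv.swap_apply_left]
  obtain ⟨s, f, hs, hf⟩ := exists_mon_det (F := F) hn τ
  have hm := hnorm s (by rw [hs]; exact isMon_mon _ _) y hy
  have he : ((s * y * s⁻¹ : SLL) : MM) = Matrix.diagonal (fun a => d (τ⁻¹ a)) := by
    rw [Matrix.SpecialLinearGroup.coe_mul, Matrix.SpecialLinearGroup.coe_mul, mon_inv hs hf, hs, hyd, ← mon_one, mon_mul,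
      mon_mul, mul_one, mul_inv_cancel, mon_one]
    congr 1
    funext a
    rw [Equiv.Perm.one_apply, mul_comm (f _) (d _), mul_assoc, mul_inv_cancel₀ (hf _), mul_one]
  have h3 := hx _ hm
  rw [he] at h3
  have h4 := congrFun (congrFun h3 k) l
  rw [Matrix.mul_diagonal, Matrix.diagonal_mul, ← h1, ← h2, inv_self', inv_self'] at h4
  rw [h1, h2] at h4
  have h5 : (d j - d i) * x k l = 0 := by
    rw [sub_mul, mul_comm (d j), h4, sub_self]
  rcases mul_eq_zero.mp h5 with h6 | h6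
  · exact absurd (sub_eq_zero.mp h6).symm hij
  · exact h6

/-- `q ≥ 5`: a nonscalar subgroup invariant under the monomials contains a nonscalar diagonal matrix. -/
theorem exists_diag (hn : 3 ≤ n) {K : Subgroup SLL} (hmon : ∀ y ∈ K, IsMon (y : MM))
    (hnorm : ∀ s : SLL, IsMon (s : MM) → ∀ y ∈ K, s * y * s⁻¹ ∈ K) (hq : ∃ x : F, x ≠ 0 ∧ x ^ 2 ≠ 1 ∧ x ^ 3 ≠ 1)
    {y : SLL} (hy : y ∈ K) (hns : ¬ ∃ c : F, (y : MM) = c • (1 : MM)) :
    ∃ z ∈ K, ∃ d : Fin n → F, (z : MM) = Matrix.diagonal d ∧ ∃ i j, d i ≠ d j := by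
  classical
  obtain ⟨σ, d, hyd, hd⟩ := mon_data (hmon y hy)
  by_cases hσ : σ = 1
  · subst hσ
    rw [mon_one] at hyd
    refine ⟨y, hy, d, hyd, ?_⟩
    by_contra hcon
    push Not at hcon
    apply hns
    refine ⟨d ⟨0, by omega⟩, ?_⟩
    rw [hyd, smul_one_eq, mon_one]
    congr 1
    funext k
    exact hcon _ _
  · obtain ⟨x, hx0, hx2, hx3⟩ := hq
    obtain ⟨i, hi⟩ : ∃ i, σ i ≠ i := by
      by_contra hcon
      push Not at hcon
      exact hσ (Equiv.ext hcon)
    -- a third index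
    obtain ⟨l, hl1, hl2⟩ : ∃ l : Fin n, l ≠ i ∧ l ≠ σ i := by
      have hc : ({i, σ i} : Finset (Fin n)).card < (Finset.univ : Finset (Fin n)).card := by
        rw [Finset.card_univ, Fintype.card_fin]
        exact lt_of_le_of_lt (Finset.card_le_two) (by omega)
      obtain ⟨l, _, hl⟩ := Finset.exists_mem_notMem_of_card_lt_card hc
      simp only [Finset.mem_insert, Finset.mem_singleton, not_or] at hl
      exact ⟨l, hl.1, hl.2⟩
    let t : SLL := torS i l hl1.symm x hx0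
    have ht : (t : MM) = mon 1 (tor i l x) := by rw [mon_one]; rfl
    have hti : ((t⁻¹ : SLL) : MM) = mon 1 (fun k => (tor i l x k)⁻¹) := by
      have := mon_inv ht (fun k => tor_ne i l k hx0)
      rwa [inv_one] at this
    have hyi := mon_inv hyd hd
    refine ⟨y * (t * y⁻¹ * t⁻¹), K.mul_mem hy (hnorm t (by rw [ht]; exact isMon_mon _ _) _ (K.inv_mem hy)), _, by
      rw [Matrix.SpecialLinearGroup.coe_mul, Matrix.SpecialLinearGroup.coe_mul, Matrix.SpecialLinearGroup.coe_mul,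
        hti, hyi, ht, hyd, mon_mul, mon_mul, mon_mul, one_mul, mul_one, mul_inv_cancel, mon_one], σ i, i, ?_⟩
    simp only [Equiv.Perm.one_apply, inv_self']
    have e1 : tor i l x i = x := by simp [tor]
    have e2 : tor i l x (σ i) = 1 := by simp [tor, hi, hl2.symm]
    have e3 : tor i l x (σ⁻¹ i) = 1 ∨ tor i l x (σ⁻¹ i) = x⁻¹ := by
      have h1 : σ⁻¹ i ≠ i := fun h => hi (by
        have := congrArg σ h
        rw [self_inv'] at this
        exact this.symm)
      unfold tor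
      rw [if_neg h1]
      split_ifs
      · right; rfl
      · left; rfl
    rw [e1, e2, inv_one, mul_one]
    intro hcon
    have h1 : d i * (x * (d i)⁻¹) = x := by
      rw [mul_left_comm, mul_inv_cancel₀ (hd i), mul_one]
    rw [h1] at hcon
    have h2 : d (σ⁻¹ i) * (tor i l x (σ⁻¹ i) * (d (σ⁻¹ i))⁻¹ * x⁻¹) = tor i l x (σ⁻¹ i) * x⁻¹ := by
      linear_combination (tor i l x (σ⁻¹ i) * x⁻¹) * mul_inv_cancel₀ (hd (σ⁻¹ i))
    rw [h2] at hcon
    rcases e3 with h3 | h3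
    · rw [h3, one_mul] at hcon
      apply hx2
      rw [pow_two]
      nth_rewrite 1 [hcon]
      exact inv_mul_cancel₀ hx0
    · rw [h3] at hcon
      apply hx3
      have : x * (x * x) = 1 := by
        nth_rewrite 1 [hcon]
        field_simp
      rw [← this]; ring

/-- The exponent after one commutator with a monomial. -/
def dl (f : Fin n → Fin n) (k : Fin n → ℤ) : Fin n → ℤ := fun i => k i - k (f i)

theorem three_dec : ∀ f : Fin 3 → Fin 3, (∀ a b, f a = f b → a = b) → (∃ a, f a ≠ a) →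
    ∃ a b : Fin 3, a ≠ b ∧ ∃ i j : Fin 3,
      let D := dl f (dl f (dl f (fun c => if c = a then 1 else if c = b then -1 else 0)));
      D i - D j ≠ 0 ∧ (D i - D j).natAbs ≤ 16 := by
  decide

theorem four_dec : ∀ f : Fin 4 → Fin 4, (∀ a b, f a = f b → a = b) → (∃ a, f a ≠ a) →
    ∃ a b : Fin 4, a ≠ b ∧ ∃ i j : Fin 4,
      let D := dl f (dl f (dl f (fun c => if c = a then 1 else if c = b then -1 else 0)));
      D i - D j ≠ 0 ∧ (D i - D j).natAbs ≤ 16 := by
  decide +kernel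

/-- commutator `y⁻¹ z⁻¹ y z` -/
def cc {H : Type*} [Group H] (y z : H) : H := y⁻¹ * z⁻¹ * y * z

/-- diagonal of powers -/
def pw (x : F) (k : Fin n → ℤ) : Fin n → F := fun i => x ^ k i

theorem cc_diag {y s : SLL} {σ : Equiv.Perm (Fin n)} {d : Fin n → F} (hyd : (y : MM) = mon σ d) (hd : ∀ k, d k ≠ 0)
    {x : F} (hx : x ≠ 0) {k : Fin n → ℤ} (hs : (s : MM) = Matrix.diagonal (pw x k)) :
    ((cc y s : SLL) : MM) = Matrix.diagonal (pw x (dl σ k)) := by
  have h1 := mon_inv hyd hd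
  have hs' : (s : MM) = mon 1 (pw x k) := by rw [hs, mon_one]
  have h2 := mon_inv hs' (fun i => zpow_ne_zero _ hx)
  rw [inv_one] at h2
  rw [cc, Matrix.SpecialLinearGroup.coe_mul, Matrix.SpecialLinearGroup.coe_mul, Matrix.SpecialLinearGroup.coe_mul,
    h1, h2, hs', hyd, mon_mul, mon_mul, mon_mul, mul_one, mul_one, inv_mul_cancel, mon_one]
  congr 1
  funext i
  simp only [Equiv.Perm.one_apply, inv_self', pw, dl]
  rw [zpow_sub₀ hx]
  have := mul_inv_cancel₀ (hd i)
  rw [div_eq_mul_inv]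
  linear_combination ((x ^ k (σ i))⁻¹ * x ^ k i) * this

theorem pow_eq_one_of_comm (hn : n = 3 ∨ n = 4) {y : SLL} {σ : Equiv.Perm (Fin n)} {d : Fin n → F}
    (hyd : (y : MM) = mon σ d) (hd : ∀ k, d k ≠ 0) (hσ : σ ≠ 1) {x : F} (hx : x ≠ 0)
    (H : ∀ t : SLL, (∃ f, (t : MM) = Matrix.diagonal f) → ∃ c : F, ((cc y (cc y (cc y t)) : SLL) : MM) = c • (1 : MM)) :
    ∃ m : ℕ, 0 < m ∧ m ≤ 16 ∧ x ^ m = 1 := by
  obtain ⟨i₀, hi₀⟩ : ∃ i, σ i ≠ i := by
    by_contra hcon
    push Not at hcon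
    exact hσ (Equiv.ext hcon)
  have key : ∃ a b : Fin n, a ≠ b ∧ ∃ i j : Fin n,
      let D := dl σ (dl σ (dl σ (fun c => if c = a then 1 else if c = b then -1 else 0)));
      D i - D j ≠ 0 ∧ (D i - D j).natAbs ≤ 16 := by
    rcases hn with rfl | rfl
    · exact three_dec σ (fun a b h => σ.injective h) ⟨i₀, hi₀⟩
    · exact four_dec σ (fun a b h => σ.injective h) ⟨i₀, hi₀⟩
  obtain ⟨a, b, hab, i, j, h1, h2⟩ := key
  have ht : ((torS a b hab x hx : SLL) : MM) = Matrix.diagonal (pw x (fun c => if c = a then 1 else if c = b then -1 else 0)) := by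
    rw [torS_coe]
    congr 1
    funext c
    simp only [tor, pw]
    split_ifs <;> simp
  obtain ⟨c, hc⟩ := H (torS a b hab x hx) ⟨_, torS_coe a b hab x hx⟩
  rw [cc_diag hyd hd hx (cc_diag hyd hd hx (cc_diag hyd hd hx ht))] at hc
  set D := dl σ (dl σ (dl σ (fun c => if c = a then 1 else if c = b then -1 else 0))) with hD
  have h3 := congrFun (congrFun hc i) i
  have h4 := congrFun (congrFun hc j) j
  simp only [Matrix.diagonal_apply_eq, Matrix.smul_apply, Matrix.one_apply_eq, smul_eq_mul, mul_one, pw] at h3 h4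
  have h5 : x ^ (D i - D j) = 1 := by
    rw [zpow_sub₀ hx, h3, h4, div_self]
    rw [← h4]
    exact zpow_ne_zero _ hx
  refine ⟨(D i - D j).natAbs, Int.natAbs_pos.mpr h1, h2, ?_⟩
  rcases Int.natAbs_eq (D i - D j) with h6 | h6
  · rw [h6, zpow_natCast] at h5
    exact h5
  · rw [h6, zpow_neg, zpow_natCast, inv_eq_one] at h5
    exact h5

end Cfsg.Agent.H599.TW
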