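import Cfsg.Agent.H599.TW.Blk

/-!
# S3694: two frames of planes (helper599)
-/

set_option autoImplicit false
set_option linter.unusedSectionVars false
set_option linter.style.haveILetI false

namespace Cfsg.Agent.H599.TW

open Subgroup Cfsg.Agent.H607.TW

universe u

variable {F : Type} [Field F] {n : ℕ}

local notation "MM" => Matrix (Fin n) (Fin n) F
local notation "GLL" => Matrix.GeneralLinearGroup (Fin n) F
local notation "SLL" => Matrix.SpecialLinearGroup (Fin n) F

variable {t : ℕ}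

theorem eq_of_rank {e f : MM} (hef : e * f = f) (hfe : f * e = f) (hff : f * f = f) (hr : e.rank ≤ f.rank) : e = f := by
  have h1 : LinearMap.range f.mulVecLin ≤ LinearMap.range e.mulVecLin := by
    rintro _ ⟨x, rfl⟩
    refine ⟨f.mulVecLin x, ?_⟩
    rw [Matrix.mulVecLin_apply, Matrix.mulVecLin_apply, Matrix.mulVec_mulVec, hef]
  have h2 : LinearMap.range f.mulVecLin = LinearMap.range e.mulVecLin := Submodule.eq_of_le_of_finrank_le h1 hr
  have h3 : ∀ x, e.mulVec x = f.mulVec x := fun x => by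
    have h4 : e.mulVecLin x ∈ LinearMap.range f.mulVecLin := by rw [h2]; exact ⟨x, rfl⟩
    obtain ⟨y, hy⟩ := h4
    rw [Matrix.mulVecLin_apply, Matrix.mulVecLin_apply] at hy
    calc e.mulVec x = f.mulVec y := hy.symm
      _ = f.mulVec (f.mulVec y) := by rw [Matrix.mulVec_mulVec, hff]
      _ = f.mulVec (e.mulVec x) := by rw [hy]
      _ = f.mulVec x := by rw [Matrix.mulVec_mulVec, hfe]
  exact Matrix.ext_of_mulVec_single fun i => h3 _

theorem rank_bl (E : Fin t × Fin 2 ≃ Fin n) (i : Fin t) : (bl E i : MM).rank = 2 := by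
  classical
  rw [bl, blk, Matrix.rank_diagonal]
  have : Fintype.card {k : Fin n // (if (E.symm k).1 = i then (1 : F) else 0) ≠ 0} = Fintype.card (Fin 2) := by
    apply Fintype.card_congr
    refine ⟨fun k => (E.symm k.1).2, fun a => ⟨E (i, a), by simp⟩, fun k => ?_, fun a => by simp⟩
    apply Subtype.ext
    obtain ⟨k, hk⟩ := k
    have h1 : (E.symm k).1 = i := by
      by_contra hh
      rw [if_neg hh] at hk
      exact hk rfl
    change E (i, (E.symm k).2) = k
    rw [← h1]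
    simp
  rw [this, Fintype.card_fin]

theorem rank_cM (P : GLL) (x : MM) : (cM P x).rank = x.rank := by
  rw [cM_apply]
  have hdet : ∀ Q : GLL, IsUnit ((Q : MM).det) := fun Q => by
    rw [← Matrix.isUnit_iff_isUnit_det]
    exact Q.isUnit
  rw [Matrix.rank_mul_eq_left_of_isUnit_det _ _ (hdet P⁻¹), Matrix.rank_mul_eq_right_of_isUnit_det _ _ (hdet P)]

variable {G : Type u} [Group G] {N A C A₁ C₁ A₂ C₂ : Subgroup G} {r d : ℕ}

theorem cast_ne [Fintype F] (hr : r.Prime) (h : ¬ r ∣ Fintype.card F) : (r : F) ≠ 0 := by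
  intro h0
  have h1 : addOrderOf (1 : F) ∣ r := by
    rw [addOrderOf_dvd_iff_nsmul_eq_zero, nsmul_eq_mul, mul_one, h0]
  have h2 : addOrderOf (1 : F) ∣ Fintype.card F := addOrderOf_dvd_card
  rcases (Nat.dvd_prime hr).mp h1 with h3 | h3
  · rw [AddMonoid.addOrderOf_eq_one_iff] at h3
    exact one_ne_zero h3
  · rw [h3] at h2
    exact h h2

theorem mem_of_comm_bl {π : SLL →* G} {E : Fin t × Fin 2 ≃ Fin n} (hC : Frame (iSL n F) π C (bl E)) {s : SLL}
    (hs : ∀ i, (s : MM) * bl E i = bl E i * (s : MM)) : π s ∈ C := hC.stab s fun i => ⟨i, hs i⟩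

theorem jS_mem {π : SLL →* G} {E : Fin t × Fin 2 ≃ Fin n} (hC : Frame (iSL n F) π C (bl E)) (i : Fin t)
    (s : Matrix.SpecialLinearGroup (Fin 2) F) : π (jS E i s) ∈ C := mem_of_comm_bl hC fun j => jS_comm E i j s

theorem bp_mem {π : SLL →* G} {E : Fin t × Fin 2 ≃ Fin n} (hC : Frame (iSL n F) π C (bl E)) (τ : Equiv.Perm (Fin t)) :
    π (bp E τ) ∈ C := hC.stab _ fun i => ⟨τ i, bp_mul_bl τ i⟩

theorem pow_scalar [Finite G] {π : SLL →* G} (hM : Model N (iSL n F) π) {y : SLL} (hy : π y ∈ OO r A) :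
    ∃ (k : ℕ) (c : F), ((y ^ r ^ k : SLL) : MM) = c • (1 : MM) := by
  obtain ⟨k, hk⟩ := OO_pow hy
  rw [← map_pow] at hk
  obtain ⟨c, hc⟩ := (ker_iff hM _).mp hk
  exact ⟨k, c, hc⟩

/-- the elements lying over `O_r(A)` fix the planes -/
theorem comm_bl_of_OO [Finite G] [Fintype F] {π : SLL →* G} (hM : Model N (iSL n F) π) {E : Fin t × Fin 2 ≃ Fin n}
    (hA : Frame (iSL n F) π A (bl E)) (hr : r.Prime) (hrF : ¬ r ∣ Fintype.card F) {y : SLL} (hy : π y ∈ OO r A) (i : Fin t) :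
    (y : MM) * bl E i = bl E i * (y : MM) := by
  obtain ⟨j, hj⟩ := perm_of_mem hA (OO_le r A hy) i
  have := bl_fix E (K := (OO r A).comap π) (cast_ne hr hrF) (fun i s y hy => by
    rw [Subgroup.mem_comap, map_mul, map_mul, map_inv]
    exact OO_norm hy (jS_mem hA i s)) (fun y hy => pow_scalar hM hy) hy hj
  rw [this] at hj
  exact hj

theorem eq_sum_bl {E : Fin t × Fin 2 ≃ Fin n} (y : MM) : y = ∑ j, y * bl E j := by
  rw [← Finset.mul_sum, sum_bl, mul_one]

theorem scalar_one_of [Fintype F] (hF : Fintype.card F = 2) {y : SLL} {c : F} (hn : 0 < n) (h : (y : MM) = c • (1 : MM)) : y = 1 := by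
  rcases two_elems hF c with hc | hc
  · exfalso
    have h1 := y.2
    haveI : Nonempty (Fin n) := ⟨⟨0, hn⟩⟩
    rw [h, hc, zero_smul, Matrix.det_zero] at h1
    exact zero_ne_one h1
  · apply Subtype.ext
    rw [h, hc, one_smul]
    rfl

theorem comm_scalar {Z : Matrix (Fin 2) (Fin 2) F} (h1 : Z * !![1, 1; 0, 1] = !![1, 1; 0, 1] * Z)
    (h2 : Z * !![1, 0; 1, 1] = !![1, 0; 1, 1] * Z) : Z = Z 0 0 • (1 : Matrix (Fin 2) (Fin 2) F) := by
  rw [Matrix.eta_fin_two Z, Matrix.mul_fin_two, Matrix.mul_fin_two] at h1 h2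
  have f1 := congrFun (congrFun h1 0) 0
  have f2 := congrFun (congrFun h1 0) 1
  have f3 := congrFun (congrFun h2 0) 0
  simp only [Matrix.of_apply, Matrix.cons_val', Matrix.cons_val_zero, Matrix.cons_val_one, Matrix.cons_val_fin_one] at f1 f2 f3
  have h10 : Z 1 0 = 0 := by linear_combination -f1
  have h01 : Z 0 1 = 0 := by linear_combination f3
  have h11 : Z 1 1 = Z 0 0 := by linear_combination -f2
  ext i j
  fin_cases i <;> fin_cases j <;> simp [h10, h01, h11]

/-- the two-element field: the idempotents of the frame are polynomials in elements of `K` -/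
theorem exists_u [Fintype F] (hF : Fintype.card F = 2) {E : Fin t × Fin 2 ≃ Fin n} {K : Subgroup SLL}
    (hcomm : ∀ y ∈ K, ∀ i, (y : MM) * bl E i = bl E i * (y : MM))
    (hJ : ∀ i (s : Matrix.SpecialLinearGroup (Fin 2) F), ∀ y ∈ K, jS E i s * y * (jS E i s)⁻¹ ∈ K)
    (hB : ∀ τ : Equiv.Perm (Fin t), ∀ y ∈ K, bp E τ * y * (bp E τ)⁻¹ ∈ K)
    (hodd : ∀ y ∈ K, ∃ m, Odd m ∧ (y : MM) ^ m = 1) {y : SLL} (hy : y ∈ K) (hy1 : y ≠ 1) (j : Fin t) :
    ∃ u ∈ K, (u : MM) + (u : MM) * (u : MM) = bl E j := by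
  have h20 := two_eq_zero hF
  have h2M : ∀ X : MM, X + X = 0 := fun X => by rw [← two_smul F X, h20, zero_smul]
  -- a plane on which `y` is not trivial
  obtain ⟨j₀, hj₀⟩ : ∃ j₀, (y : MM) * bl E j₀ ≠ bl E j₀ := by
    by_contra hcon
    push Not at hcon
    apply hy1
    apply Subtype.ext
    rw [eq_sum_bl (E := E) (y : MM), Matrix.SpecialLinearGroup.coe_one, ← sum_bl E]
    exact Finset.sum_congr rfl fun j _ => hcon j
  -- not commuting with a transvection
  have hZ := Res.of_comm (hcomm y hy j₀)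
  obtain ⟨b, hb⟩ : ∃ b : Bool, cc y (jS E j₀ (t2 b 1)) ≠ 1 := by
    by_contra hcon
    push Not at hcon
    have hc : ∀ b : Bool, rs E j₀ (y : MM) * (t2 b (1 : F) : Matrix.SpecialLinearGroup (Fin 2) F) =
        (t2 b (1 : F) : Matrix.SpecialLinearGroup (Fin 2) F) * rs E j₀ (y : MM) := fun b => by
      have h1 := hcon b
      have h2 : y * jS E j₀ (t2 b 1) = jS E j₀ (t2 b 1) * y := by
        unfold cc at h1
        calc y * jS E j₀ (t2 b 1) = jS E j₀ (t2 b 1) * y * (y⁻¹ * (jS E j₀ (t2 b 1))⁻¹ * y * jS E j₀ (t2 b 1)) := by group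
          _ = _ := by rw [h1, mul_one]
      have h3 := hZ.mul (Res.jS (E := E) j₀ (t2 b (1 : F)))
      have h4 := (Res.jS (E := E) j₀ (t2 b (1 : F))).mul hZ
      rw [← Matrix.SpecialLinearGroup.coe_mul] at h3 h4
      rw [h2] at h3
      exact h3.eq h4
    have h5 := comm_scalar (hc true) (hc false)
    apply hj₀
    rcases two_elems hF (rs E j₀ (y : MM) 0 0) with h6 | h6
    · exfalso
      rw [h6, zero_smul] at h5
      rw [h5] at hZ
      have h7 := hZ.1
      rw [J_zero] at h7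
      apply bl_ne (F := F) E j₀
      calc (bl E j₀ : MM) = ((y⁻¹ : SLL) : MM) * ((y : MM) * bl E j₀) := by rw [← mul_assoc, coe_inv_mul_S, one_mul]
        _ = 0 := by rw [h7, mul_zero]
    · rw [h6, one_smul] at h5
      rw [hZ.1, h5, J_one]
  set a : SLL := jS E j₀ (t2 b 1) with ha
  set u : SLL := cc y a with hu
  have huK : u ∈ K := by
    have h1 := hJ j₀ (t2 b 1)⁻¹ y hy
    rw [map_inv, inv_inv, ← ha] at h1
    have h2 := K.mul_mem (K.inv_mem hy) h1
    rw [hu, cc]
    rwa [mul_assoc, mul_assoc, ← mul_assoc a⁻¹]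
  have hu' : ∀ j, j ≠ j₀ → (u : MM) * bl E j = bl E j := fun j hj => by
    have e1 : (a : MM) * bl E j = bl E j := jS_mul_bl' E hj _
    have e2 : ((a⁻¹ : SLL) : MM) * bl E j = bl E j := by
      rw [ha, ← map_inv]; exact jS_mul_bl' E hj _
    have e3 := inv_comm_of (hcomm y hy j)
    rw [hu, cc, Matrix.SpecialLinearGroup.coe_mul, Matrix.SpecialLinearGroup.coe_mul, Matrix.SpecialLinearGroup.coe_mul,
      mul_assoc, e1, mul_assoc, hcomm y hy j, mul_assoc, ← mul_assoc (((a⁻¹ : SLL) : MM)), e2, ← mul_assoc, e3, mul_assoc,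
      coe_inv_mul_S, mul_one]
  have hu0 : (u : MM) * bl E j₀ ≠ bl E j₀ := by
    intro h
    apply hb
    apply Subtype.ext
    change (u : MM) = ((1 : SLL) : MM)
    rw [eq_sum_bl (E := E) (u : MM), Matrix.SpecialLinearGroup.coe_one, ← sum_bl E]
    refine Finset.sum_congr rfl fun j _ => ?_
    by_cases hj : j = j₀
    · rw [hj, h]
    · exact hu' j hj
  have hu3 : (1 + (u : MM) + (u : MM) * (u : MM)) * bl E j₀ = 0 := by
    obtain ⟨m, hm1, hm2⟩ := hodd u huK
    rcases dich hF (hcomm u huK j₀) hm1 hm2 with h | h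
    · exact absurd h hu0
    · exact h
  -- `u + u² = bl j₀`
  have hw : (u : MM) + (u : MM) * (u : MM) = bl E j₀ := by
    rw [eq_sum_bl (E := E) ((u : MM) + (u : MM) * (u : MM)), Finset.sum_eq_single j₀]
    · rw [add_assoc, add_mul, one_mul] at hu3
      calc ((u : MM) + (u : MM) * (u : MM)) * bl E j₀ =
          (bl E j₀ + ((u : MM) + (u : MM) * (u : MM)) * bl E j₀) + bl E j₀ - (bl E j₀ + bl E j₀) := by abel
        _ = bl E j₀ := by rw [hu3, h2M, zero_add, sub_zero]
    · intro j _ hj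
      rw [add_mul, mul_assoc, hu' j hj, hu' j hj, h2M]
    · intro h; exact absurd (Finset.mem_univ _) h
  -- conjugate
  set τ : Equiv.Perm (Fin t) := Equiv.swap j₀ j with hτ
  refine ⟨bp E τ * u * (bp E τ)⁻¹, hB τ u huK, ?_⟩
  have h1 : ((bp E τ * u * (bp E τ)⁻¹ : SLL) : MM) + ((bp E τ * u * (bp E τ)⁻¹ : SLL) : MM) * ((bp E τ * u * (bp E τ)⁻¹ : SLL) : MM) =
      ((bp E τ : SLL) : MM) * ((u : MM) + (u : MM) * (u : MM)) * (((bp E τ)⁻¹ : SLL) : MM) := by
    rw [Matrix.SpecialLinearGroup.coe_mul, Matrix.SpecialLinearGroup.coe_mul, mul_add, add_mul]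
    congr 1
    calc _ = ((bp E τ : SLL) : MM) * (u : MM) * ((((bp E τ)⁻¹ : SLL) : MM) * ((bp E τ : SLL) : MM)) * (u : MM) *
          (((bp E τ)⁻¹ : SLL) : MM) := by simp only [mul_assoc]
      _ = _ := by rw [coe_inv_mul_S, mul_one]; simp only [mul_assoc]
  rw [h1, hw, bp_mul_bl, mul_assoc, coe_mul_inv_S, mul_one, hτ, Equiv.swap_apply_left]

/-- the comparison of the two frames, `q = 2` -/
theorem lie_two [Finite G] [Fintype F] {π : SLL →* G} (hS : Sit N A C A₁ C₁ A₂ C₂ r d) (hM : Model N (iSL n F) π) (P : GLL)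
    {E E' : Fin t × Fin 2 ≃ Fin n} (hC : Frame (iSL n F) π C (bl E)) (hA : Frame (iSL n F) π A (fun i => cM P (bl E' i)))
    (hF : Fintype.card F = 2) (hr : ¬ r ∣ Fintype.card F) (h2 : C₂ ⊓ N ≠ ⊥) (i : Fin t) :
    ∃ k, (bl E k : MM) * cM P (bl E' i) = cM P (bl E' i) := by
  have hA' := frame_cS P hA
  have hM' := model_cS P hM
  have hn : 0 < n := by have := hM.two; omega
  have h20 := two_eq_zero hF
  have h2M : ∀ X : MM, X + X = 0 := fun X => by rw [← two_smul F X, h20, zero_smul]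
  have hrodd : ∀ k, Odd (r ^ k) := fun k => by
    apply Odd.pow
    apply hS.locA.prime.odd_of_ne_two
    intro h
    apply hr
    rw [h, hF]
  have hodd : ∀ y : SLL, π y ∈ C₂ → ∃ m, Odd m ∧ (y : MM) ^ m = 1 := fun y hy => by
    obtain ⟨k, c, hk⟩ := pow_scalar hM (hS.C₂_OO hy)
    have := scalar_one_of hF hn hk
    refine ⟨r ^ k, hrodd k, ?_⟩
    rw [← Matrix.SpecialLinearGroup.coe_pow, this, Matrix.SpecialLinearGroup.coe_one]
  have hcC : ∀ y : SLL, π y ∈ C₂ → ∀ i, (y : MM) * bl E i = bl E i * (y : MM) := fun y hy i => by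
    obtain ⟨j, hj⟩ := perm_of_mem hC (C₂_le_C hS hy) i
    have := bl_fix E (K := C₂.comap π) (cast_ne hS.locA.prime hr) (fun i s y hy => by
      rw [Subgroup.mem_comap, map_mul, map_mul, map_inv]
      exact mem_of_le_normalizer hS.C₂_norm (jS_mem hC i s) hy) (fun y hy => pow_scalar hM (hS.C₂_OO hy)) hy hj
    rw [this] at hj
    exact hj
  have hcA : ∀ y : SLL, π y ∈ C₂ → ∀ i, ((cS P⁻¹ y : SLL) : MM) * bl E' i = bl E' i * ((cS P⁻¹ y : SLL) : MM) := fun y hy i => by
    apply comm_bl_of_OO hM' hA' hS.locA.prime hr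
    rw [MonoidHom.comp_apply, cS_cS_inv]
    exact hS.C₂_OO hy
  obtain ⟨y, hy, hy1⟩ : ∃ y : SLL, π y ∈ C₂ ∧ y ≠ 1 := by
    obtain ⟨g, hg, hg1⟩ : ∃ g : G, g ∈ C₂ ⊓ N ∧ g ≠ 1 := by
      obtain ⟨x, hx⟩ := (Subgroup.ne_bot_iff_exists_ne_one).mp h2
      exact ⟨x, x.2, fun h => hx (Subtype.ext h)⟩
    have hg2 : g ∈ π.range := by rw [hM.range]; exact hg.2
    obtain ⟨y, rfl⟩ := hg2
    exact ⟨y, hg.1, fun h => hg1 (by rw [h, map_one])⟩
  have hdi : ∀ k, (bl E k : MM) * cM P (bl E' i) = 0 ∨ (bl E k : MM) * cM P (bl E' i) = cM P (bl E' i) := by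
    intro k
    obtain ⟨u, huK, hu⟩ := exists_u (K := C₂.comap π) hF (E := E) hcC (fun i s y hy => by
        rw [Subgroup.mem_comap, map_mul, map_mul, map_inv]
        exact mem_of_le_normalizer hS.C₂_norm (jS_mem hC i s) hy) (fun τ y hy => by
        rw [Subgroup.mem_comap, map_mul, map_mul, map_inv]
        exact mem_of_le_normalizer hS.C₂_norm (bp_mem hC τ) hy) hodd hy hy1 k
    have hu' : cM P⁻¹ (bl E k) = ((cS P⁻¹ u : SLL) : MM) + ((cS P⁻¹ u : SLL) : MM) * ((cS P⁻¹ u : SLL) : MM) := by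
      rw [← hu, map_add, cM_mul]
      rfl
    obtain ⟨m, hm1, hm2⟩ := hodd u huK
    have hm2' : ((cS P⁻¹ u : SLL) : MM) ^ m = 1 := by
      have h3 : u ^ m = 1 := by
        apply Subtype.ext
        rw [Matrix.SpecialLinearGroup.coe_pow]
        exact hm2
      rw [← Matrix.SpecialLinearGroup.coe_pow, ← map_pow, h3, map_one, Matrix.SpecialLinearGroup.coe_one]
    rcases dich hF (hcA u huK i) hm1 hm2' with h | h
    · left
      apply (cM P⁻¹).injective
      rw [cM_mul, cM_inv_cM, hu', map_zero, add_mul, mul_assoc, h, h, h2M]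
    · right
      apply (cM P⁻¹).injective
      rw [cM_mul, cM_inv_cM, hu']
      rw [add_assoc, add_mul, one_mul] at h
      calc (((cS P⁻¹ u : SLL) : MM) + ((cS P⁻¹ u : SLL) : MM) * ((cS P⁻¹ u : SLL) : MM)) * bl E' i =
          (bl E' i + (((cS P⁻¹ u : SLL) : MM) + ((cS P⁻¹ u : SLL) : MM) * ((cS P⁻¹ u : SLL) : MM)) * bl E' i) + bl E' i -
            (bl E' i + bl E' i) := by abel
        _ = bl E' i := by rw [h, h2M, zero_add, sub_zero]
  by_contra hcon
  push Not at hcon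
  apply hA.ne i
  calc cM P (bl E' i) = (∑ k, bl E k) * cM P (bl E' i) := by rw [sum_bl, one_mul]
    _ = ∑ k, bl E k * cM P (bl E' i) := Finset.sum_mul _ _ _
    _ = 0 := Finset.sum_eq_zero fun k _ => (hdi k).resolve_right (hcon k)

/-- a central subgroup -/
theorem exists_center [Finite G] (hS : Sit N A C A₁ C₁ A₂ C₂ r d) (h2 : C₂ ⊓ N ≠ ⊥) :
    ∃ Z : Subgroup G, Z ≤ C₂ ∧ Z ≤ N ∧ Z ≠ ⊥ ∧ C ≤ normalizer (Z : Set G) ∧ ∀ z ∈ Z, ∀ y ∈ C₂ ⊓ N, z * y = y * z := by
  set Q : Subgroup G := C₂ ⊓ N with hQ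
  haveI : Fact r.Prime := ⟨hS.locA.prime⟩
  have hp : IsPGroup r ↥Q := fun x => by
    obtain ⟨k, hk⟩ := OO_pow (hS.C₂_OO x.2.1)
    exact ⟨k, Subtype.ext hk⟩
  haveI : Nontrivial ↥Q := by
    rw [Subgroup.nontrivial_iff_ne_bot]
    exact h2
  haveI := hp.center_nontrivial
  refine ⟨(Subgroup.center ↥Q).map Q.subtype, ?_, ?_, ?_, ?_, ?_⟩
  · rintro _ ⟨x, _, rfl⟩; exact x.2.1
  · rintro _ ⟨x, _, rfl⟩; exact x.2.2
  · intro h
    have h1 : Subgroup.center ↥Q = ⊥ := by
      rw [Subgroup.map_eq_bot_iff, Subgroup.ker_subtype] at h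
      exact le_bot_iff.mp h
    exact (Subgroup.nontrivial_iff_ne_bot _).mp inferInstance h1
  · refine le_normalizer_of ?_
    rintro c hc _ ⟨z, hz, rfl⟩
    have hcQ : ∀ y ∈ Q, c * y * c⁻¹ ∈ Q := fun y hy =>
      ⟨mem_of_le_normalizer hS.C₂_norm hc hy.1, hS.locA.normal.conj_mem y hy.2 c⟩
    have hcQ' : ∀ y ∈ Q, c⁻¹ * y * c ∈ Q := fun y hy => by
      have h1 := mem_of_le_normalizer hS.C₂_norm (C.inv_mem hc) hy.1
      have h2 := hS.locA.normal.conj_mem y hy.2 c⁻¹
      rw [inv_inv] at h1 h2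
      exact ⟨h1, h2⟩
    refine ⟨⟨c * z * c⁻¹, hcQ z z.2⟩, ?_, rfl⟩
    rw [SetLike.mem_coe, Subgroup.mem_center_iff] at hz ⊢
    intro y
    apply Subtype.ext
    have h3 := congrArg Subtype.val (hz ⟨c⁻¹ * y * c, hcQ' y y.2⟩)
    simp only [Subgroup.coe_mul] at h3 ⊢
    calc (y : G) * (c * z * c⁻¹) = c * ((c⁻¹ * y * c) * z) * c⁻¹ := by group
      _ = c * (z * (c⁻¹ * y * c)) * c⁻¹ := by rw [h3]
      _ = c * z * c⁻¹ * y := by group
  · rintro _ ⟨z, hz, rfl⟩ y hy
    have h3 := congrArg Subtype.val ((Subgroup.mem_center_iff.mp hz) ⟨y, hy⟩)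
    exact h3.symm

/-- two elements with the same product on a plane -/
theorem cc_eq_one {π : SLL →* G} (hM : Model N (iSL n F) π) {E : Fin t × Fin 2 ≃ Fin n} {y z : SLL} {j : Fin t}
    (h1 : ((y * z : SLL) : MM) * bl E j = ((z * y : SLL) : MM) * bl E j) (h2 : π y * π z = π z * π y) : y * z = z * y := by
  have h3 : π ((y * z) * (z * y)⁻¹) = 1 := by
    rw [map_mul, map_inv, map_mul, map_mul, h2, mul_inv_cancel]
  obtain ⟨c, hc⟩ := (ker_iff hM _).mp h3
  have h4 : ((y * z : SLL) : MM) = c • ((z * y : SLL) : MM) := by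
    have : y * z = (y * z) * (z * y)⁻¹ * (z * y) := by group
    rw [this, Matrix.SpecialLinearGroup.coe_mul _ (z * y), hc, Matrix.smul_mul, one_mul]
  rw [h4, Matrix.smul_mul] at h1
  have h5 : ((z * y : SLL) : MM) * bl E j ≠ 0 := by
    intro h
    apply bl_ne (F := F) E j
    calc (bl E j : MM) = (((z * y)⁻¹ : SLL) : MM) * (((z * y : SLL) : MM) * bl E j) := by
          rw [← mul_assoc, coe_inv_mul_S, one_mul]
      _ = 0 := by rw [h, mul_zero]
  have h6 : (c - 1) • (((z * y : SLL) : MM) * bl E j) = 0 := by rw [sub_smul, h1, one_smul, sub_self]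
  rcases smul_eq_zero.mp h6 with h7 | h7
  · apply Subtype.ext
    rw [sub_eq_zero] at h7
    change ((y * z : SLL) : MM) = ((z * y : SLL) : MM)
    rw [h4, h7, one_smul]
  · exact absurd h7 h5

theorem conj_bl' {E : Fin t × Fin 2 ≃ Fin n} {y : SLL} {i j : Fin t} (hj : j ≠ i) (hy : (y : MM) * bl E j = bl E j * (y : MM))
    (s : Matrix.SpecialLinearGroup (Fin 2) F) :
    (((jS E i s)⁻¹ * y * jS E i s : SLL) : MM) * bl E j = (y : MM) * bl E j := by
  have e1 : ((jS E i s : SLL) : MM) * bl E j = bl E j := jS_mul_bl' E hj _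
  have e2 : (((jS E i s)⁻¹ : SLL) : MM) * bl E j = bl E j := by
    rw [← map_inv]; exact jS_mul_bl' E hj _
  rw [Matrix.SpecialLinearGroup.coe_mul, Matrix.SpecialLinearGroup.coe_mul, mul_assoc, e1, mul_assoc, hy, ← mul_assoc, e2]

theorem prod_conj_bl' {E : Fin t × Fin 2 ≃ Fin n} {y : SLL} {i j : Fin t} (hj : j ≠ i) (hy : (y : MM) * bl E j = bl E j * (y : MM))
    (s : Matrix.SpecialLinearGroup (Fin 2) F) :
    ((y * ((jS E i s)⁻¹ * y * jS E i s) : SLL) : MM) * bl E j = (((jS E i s)⁻¹ * y * jS E i s * y : SLL) : MM) * bl E j := by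
  have hX := conj_bl' (E := E) hj hy s
  rw [Matrix.SpecialLinearGroup.coe_mul y, Matrix.SpecialLinearGroup.coe_mul _ y]
  set X : MM := (((jS E i s)⁻¹ * y * jS E i s : SLL) : MM)
  calc (y : MM) * X * bl E j = (y : MM) * (X * bl E j) := mul_assoc _ _ _
    _ = (y : MM) * (bl E j * (y : MM)) := by rw [hX, hy]
    _ = (y : MM) * bl E j * (y : MM) := (mul_assoc _ _ _).symm
    _ = X * bl E j * (y : MM) := by rw [hX]
    _ = X * (bl E j * (y : MM)) := mul_assoc _ _ _
    _ = X * ((y : MM) * bl E j) := by rw [hy]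
    _ = X * (y : MM) * bl E j := (mul_assoc _ _ _).symm

/-- the comparison of the two frames, `q` odd -/
theorem lie_three [Finite G] [Fintype F] {π : SLL →* G} (hS : Sit N A C A₁ C₁ A₂ C₂ r d) (hM : Model N (iSL n F) π) (P : GLL)
    {E E' : Fin t × Fin 2 ≃ Fin n} (hC : Frame (iSL n F) π C (bl E)) (hA : Frame (iSL n F) π A (fun i => cM P (bl E' i)))
    (hF : (2 : F) ≠ 0) (hr : ¬ r ∣ Fintype.card F) (h2 : C₂ ⊓ N ≠ ⊥) (i : Fin t) :
    ∃ k, (bl E k : MM) * cM P (bl E' i) = cM P (bl E' i) := by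
  classical
  have hA' := frame_cS P hA
  have hM' := model_cS P hM
  have ht := hC.two
  have hcC : ∀ y : SLL, π y ∈ C₂ → ∀ i, (y : MM) * bl E i = bl E i * (y : MM) := fun y hy i => by
    obtain ⟨j, hj⟩ := perm_of_mem hC (C₂_le_C hS hy) i
    have := bl_fix E (K := C₂.comap π) (cast_ne hS.locA.prime hr) (fun i s y hy => by
      rw [Subgroup.mem_comap, map_mul, map_mul, map_inv]
      exact mem_of_le_normalizer hS.C₂_norm (jS_mem hC i s) hy) (fun y hy => pow_scalar hM (hS.C₂_OO hy)) hy hj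
    rw [this] at hj
    exact hj
  have hcA : ∀ y : SLL, π y ∈ C₂ → ∀ i, ((cS P⁻¹ y : SLL) : MM) * bl E' i = bl E' i * ((cS P⁻¹ y : SLL) : MM) := fun y hy i => by
    apply comm_bl_of_OO hM' hA' hS.locA.prime hr
    rw [MonoidHom.comp_apply, cS_cS_inv]
    exact hS.C₂_OO hy
  obtain ⟨Z, hZ2, hZN, hZ1, hZC, hZc⟩ := exists_center hS h2
  have hother : ∀ i : Fin t, ∃ j, j ≠ i := fun i => by
    haveI : Nontrivial (Fin t) := Fin.nontrivial_iff_two_le.mpr ht
    exact exists_ne i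
  have hrange : ∀ s : SLL, π s ∈ N := fun s => by rw [← hM.range]; exact ⟨s, rfl⟩
  -- (d) elements over `Z` are scalar on the planes of `C`
  have hd : ∀ y : SLL, π y ∈ Z → ∀ i, ∃ c : F, (y : MM) * bl E i = c • bl E i := fun y hy i => by
    refine scalar_of hF (hcC y (hZ2 hy) i) fun b c _ => ?_
    obtain ⟨j, hj⟩ := hother i
    refine cc_eq_one hM (prod_conj_bl' hj (hcC y (hZ2 hy) j) (t2 b c)) ?_
    apply hZc _ hy
    refine ⟨?_, hrange _⟩
    rw [map_mul, map_mul, map_inv]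
    have := mem_of_le_normalizer hS.C₂_norm (C.inv_mem (jS_mem hC i (t2 b c))) (hZ2 hy)
    rwa [inv_inv] at this
  -- (e) they are scalar on the planes of `A`
  have he : ∀ y : SLL, π y ∈ Z → ∀ i, ∃ c : F, (y : MM) * cM P (bl E' i) = c • cM P (bl E' i) := fun y hy i => by
    have hyA := hcA y (hZ2 hy)
    set yA : SLL := cS P⁻¹ y with hyAdef
    by_cases hall : ∀ (b : Bool) (c : F), c = 1 ∨ c = -1 → yA * ((jS E' i (t2 b c))⁻¹ * yA * jS E' i (t2 b c)) =
      (jS E' i (t2 b c))⁻¹ * yA * jS E' i (t2 b c) * yA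
    · obtain ⟨c, hc⟩ := scalar_of hF (hyA i) hall
      refine ⟨c, ?_⟩
      have h3 := congrArg (cM P) hc
      rw [cM_mul, cM_smul, hyAdef, cS_coe, cM_cM_inv] at h3
      exact h3
    · push Not at hall
      obtain ⟨b, c, _, hne⟩ := hall
      set aA : SLL := jS E' i (t2 b c) with haA
      set a : SLL := cS P aA with ha
      have haA' : cS P⁻¹ a = aA := cS_inv_cS P aA
      have haMem : π a ∈ A := jS_mem hA' i (t2 b c)
      set w : SLL := cc y (a⁻¹ * y * a) with hw
      have hwZ : π w ∈ Z := by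
        have h4 := tw2N hS (K := Z) (y := π y) (a := π a) hZ2 (inf_le_left.trans hZC) hy (hrange y) haMem
        rw [hw, map_cc, map_mul, map_mul, map_inv]
        exact h4
      set wA : SLL := cS P⁻¹ w with hwA
      have hwA' : wA = (aA⁻¹ * yA * aA * yA)⁻¹ * (yA * (aA⁻¹ * yA * aA)) := by
        rw [hwA, hw, cc, map_mul, map_mul, map_mul, map_inv, map_inv, map_mul, map_mul, map_inv, haA', ← hyAdef]
        group
      have hw1 : wA ≠ 1 := by
        intro h
        apply hne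
        rw [hwA'] at h
        exact (inv_mul_eq_one.mp h).symm
      have hw1' : w ≠ 1 := fun h => hw1 (by rw [hwA, h, map_one])
      have hwbl : ∀ j, j ≠ i → (wA : MM) * bl E' j = bl E' j := fun j hj => by
        have h5 := prod_conj_bl' hj (hyA j) (t2 b c)
        rw [← haA] at h5
        rw [hwA', Matrix.SpecialLinearGroup.coe_mul, mul_assoc, h5, ← mul_assoc, coe_inv_mul_S, one_mul]
      have hwblc : ∀ j, (wA : MM) * bl E' j = bl E' j * (wA : MM) := hcA w (hZ2 hwZ)
      -- in the coordinates of `C`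
      have hwe : ∀ j, j ≠ i → (w : MM) * cM P (bl E' j) = cM P (bl E' j) := fun j hj => by
        have := congrArg (cM P) (hwbl j hj)
        rw [cM_mul, hwA, cS_coe, cM_cM_inv] at this
        exact this
      have hwe' : ∀ j, j ≠ i → cM P (bl E' j) * (w : MM) = cM P (bl E' j) := fun j hj => by
        have h6 := congrArg (cM P) (hwblc j)
        rw [cM_mul, cM_mul, hwA, cS_coe, cM_cM_inv] at h6
        rw [← h6, hwe j hj]
      have hsum : ∑ j, cM P (bl E' j) = (1 : MM) := hA.sum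
      set e : MM := cM P (bl E' i) with heDef
      have hD1 : ((w : MM) - 1) * e = (w : MM) - 1 := by
        have h7 : ((w : MM) - 1) * ∑ j, cM P (bl E' j) = ((w : MM) - 1) * e := by
          rw [Finset.mul_sum, Finset.sum_eq_single i]
          · intro j _ hj
            rw [sub_mul, hwe j hj, one_mul, sub_self]
          · intro h; exact absurd (Finset.mem_univ _) h
        rw [← h7, hsum, mul_one]
      have hD2 : e * ((w : MM) - 1) = (w : MM) - 1 := by
        have h7 : (∑ j, cM P (bl E' j)) * ((w : MM) - 1) = e * ((w : MM) - 1) := by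
          rw [Finset.sum_mul, Finset.sum_eq_single i]
          · intro j _ hj
            rw [mul_sub, hwe' j hj, mul_one, sub_self]
          · intro h; exact absurd (Finset.mem_univ _) h
        rw [← h7, hsum, one_mul]
      choose cw hcw using hd w hwZ
      obtain ⟨k, hk⟩ : ∃ k, cw k ≠ 1 := by
        by_contra hcon
        push Not at hcon
        apply hw1'
        apply Subtype.ext
        change (w : MM) = ((1 : SLL) : MM)
        rw [eq_sum_bl (E := E) (w : MM), Matrix.SpecialLinearGroup.coe_one, ← sum_bl E]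
        exact Finset.sum_congr rfl fun j _ => by rw [hcw j, hcon j, one_smul]
      have hk' : cw k - 1 ≠ 0 := sub_ne_zero.mpr hk
      have h8 : ((w : MM) - 1) * bl E k = (cw k - 1) • bl E k := by
        rw [sub_mul, hcw k, one_mul, sub_smul, one_smul]
      have h9 : bl E k * ((w : MM) - 1) = (cw k - 1) • bl E k := by
        rw [mul_sub, ← hcC w (hZ2 hwZ) k, hcw k, mul_one, sub_smul, one_smul]
      have h10 : e * bl E k = bl E k := by
        have h11 : (cw k - 1) • (e * bl E k) = (cw k - 1) • bl E k := by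
          rw [← Matrix.mul_smul, ← h8, ← mul_assoc, hD2]
        calc e * bl E k = (cw k - 1)⁻¹ • ((cw k - 1) • (e * bl E k)) := by rw [smul_smul, inv_mul_cancel₀ hk', one_smul]
          _ = bl E k := by rw [h11, smul_smul, inv_mul_cancel₀ hk', one_smul]
      have h12 : bl E k * e = bl E k := by
        have h11 : (cw k - 1) • (bl E k * e) = (cw k - 1) • bl E k := by
          rw [← Matrix.smul_mul, ← h9, mul_assoc, hD1]
        calc bl E k * e = (cw k - 1)⁻¹ • ((cw k - 1) • (bl E k * e)) := by rw [smul_smul, inv_mul_cancel₀ hk', one_smul]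
          _ = bl E k := by rw [h11, smul_smul, inv_mul_cancel₀ hk', one_smul]
      have h13 : e = bl E k := eq_of_rank h10 h12 (bl_idem E k) (by rw [heDef, rank_cM, rank_bl, rank_bl])
      obtain ⟨c', hc'⟩ := hd y hy k
      exact ⟨c', by rw [h13, hc']⟩
  -- a nonscalar element
  obtain ⟨y, hyZ, hy1⟩ : ∃ y : SLL, π y ∈ Z ∧ π y ≠ 1 := by
    obtain ⟨x, hx⟩ := (Subgroup.ne_bot_iff_exists_ne_one).mp hZ1
    have hg2 : (x : G) ∈ π.range := by rw [hM.range]; exact hZN x.2
    obtain ⟨y, hy⟩ := hg2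
    exact ⟨y, by rw [hy]; exact x.2, fun h => hx (Subtype.ext (by rw [← hy, h]; rfl))⟩
  choose c hc using hd y hyZ
  obtain ⟨i₀, j₀, hij⟩ : ∃ i₀ j₀, c i₀ ≠ c j₀ := by
    by_contra hcon
    push Not at hcon
    apply hy1
    rw [ker_iff hM]
    refine ⟨c i, ?_⟩
    rw [eq_sum_bl (E := E) (y : MM), ← sum_bl E, Finset.smul_sum]
    exact Finset.sum_congr rfl fun j _ => by rw [hc j, hcon j i]
  -- some `bl k` meets the plane
  obtain ⟨k, hk⟩ : ∃ k, (bl E k : MM) * cM P (bl E' i) ≠ 0 := by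
    by_contra hcon
    push Not at hcon
    apply hA.ne i
    calc cM P (bl E' i) = (∑ k, bl E k) * cM P (bl E' i) := by rw [sum_bl, one_mul]
      _ = ∑ k, bl E k * cM P (bl E' i) := Finset.sum_mul _ _ _
      _ = 0 := Finset.sum_eq_zero fun k _ => hcon k
  refine ⟨k, ?_⟩
  have hzero : ∀ l, l ≠ k → (bl E l : MM) * cM P (bl E' i) = 0 := by
    intro l hl
    by_contra hne
    obtain ⟨y', hy', c', hc', hkl⟩ := sep (K := Z.comap π) (fun τ y hy => by
      rw [Subgroup.mem_comap, map_mul, map_mul, map_inv]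
      exact mem_of_le_normalizer hZC (bp_mem hC τ) hy) hyZ hc hij hl.symm
    obtain ⟨c₀, hc₀⟩ := he y' hy' i
    have key : ∀ m, (bl E m : MM) * cM P (bl E' i) ≠ 0 → c' m = c₀ := fun m hm => by
      have h14 : bl E m * ((y' : MM) * cM P (bl E' i)) = c₀ • (bl E m * cM P (bl E' i)) := by
        rw [hc₀, Matrix.mul_smul]
      have h15 : bl E m * ((y' : MM) * cM P (bl E' i)) = c' m • (bl E m * cM P (bl E' i)) := by
        rw [← mul_assoc, ← hcC y' (hZ2 hy') m, hc' m, Matrix.smul_mul]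
      have h16 : (c' m - c₀) • (bl E m * cM P (bl E' i)) = 0 := by rw [sub_smul, ← h14, ← h15, sub_self]
      rcases smul_eq_zero.mp h16 with h17 | h17
      · exact sub_eq_zero.mp h17
      · exact absurd h17 hm
    exact hkl ((key k hk).trans (key l hne).symm)
  calc bl E k * cM P (bl E' i) = ∑ m, bl E m * cM P (bl E' i) := by
        rw [Finset.sum_eq_single k (fun m _ hm => hzero m hm) (fun h => absurd (Finset.mem_univ _) h)]
    _ = (∑ m, bl E m) * cM P (bl E' i) := (Finset.sum_mul _ _ _).symm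
    _ = cM P (bl E' i) := by rw [sum_bl, one_mul]

/-- Frames of planes, `C₂ ∩ N ≠ 1`. -/
theorem two_main [Finite G] [Fintype F] {π : SLL →* G} (hS : Sit N A C A₁ C₁ A₂ C₂ r d) (hM : Model N (iSL n F) π) (P : GLL)
    {E E' : Fin t × Fin 2 ≃ Fin n} (hC : Frame (iSL n F) π C (bl E)) (hA : Frame (iSL n F) π A (fun i => cM P (bl E' i)))
    (hq : Fintype.card F ≤ 3) (hr : ¬ r ∣ Fintype.card F) (h2 : C₂ ⊓ N ≠ ⊥) : False := by
  have hlie : ∀ i, ∃ k, (bl E k : MM) * cM P (bl E' i) = cM P (bl E' i) := fun i => by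
    by_cases hF : (2 : F) = 0
    · refine lie_two hS hM P hC hA ?_ hr h2 i
      have h1 := Fintype.one_lt_card (α := F)
      by_contra hne
      have h3 : Fintype.card F = 3 := by omega
      have h4 := Nat.cast_card_eq_zero F
      rw [h3] at h4
      have h5 : (1 : F) = 0 := by
        push_cast at h4
        linear_combination h4 - hF
      exact one_ne_zero h5
    · exact lie_three hS hM P hC hA hF hr h2 i
  obtain ⟨f, hf⟩ := frames_eq hA.sum (bl_ne E) (fun i j hij => bl_mul_bl E i j hij) hlie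
  refine absurd_of_inf_eq hS (inf_eq_of_frames hM hA hC f hf) ?_
  intro h0
  apply h2
  rw [eq_bot_iff]
  intro g hg
  rw [← h0]
  exact ⟨C₂_le_A hS hg.1, hg.2⟩

end Cfsg.Agent.H599.TW
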