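import Cfsg.Agent.H599.TW.NoCent

/-!
# S3694: two frames (helper599)
-/

set_option autoImplicit false
set_option linter.unusedSectionVars false
set_option linter.style.haveILetI false

namespace Cfsg.Agent.H599.TW

open Subgroup Cfsg.Agent.H607.TW

universe u

variable {F : Type} [Field F] {n : ℕ}

local notation "MM" => Matrix (Fin n) (Fin n) F
local notation "GLL" => Matrix.GeneralLinearGroup (Fin n) F
local notation "SLL" => Matrix.SpecialLinearGroup (Fin n) F

variable {G : Type u} [Group G] {N A C A₁ C₁ A₂ C₂ : Subgroup G} {r d : ℕ}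

theorem blk_apply {t : ℕ} (b : Fin n → Fin t) (i : Fin t) (a c : Fin n) :
    (blk b i : MM) a c = if a = c then (if b a = i then 1 else 0) else 0 := by
  rw [blk, Matrix.diagonal_apply]

/-- If every `e_i` lies under some `e'_j`, the two systems coincide. -/
theorem frames_eq {t : ℕ} {e e' : Fin t → MM} (he : ∑ i, e i = 1) (hne' : ∀ i, e' i ≠ 0)
    (hor' : ∀ i j, i ≠ j → e' i * e' j = 0) (h : ∀ i, ∃ j, e' j * e i = e i) : ∃ f : Fin t ≃ Fin t, ∀ i, e i = e' (f i) := by
  classical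
  choose f hf using h
  have h0 : ∀ i k, k ≠ f i → e' k * e i = 0 := fun i k hk => by
    rw [← hf i, ← mul_assoc, hor' k (f i) hk, zero_mul]
  have h1 : ∀ k, e' k = ∑ i ∈ Finset.univ.filter (fun i => f i = k), e i := fun k => by
    calc e' k = e' k * ∑ i, e i := by rw [he, mul_one]
      _ = ∑ i, e' k * e i := Finset.mul_sum _ _ _
      _ = ∑ i, if f i = k then e i else 0 := by
          apply Finset.sum_congr rfl
          intro i _
          split_ifs with hik
          · rw [← hik, hf]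
          · exact h0 i k (fun hh => hik hh.symm)
      _ = _ := by rw [Finset.sum_filter]
  have hsurj : Function.Surjective f := by
    intro k
    by_contra hcon
    push Not at hcon
    apply hne' k
    rw [h1 k]
    apply Finset.sum_eq_zero
    intro i hi
    rw [Finset.mem_filter] at hi
    exact absurd hi.2 (hcon i)
  have hbij : Function.Bijective f := Finite.surjective_iff_bijective.mp hsurj
  refine ⟨Equiv.ofBijective f hbij, fun i => ?_⟩
  change e i = e' (f i)
  rw [h1 (f i), Finset.sum_eq_single i]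
  · intro j hj hji
    rw [Finset.mem_filter] at hj
    exact absurd (hbij.1 hj.2) hji
  · intro hi
    exact absurd (by simp : i ∈ Finset.univ.filter (fun j => f j = f i)) hi

theorem inf_eq_of_frames {π : SLL →* G} (hM : Model N (iSL n F) π) {t : ℕ} {e e' : Fin t → MM}
    (hA : Frame (iSL n F) π A e) (hC : Frame (iSL n F) π C e') (f : Fin t ≃ Fin t) (h : ∀ i, e i = e' (f i)) :
    A ⊓ N = C ⊓ N := by
  have key : ∀ s : SLL, π s ∈ A ↔ π s ∈ C := fun s => by
    rw [mem_iff hA, mem_iff hC]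
    constructor
    · intro h1 j
      obtain ⟨k, hk⟩ := h1 (f.symm j)
      rw [h, h, Equiv.apply_symm_apply] at hk
      exact ⟨_, hk⟩
    · intro h1 i
      obtain ⟨k, hk⟩ := h1 (f i)
      refine ⟨f.symm k, ?_⟩
      rw [h, h, Equiv.apply_symm_apply]
      exact hk
  ext g
  rw [Subgroup.mem_inf, Subgroup.mem_inf]
  constructor
  · rintro ⟨h1, h2⟩
    rw [← hM.range] at h2
    obtain ⟨s, rfl⟩ := h2
    exact ⟨(key s).mp h1, by rw [← hM.range]; exact ⟨s, rfl⟩⟩
  · rintro ⟨h1, h2⟩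
    rw [← hM.range] at h2
    obtain ⟨s, rfl⟩ := h2
    exact ⟨(key s).mpr h1, by rw [← hM.range]; exact ⟨s, rfl⟩⟩

/-- The diagonal subgroup. -/
def Dg (n : ℕ) (F : Type) [Field F] : Subgroup (Matrix.SpecialLinearGroup (Fin n) F) where
  carrier := {s | ∃ d : Fin n → F, (∀ k, d k ≠ 0) ∧ (s : Matrix (Fin n) (Fin n) F) = mon 1 d}
  mul_mem' := by
    rintro s t ⟨d, hd, h⟩ ⟨f, hf, h'⟩
    exact ⟨_, fun k => mul_ne_zero (hd _) (hf _), by rw [Matrix.SpecialLinearGroup.coe_mul, h, h', mon_mul, mul_one]⟩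
  one_mem' := ⟨fun _ => 1, fun _ => one_ne_zero, by rw [Matrix.SpecialLinearGroup.coe_one, ← smul_one_eq, one_smul]⟩
  inv_mem' := by
    rintro s ⟨d, hd, h⟩
    exact ⟨_, fun k => inv_ne_zero (hd _), by rw [mon_inv h hd, inv_one]⟩

theorem Dg_comm {s t : SLL} (hs : s ∈ Dg n F) (ht : t ∈ Dg n F) : s * t = t * s := by
  obtain ⟨d, _, h⟩ := hs
  obtain ⟨f, _, h'⟩ := ht
  apply Subtype.ext
  rw [Matrix.SpecialLinearGroup.coe_mul, Matrix.SpecialLinearGroup.coe_mul, h, h', mon_mul, mon_mul]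
  congr 1
  funext k
  exact mul_comm _ _

theorem Dg_norm {s t : SLL} (hs : IsMon (s : MM)) (ht : t ∈ Dg n F) : s * t * s⁻¹ ∈ Dg n F := by
  obtain ⟨d, hd, h⟩ := ht
  obtain ⟨σ, f, h', hf⟩ := mon_data hs
  refine ⟨_, fun k => ?_, by
    rw [Matrix.SpecialLinearGroup.coe_mul, Matrix.SpecialLinearGroup.coe_mul, mon_inv h' hf, h, h', mon_mul, mon_mul, mul_one,
      mul_inv_cancel]⟩
  exact mul_ne_zero (mul_ne_zero (hf _) (hd _)) (inv_ne_zero (hf _))

theorem scalar_mem_Dg {s : SLL} {c : F} (hs : (s : MM) = c • (1 : MM)) : s ∈ Dg n F := by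
  refine ⟨fun _ => c, fun k => ?_, by rw [hs, smul_one_eq]⟩
  intro hc
  have hc' : c = 0 := hc
  have h := s.2
  haveI : Nonempty (Fin n) := ⟨k⟩
  rw [hs, hc', zero_smul, Matrix.det_zero] at h
  exact zero_ne_one h

theorem cc_conj {H : Type*} [Group H] (y t : H) : cc y (t⁻¹ * y * t) = cc y (cc y t) := by
  unfold cc
  group

theorem map_cc {H K : Type*} [Group H] [Group K] (f : H →* K) (y t : H) : f (cc y t) = cc (f y) (f t) := by
  simp [cc]

theorem exists_gen [Fintype F] : ∃ x : F, x ≠ 0 ∧ ∀ m : ℕ, 0 < m → x ^ m = 1 → Fintype.card F - 1 ≤ m := by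
  classical
  obtain ⟨g, hg⟩ := IsCyclic.exists_generator (α := Fˣ)
  refine ⟨g, g.ne_zero, fun m hm h => ?_⟩
  have ho : orderOf g = Fintype.card F - 1 := by
    rw [orderOf_eq_card_of_forall_mem_zpowers hg, Nat.card_eq_fintype_card, Fintype.card_units]
  rw [← ho]
  apply Nat.le_of_dvd hm
  apply orderOf_dvd_of_pow_eq_one
  apply Units.ext
  rw [Units.val_pow_eq_pow_val, h, Units.val_one]

/-- Frames of points, `C₂ ∩ N ≠ 1`. -/
theorem one_main [Finite G] [Fintype F] {π : SLL →* G} (hS : Sit N A C A₁ C₁ A₂ C₂ r d) (hM : Model N (iSL n F) π) (P : GLL)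
    (hC : Frame (iSL n F) π C (blk (id : Fin n → Fin n)))
    (hA : Frame (iSL n F) π A (fun k => cM P (blk (id : Fin n → Fin n) k))) (hn : 3 ≤ n)
    (hbig : 5 ≤ n ∨ 18 ≤ Fintype.card F) (h2 : C₂ ⊓ N ≠ ⊥) : False := by
  classical
  have hA' := frame_cS P hA
  have hM' := model_cS P hM
  -- `K₁`
  set K₁ : Subgroup SLL := C₂.comap π with hK₁
  have hnorm₁ : ∀ s : SLL, IsMon (s : MM) → ∀ y ∈ K₁, s * y * s⁻¹ ∈ K₁ := fun s hs y hy => by
    rw [hK₁, Subgroup.mem_comap, map_mul, map_mul, map_inv]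
    exact mem_of_le_normalizer hS.C₂_norm (hC.stab s hs) hy
  have hmon₁ : ∀ y ∈ K₁, IsMon (y : MM) := fun y hy k => perm_of_mem hC (C₂_le_C hS hy) k
  have hpow : ∀ y : SLL, π y ∈ OO r A → ∃ (k : ℕ) (c : F), ((y ^ r ^ k : SLL) : MM) = c • (1 : MM) := fun y hy => by
    obtain ⟨k, hk⟩ := OO_pow hy
    rw [← map_pow] at hk
    obtain ⟨c, hc⟩ := (ker_iff hM _).mp hk
    exact ⟨k, c, hc⟩
  have hns : ∃ y ∈ K₁, ¬ ∃ c : F, (y : MM) = c • (1 : MM) := by
    obtain ⟨g, hg, hg1⟩ : ∃ g : G, g ∈ C₂ ⊓ N ∧ g ≠ 1 := by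
      obtain ⟨x, hx⟩ := (Subgroup.ne_bot_iff_exists_ne_one).mp h2
      exact ⟨x, x.2, fun h => hx (Subtype.ext h)⟩
    have hg2 : g ∈ π.range := by rw [hM.range]; exact hg.2
    obtain ⟨y, rfl⟩ := hg2
    exact ⟨y, hg.1, fun h => hg1 ((ker_iff hM y).mpr h)⟩
  have hdiag : ∃ z ∈ K₁, ∃ d : Fin n → F, (z : MM) = Matrix.diagonal d ∧ ∃ i j, d i ≠ d j := by
    obtain ⟨y, hy, hys⟩ := hns
    by_cases h5 : 5 ≤ n
    · obtain ⟨σ, d, h1, h3⟩ := mon_data (hmon₁ y hy)
      have hσ := diag_of_five h5 hS.locA.prime hnorm₁ (fun y hy => hpow y (hS.C₂_OO hy)) hy h1 h3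
      refine ⟨y, hy, d, by rw [h1, hσ, mon_one], ?_⟩
      by_contra hcon
      push Not at hcon
      apply hys
      refine ⟨d ⟨0, by omega⟩, ?_⟩
      rw [h1, hσ, smul_one_eq]
      congr 1
      funext k
      exact hcon _ _
    · obtain ⟨x, hx, hx'⟩ := exists_gen (F := F)
      refine exists_diag hn hmon₁ hnorm₁ ⟨x, hx, fun h => ?_, fun h => ?_⟩ hy hys
      · have := hx' 2 (by norm_num) h
        omega
      · have := hx' 3 (by norm_num) h
        omega
  -- `K₀`
  set K₀ : Subgroup SLL := K₁ ⊓ Dg n F with hK₀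
  have hnorm₀ : ∀ s : SLL, IsMon (s : MM) → ∀ y ∈ K₀, s * y * s⁻¹ ∈ K₀ := fun s hs y hy =>
    ⟨hnorm₁ s hs y hy.1, Dg_norm hs hy.2⟩
  have hsc : ∀ s : SLL, π s = 1 → s ∈ K₀ := fun s hs => by
    obtain ⟨c, hc⟩ := (ker_iff hM s).mp hs
    refine ⟨?_, scalar_mem_Dg hc⟩
    change π s ∈ C₂
    rw [hs]
    exact C₂.one_mem
  have hK₀mem : ∀ w : SLL, π w ∈ K₀.map π → w ∈ K₀ := fun w hw => by
    obtain ⟨k, hk, hkw⟩ := hw
    have : π (k⁻¹ * w) = 1 := by rw [map_mul, map_inv, hkw, inv_mul_cancel]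
    have h3 := K₀.mul_mem hk (hsc _ this)
    rwa [mul_inv_cancel_left] at h3
  -- the elements of `K₀` commute with the frame of `A`
  have hcomm : ∀ y ∈ K₀, cS P⁻¹ y ∈ Dg n F := by
    intro y hy
    have hyA : IsMon ((cS P⁻¹ y : SLL) : MM) := fun k => perm_of_mem hA' (s := cS P⁻¹ y) (by
      rw [MonoidHom.comp_apply, cS_cS_inv]
      exact C₂_le_A hS hy.1) k
    obtain ⟨σ, d, h1, h3⟩ := mon_data hyA
    have hσ : σ = 1 := by
      by_cases h5 : 5 ≤ n
      · refine diag_of_five (K := (OO r A).comap (π.comp (cS P))) h5 hS.locA.prime (fun s hs y hy => ?_) (fun y hy => ?_) (y := cS P⁻¹ y) ?_ h1 h3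
        · rw [Subgroup.mem_comap, map_mul, map_mul, map_inv]
          exact OO_norm hy (hA'.stab s hs)
        · obtain ⟨k, hk⟩ := OO_pow hy
          rw [← map_pow] at hk
          obtain ⟨c, hc⟩ := (ker_iff hM' _).mp hk
          exact ⟨k, c, hc⟩
        · rw [Subgroup.mem_comap, MonoidHom.comp_apply, cS_cS_inv]
          exact hS.C₂_OO hy.1
      · by_contra hne
        obtain ⟨x, hx, hx'⟩ := exists_gen (F := F)
        obtain ⟨m, hm1, hm2, hm3⟩ := pow_eq_one_of_comm (by omega) h1 h3 hne hx (by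
          rintro t ⟨f, hf⟩
          refine ⟨1, ?_⟩
          have htA : π (cS P t) ∈ A := hA'.stab t (fun k => ⟨k, by
            change (t : MM) * _ = _ * (t : MM)
            rw [hf, blk, Matrix.diagonal_mul_diagonal, Matrix.diagonal_mul_diagonal]
            congr 1
            funext a
            exact mul_comm _ _⟩)
          have h4 := tw2N hS (K := K₀.map π) (y := π y) (a := π (cS P t)) (by
              rintro _ ⟨k, hk, rfl⟩
              exact hk.1) (le_normalizer_of (by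
              rintro b ⟨hb1, hb2⟩ _ ⟨k, hk, rfl⟩
              rw [← hM.range] at hb2
              obtain ⟨s, rfl⟩ := hb2
              exact ⟨s * k * s⁻¹, hnorm₀ s (fun k => perm_of_mem hC hb1 k) k hk, by simp⟩)) ⟨y, hy, rfl⟩ (by
              rw [← hM.range]; exact ⟨y, rfl⟩) htA
          have h5' : π (cc y ((cS P t)⁻¹ * y * (cS P t))) ∈ K₀.map π := by
            rw [map_cc, map_mul, map_mul, map_inv]
            exact h4
          have h6 := hK₀mem _ h5'
          rw [cc_conj] at h6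
          have h7 : cc y (cc y (cc y (cS P t))) = 1 := by
            have := Dg_comm hy.2 h6.2
            rw [cc, mul_assoc, this]
            group
          have h8 := congrArg (cS P⁻¹) h7
          rw [map_cc, map_cc, map_cc, cS_inv_cS, map_one] at h8
          rw [h8, Matrix.SpecialLinearGroup.coe_one, one_smul])
        have := hx' m hm1 hm3
        omega
    subst hσ
    exact ⟨d, h3, h1⟩
  -- the frame of `A` is diagonal
  obtain ⟨z, hz, d, hzd, i₀, j₀, hij⟩ := hdiag
  have hd0 : ∀ k, d k ≠ 0 := fun k hk => by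
    have h := z.2
    rw [hzd, Matrix.det_diagonal, Finset.prod_eq_zero (Finset.mem_univ k) hk] at h
    exact zero_ne_one h
  have hz0 : z ∈ K₀ := ⟨hz, d, hd0, by rw [hzd, mon_one]⟩
  have hoff : ∀ i k l : Fin n, k ≠ l → (cM P (blk (id : Fin n → Fin n) i)) k l = 0 := fun i k l hkl => by
    refine diag_of_comm (by omega) hnorm₀ hz0 hzd hij (fun y hy => ?_) hkl
    obtain ⟨f, _, hf⟩ := hcomm y hy
    have h1 : blk (id : Fin n → Fin n) i * ((cS P⁻¹ y : SLL) : MM) = ((cS P⁻¹ y : SLL) : MM) * blk (id : Fin n → Fin n) i := by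
      rw [hf, mon_one, blk, Matrix.diagonal_mul_diagonal, Matrix.diagonal_mul_diagonal]
      congr 1
      funext a
      exact mul_comm _ _
    have h2 := congrArg (cM P) h1
    rw [cM_mul, cM_mul, cS_coe, cM_cM_inv] at h2
    exact h2
  -- the frames coincide
  have hlie : ∀ k, ∃ i, cM P (blk (id : Fin n → Fin n) i) * blk (id : Fin n → Fin n) k = (blk (id : Fin n → Fin n) k : MM) := by
    intro k
    have hone : ∑ i, (cM P (blk (id : Fin n → Fin n) i)) k k = (1 : F) := by
      have h1 := congrFun (congrFun hA.sum k) k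
      rw [Matrix.sum_apply, Matrix.one_apply_eq] at h1
      exact h1
    obtain ⟨i, hi⟩ : ∃ i, (cM P (blk (id : Fin n → Fin n) i)) k k ≠ (0 : F) := by
      by_contra hcon
      push Not at hcon
      rw [Finset.sum_eq_zero (fun i _ => hcon i)] at hone
      exact zero_ne_one hone
    refine ⟨i, ?_⟩
    have hidem := congrFun (congrFun (hA.idem i) k) k
    rw [Matrix.mul_apply, Finset.sum_eq_single k (fun l _ hl => by rw [hoff i k l hl.symm, zero_mul])
      (fun h => absurd (Finset.mem_univ _) h)] at hidem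
    have h1 : (cM P (blk (id : Fin n → Fin n) i)) k k = (1 : F) := mul_left_cancel₀ hi (by rw [hidem, mul_one])
    ext a c
    rw [mul_blk, blk_apply]
    simp only [id_eq]
    by_cases hc : c = k
    · subst hc
      rw [if_pos rfl]
      by_cases hac : a = c
      · subst hac; rw [h1]; simp
      · rw [hoff i a c hac, if_neg hac]
    · rw [if_neg hc]
      split_ifs with h3 h4
      · exact absurd (h3.symm.trans h4) hc
      · rfl
      · rfl
  obtain ⟨f, hf⟩ := frames_eq hC.sum hA.ne hA.orth hlie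
  refine absurd_of_inf_eq hS (inf_eq_of_frames hM hC hA f hf).symm ?_
  intro h0
  apply h2
  rw [eq_bot_iff]
  intro g hg
  rw [← h0]
  exact ⟨C₂_le_A hS hg.1, hg.2⟩

end Cfsg.Agent.H599.TW
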